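import Cfsg.Agent.Lib.Flav.Psi

/-!
# Root involutions are central in a minimal configuration
-/

set_option autoImplicit false
set_option linter.unusedSectionVars false

namespace Cfsg.Lib.Flav
open Subgroup Cfsg.Lib Cfsg.Lib.Quad
open scoped MatrixGroups commutatorElement

variable {p : ℕ} [hp : Fact p.Prime] {V : Type*} [AddCommGroup V] [Module (ZMod p) V] [Finite V]
  {Γ : Type*} [Group Γ] [Finite Γ] {ρ : Γ →* Module.End (ZMod p) V} {G : Subgroup Γ}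

theorem Root.mul_eq_zero (h5 : 5 ≤ p) (hρ : Function.Injective ρ) {a b : Γ} (ha : Root ρ G a)
    (hb : Root ρ G b) (hn : ¬ IsNilpotent (tau ρ a b)) {π : Module.End (ZMod p) V}
    (h : tau ρ a b * π = 0) : nn ρ b * π = 0 := by
  obtain ⟨m, he2⟩ := exists_idem (tau ρ a b)
  rw [← hb.mul_idem h5 hρ ha (tau_comm ρ a b ▸ hn) (m := m) (by rw [tau_comm]) he2, mul_assoc, pow_succ,
    mul_assoc, h, mul_zero, mul_zero]

theorem det_one_add {K : Type*} [Field K] {ν : Matrix (Fin 2) (Fin 2) K} (h : ν * ν = 0) :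
    ν.det = 0 ∧ (1 + ν).det = 1 := by
  have hdet : ν.det = 0 := by simpa using congrArg Matrix.det h
  refine ⟨hdet, ?_⟩
  have a0 := congrFun (congrFun h 0) 0
  have a1 := congrFun (congrFun h 1) 1
  simp only [Matrix.mul_apply, Fin.sum_univ_two, Matrix.zero_apply] at a0 a1
  rw [Matrix.det_fin_two] at hdet ⊢
  have : (ν 0 0 + ν 1 1) ^ 2 = 0 := by linear_combination a0 + a1 + 2 * hdet
  simp
  linear_combination (pow_eq_zero_iff two_ne_zero).1 this + hdet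

theorem PR.sign (h5 : 5 ≤ p) (hρ : Function.Injective ρ) {x y : Γ} (h : PR ρ G x y)
    {ψ : SL(2, ZMod p) →* Γ} (hψG : ∀ s, ψ s ∈ G)
    (hψ : ∀ s, ρ (ψ s) = 1 - tau ρ x y + Phi ρ x y s) {i j : SL(2, ZMod p)}
    (hi : i.1 * i.1 = -1) (hj : j.1 * j.1 = -1) (hij : j.1 * i.1 = -(i.1 * j.1)) {u : Γ}
    (hu : u ∈ G) {ζ₁ ζ₂ : Module.End (ZMod p) V} (c1 : ∀ g ∈ G, Commute ζ₁ (ρ g))
    (c2 : ∀ g ∈ G, Commute ζ₂ (ρ g)) (c3 : Commute ζ₁ ζ₂) (z1 : ζ₁ * ζ₁ = 1) (z2 : ζ₂ * ζ₂ = 1)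
    (e1 : ρ u * Phi ρ x y i * ρ u⁻¹ = ζ₁ * Phi ρ x y i)
    (e2 : ρ u * Phi ρ x y j * ρ u⁻¹ = ζ₂ * Phi ρ x y j)
    {δ₁ δ₂ ε₁ ε₂ : ZMod p} (d1 : δ₁ = 1 ∨ δ₁ = -1) (d2 : δ₂ = 1 ∨ δ₂ = -1)
    (d3 : ε₁ = 1 ∨ ε₁ = -1) (d4 : ε₂ = 1 ∨ ε₂ = -1) (hne : δ₁ ≠ ε₁ ∨ δ₂ ≠ ε₂) :
    (1 + δ₁ • ζ₁) * ((1 + δ₂ • ζ₂) * tau ρ x y) = 0 ∨
      (1 + ε₁ • ζ₁) * ((1 + ε₂ • ζ₂) * tau ρ x y) = 0 := by
  have h2 : (2 : ZMod p) ≠ 0 := two_ne_zero_of_charP (K := ZMod p) (p := p) (by omega)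
  have cP : ∀ {ζ : Module.End (ZMod p) V}, (∀ g ∈ G, Commute ζ (ρ g)) →
      ∀ m, Commute ζ (Phi ρ x y m) := fun c m =>
    commute_Phi ((c x h.l.mem).sub_right (Commute.one_right _))
      ((c y h.r.mem).sub_right (Commute.one_right _)) m
  have hsq : ∀ {δ : ZMod p}, δ = 1 ∨ δ = -1 → δ * δ = 1 := by rintro _ (rfl | rfl) <;> simp
  -- the nilpotent elements
  have hroot : ∀ c₁ c₂ c₃ : ZMod p, c₁ * c₁ + c₂ * c₂ + c₃ * c₃ = 0 → ¬ (c₁ = 0 ∧ c₂ = 0 ∧ c₃ = 0) →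
      ∃ a, Root ρ G a ∧ nn ρ a = c₁ • Phi ρ x y i + c₂ • Phi ρ x y j +
        c₃ • (Phi ρ x y i * Phi ρ x y j) := fun c₁ c₂ c₃ hc hc0 => by
    have hi' : ∀ t : Matrix (Fin 2) (Fin 2) (ZMod p), i.1 * (i.1 * t) = -t := fun t => by
      rw [← mul_assoc, hi, neg_one_mul]
    have hj' : ∀ t : Matrix (Fin 2) (Fin 2) (ZMod p), j.1 * (j.1 * t) = -t := fun t => by
      rw [← mul_assoc, hj, neg_one_mul]
    have hij' : ∀ t : Matrix (Fin 2) (Fin 2) (ZMod p), j.1 * (i.1 * t) = -(i.1 * (j.1 * t)) :=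
      fun t => by rw [← mul_assoc, hij, neg_mul, mul_assoc]
    set ν := c₁ • i.1 + c₂ • j.1 + c₃ • (i.1 * j.1) with hν
    have key : ∀ (w : Matrix (Fin 2) (Fin 2) (ZMod p)) (c : ZMod p), ν = 0 →
        ν * w + w * ν = (-2 * c) • 1 → c = 0 := fun w c h0 e => by
      have := congrFun (congrFun e 0) 0
      simpa [h0, h2] using this
    have hν0 : ν ≠ 0 := fun h0 => hc0 ⟨key i.1 _ h0 ?_, key j.1 _ h0 ?_, key (i.1 * j.1) _ h0 ?_⟩
    have hν2 : ν * ν = 0 := by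
      have : ν * ν = (-(c₁ * c₁ + c₂ * c₂ + c₃ * c₃)) • 1 := by
        simp only [hν, mul_add, add_mul, smul_mul_assoc, mul_smul_comm, mul_assoc, hi, hj, hij,
          hi', hj', hij', mul_neg, mul_one, neg_neg]
        module
      rw [this, hc]; simp
    obtain ⟨hdet, hdet1⟩ := det_one_add hν2
    obtain ⟨s, hs⟩ : ∃ s : SL(2, ZMod p), s.1 = 1 + ν := ⟨⟨1 + ν, hdet1⟩, rfl⟩
    have e : nn ρ (ψ s) = Phi ρ x y ν := by
      rw [nn, hψ, hs, map_add, Phi_one]; abel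
    refine ⟨ψ s, ⟨hψG _, fun h0 => hν0 (h.Phi_eq_zero (e ▸ h0)),
      by rw [e, ← h.Phi_mul, hν2, map_zero], fun b b1 b2 b3 => ?_⟩, ?_⟩
    · rw [e]; exact (h.rk_Phi hdet).trans (h.l.min b b1 b2 b3)
    · rw [e, hν, ← h.Phi_mul]; simp
    all_goals
      simp only [hν, mul_add, add_mul, smul_mul_assoc, mul_smul_comm, mul_assoc, hi, hj, hij,
        hi', hj', hij', mul_neg, mul_one, neg_neg]
      module
  have I2 : Phi ρ x y i * Phi ρ x y i = -tau ρ x y := by rw [← h.Phi_mul, hi, map_neg, Phi_one]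
  have J2 : Phi ρ x y j * Phi ρ x y j = -tau ρ x y := by rw [← h.Phi_mul, hj, map_neg, Phi_one]
  have JI : Phi ρ x y j * Phi ρ x y i = -(Phi ρ x y i * Phi ρ x y j) := by
    rw [← h.Phi_mul, hij, map_neg, h.Phi_mul]
  have eI := h.tau_Phi i
  have eJ := h.tau_Phi j
  have Ie := h.Phi_tau i
  have Je := h.Phi_tau j
  have ee := h.tau_tau
  have a1 := cP c1 i
  have a2 := cP c1 j
  have a3 := cP c2 i
  have a4 := cP c2 j
  have a5 : Commute ζ₁ (tau ρ x y) := Phi_one (ρ := ρ) x y ▸ cP c1 1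
  have a6 : Commute ζ₂ (tau ρ x y) := Phi_one (ρ := ρ) x y ▸ cP c2 1
  generalize Phi ρ x y i = I at *
  generalize Phi ρ x y j = J at *
  generalize tau ρ x y = e at *
  have I2' : ∀ t, I * (I * t) = -(e * t) := fun t => by rw [← mul_assoc, I2, neg_mul]
  have J2' : ∀ t, J * (J * t) = -(e * t) := fun t => by rw [← mul_assoc, J2, neg_mul]
  have JI' : ∀ t, J * (I * t) = -(I * (J * t)) := fun t => by
    rw [← mul_assoc, JI, neg_mul, mul_assoc]
  have eI' : ∀ t, e * (I * t) = I * t := fun t => by rw [← mul_assoc, eI]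
  have eJ' : ∀ t, e * (J * t) = J * t := fun t => by rw [← mul_assoc, eJ]
  have hπ : ∀ {δ₁ δ₂ : ZMod p}, δ₁ * δ₁ = 1 → δ₂ * δ₂ = 1 → ∀ π,
      π = (1 + δ₁ • ζ₁) * ((1 + δ₂ • ζ₂) * e) → ζ₁ * π = δ₁ • π ∧ ζ₂ * π = δ₂ • π ∧ e * π = π ∧
        Commute I π ∧ Commute J π := by
    rintro δ₁ δ₂ q1 q2 _ rfl
    have k : ∀ {ζ : Module.End (ZMod p) V} {δ : ZMod p}, ζ * ζ = 1 → δ * δ = 1 →
        ζ * (1 + δ • ζ) = δ • (1 + δ • ζ) := fun h1 h2 => by
      rw [mul_add, mul_smul_comm, h1, smul_add, smul_smul, h2, one_smul, mul_one, add_comm]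
    refine ⟨?_, ?_, ?_, ?_, ?_⟩
    · rw [← mul_assoc, k z1 q1, smul_mul_assoc]
    · rw [((Commute.one_right _).add_right (c3.symm.smul_right _)).left_comm, ← mul_assoc ζ₂,
        k z2 q2, smul_mul_assoc, mul_smul_comm]
    · simp only [mul_add, add_mul, smul_mul_assoc, mul_smul_comm, one_mul, a5.symm.left_comm,
        a6.symm.left_comm, ee]
    · exact ((Commute.one_right _).add_right (a1.symm.smul_right _)).mul_right
        (((Commute.one_right _).add_right (a3.symm.smul_right _)).mul_right (Ie.trans eI.symm))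
    · exact ((Commute.one_right _).add_right (a2.symm.smul_right _)).mul_right
        (((Commute.one_right _).add_right (a4.symm.smul_right _)).mul_right (Je.trans eJ.symm))
  obtain ⟨p1, p2, p3, p4, p5⟩ := hπ (hsq d1) (hsq d2) _ rfl
  obtain ⟨q1, q2, q3, -, -⟩ := hπ (hsq d3) (hsq d4) _ rfl
  generalize (1 + δ₁ • ζ₁) * ((1 + δ₂ • ζ₂) * e) = π at *
  generalize (1 + ε₁ • ζ₁) * ((1 + ε₂ • ζ₂) * e) = π' at *
  obtain ⟨c₁, c₂, c₃, hc, ht⟩ : ∃ c₁ c₂ c₃ : ZMod p, c₁ * c₁ + c₂ * c₂ + c₃ * c₃ = 0 ∧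
      δ₁ * ε₁ * (c₁ * c₁) + δ₂ * ε₂ * (c₂ * c₂) + δ₁ * ε₁ * (δ₂ * ε₂) * (c₃ * c₃) = 2 := by
    obtain ⟨a, b, hab⟩ := ZMod.sq_add_sq p (-1)
    have k : ∀ {δ ε : ZMod p}, δ = 1 ∨ δ = -1 → ε = 1 ∨ ε = -1 →
        (δ * ε = 1 ∨ δ * ε = -1) ∧ (δ ≠ ε → δ * ε = -1) := by
      rintro _ _ (rfl | rfl) (rfl | rfl) <;> simp
    obtain ⟨k1, k2⟩ := k d1 d3
    obtain ⟨k3, k4⟩ := k d2 d4
    rcases hne with hne | hne
    · rcases k3 with k3 | k3
      · exact ⟨a, 1, b, by linear_combination hab, by rw [k2 hne, k3]; linear_combination -hab⟩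
      · exact ⟨a, b, 1, by linear_combination hab, by rw [k2 hne, k3]; linear_combination -hab⟩
    · rcases k1 with k1 | k1
      · exact ⟨1, a, b, by linear_combination hab, by rw [k4 hne, k1]; linear_combination -hab⟩
      · exact ⟨a, b, 1, by linear_combination hab, by rw [k4 hne, k1]; linear_combination -hab⟩
  have hc0 : ¬ (c₁ = 0 ∧ c₂ = 0 ∧ c₃ = 0) := by
    rintro ⟨rfl, rfl, rfl⟩
    exact h2 (by simpa using ht.symm)
  have s1 := hsq d1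
  have s2 := hsq d2
  have n1 : δ₁ ≠ 0 := left_ne_zero_of_mul_eq_one s1
  have n2 : δ₂ ≠ 0 := left_ne_zero_of_mul_eq_one s2
  obtain ⟨a, ha, ea⟩ := hroot c₁ c₂ c₃ hc hc0
  obtain ⟨b, hb, eb⟩ := hroot (δ₁ * c₁) (δ₂ * c₂) (δ₁ * δ₂ * c₃) (by
    linear_combination (c₁ * c₁ + δ₂ * δ₂ * c₃ * c₃) * s1 + (c₂ * c₂ + c₃ * c₃) * s2 + hc)
    (by simpa [n1, n2] using hc0)
  have ea' : nn ρ (u * a * u⁻¹) = c₁ • (ζ₁ * I) + c₂ • (ζ₂ * J) + c₃ • (ζ₁ * (ζ₂ * (I * J))) := by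
    have : ρ u * (I * J) * ρ u⁻¹ = ζ₁ * (ζ₂ * (I * J)) := by
      calc ρ u * (I * J) * ρ u⁻¹ = (ρ u * I * ρ u⁻¹) * (ρ u * J * ρ u⁻¹) := by
            simp only [mul_assoc]; rw [← mul_assoc (ρ u⁻¹), rho_inv_mul, one_mul]
        _ = _ := by rw [e1, e2, mul_assoc, a3.symm.left_comm]
    rw [nn_conj, ea]
    simp only [mul_add, add_mul, smul_mul_assoc, mul_smul_comm, e1, e2, this]
  have hτ : tau ρ (u * a * u⁻¹) b = (-2 * δ₁ * (c₁ * c₁)) • (ζ₁ * e) +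
      (-2 * δ₂ * (c₂ * c₂)) • (ζ₂ * e) + (-2 * δ₁ * δ₂ * (c₃ * c₃)) • (ζ₁ * (ζ₂ * e)) := by
    rw [tau, ea', eb]
    simp only [mul_add, add_mul, smul_mul_assoc, mul_smul_comm, mul_assoc, a1.symm.left_comm,
      a2.symm.left_comm, a3.symm.left_comm, a4.symm.left_comm, I2, J2, JI, I2', J2', JI', eI, eJ,
      Ie, Je, ee, mul_neg, neg_neg]
    module
  by_cases h0 : π' = 0
  · exact .inr h0
  refine .inl ?_
  have h3 : tau ρ (u * a * u⁻¹) b * π' = (-4 : ZMod p) • π' := by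
    rw [hτ]
    simp only [add_mul, smul_mul_assoc, mul_assoc, q1, q2, q3, mul_smul_comm, smul_smul, ← add_smul]
    congr 1
    linear_combination -2 * ht
  have h4 : nn ρ b * π = 0 := (ha.conj hu).mul_eq_zero h5 hρ hb (by
    rintro ⟨n, hn⟩
    have : ∀ n, tau ρ (u * a * u⁻¹) b ^ n * π' = (-4 : ZMod p) ^ n • π' := fun n => by
      induction n with
      | zero => simp
      | succ n ih => rw [pow_succ, mul_assoc, h3, mul_smul_comm, ih, smul_smul, pow_succ']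
    have h6 := this n
    rw [hn, zero_mul, eq_comm, smul_eq_zero] at h6
    refine h0 (h6.resolve_left (pow_ne_zero _ (neg_ne_zero.2 ?_)))
    rw [show (4 : ZMod p) = 2 * 2 by norm_num]
    exact mul_ne_zero h2 h2) (by
    rw [hτ]
    simp only [add_mul, smul_mul_assoc, mul_assoc, p1, p2, p3, mul_smul_comm, smul_smul, ← add_smul]
    rw [smul_eq_zero]
    left
    linear_combination -2 * ((c₁ * c₁ + δ₂ * δ₂ * c₃ * c₃) * s1 + (c₂ * c₂ + c₃ * c₃) * s2 + hc))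
  have key : ∀ (w : Module.End (ZMod p) V) (c : ZMod p), Commute w π →
      nn ρ b * w + w * nn ρ b = (-2 * c) • e → c ≠ 0 → π = 0 := fun w c hw e hc => by
    have := congrArg (· * π) e
    simp only [add_mul, mul_assoc, hw.eq, smul_mul_assoc, p3, h4] at this
    rw [← mul_assoc, h4] at this
    simpa [h2, hc] using this
  by_contra h6
  refine hc0 ⟨?_, ?_, ?_⟩ <;> by_contra h7
  · refine h6 (key I (δ₁ * c₁) p4 ?_ (mul_ne_zero n1 h7))
    rw [eb]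
    simp only [mul_add, add_mul, smul_mul_assoc, mul_smul_comm, mul_assoc, I2, J2, JI, I2', J2',
      JI', eI, eJ, Ie, Je, ee, mul_neg, neg_neg]
    module
  · refine h6 (key J (δ₂ * c₂) p5 ?_ (mul_ne_zero n2 h7))
    rw [eb]
    simp only [mul_add, add_mul, smul_mul_assoc, mul_smul_comm, mul_assoc, I2, J2, JI, I2', J2',
      JI', eI, eJ, Ie, Je, ee, mul_neg, neg_neg]
    module
  · refine h6 (key (I * J) (δ₁ * δ₂ * c₃) (p4.mul_left p5) ?_ (mul_ne_zero (mul_ne_zero n1 n2) h7))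
    rw [eb]
    simp only [mul_add, add_mul, smul_mul_assoc, mul_smul_comm, mul_assoc, I2, J2, JI, I2', J2',
      JI', eI, eJ, Ie, Je, ee, mul_neg, neg_neg]
    module

theorem or_of_four {R : Type*} [Ring R] (h2 : IsUnit (2 : R)) {a b c d P Q : R}
    (t1 : a = 0 ∨ c = 0) (t2 : a = 0 ∨ d = 0) (t3 : b = 0 ∨ c = 0) (t4 : b = 0 ∨ d = 0)
    (e1 : 2 * P = a + b) (e2 : 2 * Q = c + d) : P = 0 ∨ Q = 0 := by
  rw [← h2.mul_right_eq_zero, ← h2.mul_right_eq_zero (b := Q), e1, e2]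
  by_cases ha : a = 0 <;> by_cases hb : b = 0 <;> simp_all

theorem commute_tau (h5 : 5 ≤ p) {x y : Γ} {ψ : SL(2, ZMod p) →* Γ}
    (hψ : ∀ s, ρ (ψ s) = 1 - tau ρ x y + Phi ρ x y s) {u : Γ} (h : Commute u (ψ (-1))) :
    Commute (ρ u) (tau ρ x y) := by
  have h3 := h.map ρ
  rw [hψ, Matrix.SpecialLinearGroup.coe_neg, Matrix.SpecialLinearGroup.coe_one, map_neg,
    Phi_one] at h3
  have h4 : 2 * tau ρ x y = 1 - (1 - tau ρ x y + -tau ρ x y) := by rw [two_mul]; abel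
  have h6 := (Commute.one_right _).sub_right h3
  rw [← h4] at h6
  refine (isUnit_two (V := V) h5).mul_left_cancel ?_
  rw [← (Commute.ofNat_right _ 2).left_comm, h6.eq, mul_assoc]

theorem PR.comm_of_quat (h5 : 5 ≤ p) (hρ : Function.Injective ρ) {x y : Γ}
    {ψ : SL(2, ZMod p) →* Γ} (hψ : ∀ s, ρ (ψ s) = 1 - tau ρ x y + Phi ρ x y s) {i j : SL(2, ZMod p)}
    (hi : i.1 * i.1 = -1) (hs : ∀ m : Matrix (Fin 2) (Fin 2) (ZMod p), ∃ c₀ c₁ c₂ c₃ : ZMod p,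
      m = c₀ • (1 : Matrix (Fin 2) (Fin 2) (ZMod p)) + c₁ • i.1 + c₂ • j.1 + c₃ • (i.1 * j.1))
    {u : Γ} (h1 : Commute u (ψ i)) (h2 : Commute u (ψ j)) : Commute u x ∧ Commute u y := by
  have k : ∀ {s}, Commute u (ψ s) → Commute (ρ u) (1 - tau ρ x y + Phi ρ x y s.1) := fun h => by
    rw [← hψ]; exact h.map ρ
  have e0 := commute_tau h5 hψ (u := u) (by
    rw [← show i * i = -1 from Subtype.ext hi, map_mul]; exact h1.mul_right h1)
  have k' : ∀ {s}, Commute u (ψ s) → Commute (ρ u) (Phi ρ x y s.1) := fun h => by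
    simpa using (k h).sub_right ((Commute.one_right _).sub_right e0)
  have h3 : ∀ m, Commute (ρ u) (Phi ρ x y m) := fun m => by
    obtain ⟨c₀, c₁, c₂, c₃, rfl⟩ := hs m
    have h4 := k' (s := i * j) (by rw [map_mul]; exact h1.mul_right h2)
    rw [Matrix.SpecialLinearGroup.coe_mul] at h4
    simp only [map_add, map_smul, Phi_one]
    exact (((e0.smul_right _).add_right ((k' h1).smul_right _)).add_right
      ((k' h2).smul_right _)).add_right (h4.smul_right _)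
  have h4 : ∀ {w}, Commute (ρ u) (nn ρ w) → Commute u w := fun {w} h => hρ (by
    rw [map_mul, map_mul, rho_eq ρ w, ((Commute.one_right _).add_right h).eq])
  exact ⟨h4 (by simpa [Phi_apply] using h3 !![0, 1; 0, 0]),
    h4 (by simpa [Phi_apply] using h3 !![0, 0; 1, 0])⟩

theorem PR.central (h5 : 5 ≤ p) (hρ : Function.Injective ρ) [hG : G.Normal] {A : Subgroup Γ}
    (hA : CoprimeAct A G) (hmin : ∀ H ≤ G, A ≤ normalizer (H : Set Γ) → ∀ x ∈ H, ∀ y ∈ H,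
      PR ρ G x y → H = G) {x y : Γ} (h : PR ρ G x y) : ∀ g ∈ G, Commute (ρ g) (tau ρ x y) := by
  obtain ⟨i, j, hi, hj, hij, hs⟩ := exists_quat h5
  obtain ⟨T, hT, hAT⟩ := hA.exists_isSylowIn 2
  have h2 := isUnit_two (V := V) h5
  have hi' : i * i = -1 := Subtype.ext hi
  have hj' : j * j = -1 := Subtype.ext hj
  have hij' : j * i = -(i * j) := Subtype.ext hij
  suffices key : ∀ {x y : Γ}, PR ρ G x y → ∀ ψ : SL(2, ZMod p) →* Γ, (∀ s, ψ s ∈ G) →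
      (∀ s, ρ (ψ s) = 1 - tau ρ x y + Phi ρ x y s) → ψ i ∈ T → ψ j ∈ T →
      ∀ g ∈ G, Commute (ρ g) (tau ρ x y) by
    obtain ⟨ψ, h3, hψ⟩ := h.exists_psi hρ
    have k : ∀ s : SL(2, ZMod p), s * s = -1 → IsPGroup 2 (zpowers s) := fun s hs =>
      IsPGroup.of_card_dvd_pow (n := 2) (by
        rw [Nat.card_zpowers]
        exact orderOf_dvd_of_pow_eq_one (by rw [show 2 ^ 2 = 2 * 2 from rfl, pow_mul, sq s, hs]; simp))
    have h4 : IsPGroup 2 ↥(zpowers i ⊔ zpowers j) := (k i hi').to_sup_of_normal_left' (k j hj')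
      (zpowers_le.2 (mem_normalizer_fintype fun w hw => by
        obtain ⟨n, rfl⟩ := mem_zpowers_iff.1 hw
        rw [← conj_zpow, hij', neg_mul, mul_inv_cancel_right]
        refine zpow_mem ?_ n
        rw [← neg_one_mul, ← hi']
        exact mul_mem (mul_mem (mem_zpowers i) (mem_zpowers i)) (mem_zpowers i)))
    obtain ⟨g, hg, h6⟩ := hT.exists_conj_le (h4.map ψ) (by
      rintro _ ⟨s, -, rfl⟩; exact h.closure_le (h3 s))
    have h7 := key (h.conj g) ((MulAut.conj g).toMonoidHom.comp ψ)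
      (fun s => hG.conj_mem _ (h.closure_le (h3 s)) g) (fun s => by
        change ρ (g * ψ s * g⁻¹) = _
        rw [map_mul, map_mul, hψ, ← Phi_one, ← Phi_one, Phi_conj, Phi_conj]
        simp only [mul_add, add_mul, mul_sub, sub_mul, mul_one, rho_mul_inv])
      (h6 ⟨_, ⟨i, mem_sup_left (mem_zpowers i), rfl⟩, rfl⟩)
      (h6 ⟨_, ⟨j, mem_sup_right (mem_zpowers j), rfl⟩, rfl⟩)
    intro k hk
    have h8 := h7 _ (inv_mem hg)
    have h9 := h7 _ hk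
    rw [← Phi_one, Phi_conj, Phi_one] at h8 h9
    have h10 := h8.eq
    rw [← mul_assoc, ← mul_assoc, rho_inv_mul, one_mul, (isUnit_rho ρ _).mul_left_inj] at h10
    rwa [← h10] at h9
  intro x y h ψ hψG hψ hiT hjT
  by_contra hne
  set Z := centralizer (G : Set Γ) with hZ
  have hZ' : ∀ {z}, z ∈ Z → ∀ g ∈ G, Commute z g := fun hz g hg =>
    (mem_centralizer_iff.1 hz g hg).symm
  have hz : ψ (-1) ∉ Z := fun hz => hne fun g hg => commute_tau h5 hψ (hZ' hz g hg).symm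
  let S : Set Γ := {u | u ∈ T ∧ u ^ 2 ∈ Z ∧ ∀ t ∈ T, ⁅u, t⁆ ∈ Z}
  have hZn : Z.Normal := inferInstance
  have hS : ∀ u ∈ S, Commute u x ∧ Commute u y := by
    rintro u ⟨huT, hu2, hu⟩
    have huG := hT.le huT
    have k : ∀ s : SL(2, ZMod p), s * s = -1 → ψ s ∈ T → ⁅u, ψ s⁆ * ⁅u, ψ s⁆ = 1 ∧
        u * ψ s * u⁻¹ = ⁅u, ψ s⁆ * ψ s ∧ Commute u (ψ (-1)) := fun s hs hsT => by
      have c1 := hZ' (hu _ hsT)
      have e1 : u * ψ s * u⁻¹ = ⁅u, ψ s⁆ * ψ s := by rw [commutatorElement_def]; group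
      generalize ⁅u, ψ s⁆ = ζ at c1 e1
      have e2 : ζ * ζ = 1 := by
        have : u ^ 2 * ψ s = ζ * ζ * ψ s * u ^ 2 := by
          calc u ^ 2 * ψ s = u * (u * ψ s * u⁻¹) * u⁻¹ * u ^ 2 := by rw [sq]; group
            _ = _ := by
              rw [e1, ← mul_assoc u, ← (c1 u huG).eq, mul_assoc ζ u, mul_assoc ζ, e1, ← mul_assoc]
        rwa [(hZ' hu2 _ (hψG s)).eq, mul_left_inj, right_eq_mul] at this
      refine ⟨e2, e1, mul_inv_eq_iff_eq_mul.1 ?_⟩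
      rw [← hs, map_mul, ← conj_mul, e1, mul_assoc, ← mul_assoc (ψ s), ← (c1 _ (hψG s)).eq,
        mul_assoc, ← mul_assoc, e2, one_mul]
    obtain ⟨z1, e1, c0⟩ := k i hi' hiT
    obtain ⟨z2, e2, -⟩ := k j hj' hjT
    have c1 := hZ' (hu _ hiT)
    have c2 := hZ' (hu _ hjT)
    have c3 := c1 ⁅u, ψ j⁆ (mul_mem (mul_mem (mul_mem huG (hψG j)) (inv_mem huG))
      (inv_mem (hψG j)))
    have hζ1 := hu _ hiT
    have hζ2 := hu _ hjT
    generalize ⁅u, ψ i⁆ = ζ₁ at *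
    generalize ⁅u, ψ j⁆ = ζ₂ at *
    have e0 := commute_tau h5 hψ c0
    have k2 : ∀ {s : SL(2, ZMod p)} {ζ : Γ}, u * ψ s * u⁻¹ = ζ * ψ s →
        ρ u * Phi ρ x y s * ρ u⁻¹ = ρ ζ * Phi ρ x y s ∧
          ρ ζ * (1 - tau ρ x y) = 1 - tau ρ x y := fun {s ζ} e => by
      have e' := congrArg ρ e
      simp only [map_mul, hψ] at e'
      have e0' : Commute (ρ u⁻¹) (tau ρ x y) := by
        rw [← one_mul (tau ρ x y), ← rho_inv_mul ρ u, mul_assoc, e0.eq, Commute, SemiconjBy]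
        simp only [mul_assoc, rho_mul_inv, mul_one]
        rw [← e0.eq, ← mul_assoc (ρ u⁻¹) (ρ u), rho_inv_mul, one_mul]
      have a1 : (1 - tau ρ x y + Phi ρ x y s) * tau ρ x y = Phi ρ x y s := by
        rw [add_mul, sub_mul, h.tau_tau, h.Phi_tau]; simp
      have a2 : (1 - tau ρ x y + Phi ρ x y s) * (1 - tau ρ x y) = 1 - tau ρ x y := by
        rw [mul_sub, a1]; simp
      constructor
      · have := congrArg (· * tau ρ x y) e'
        simp only [mul_assoc, e0'.eq, a1] at this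
        rwa [← mul_assoc _ (tau ρ x y), a1, ← mul_assoc] at this
      · have := congrArg (· * (1 - tau ρ x y)) e'
        simp only [mul_assoc, ((Commute.one_right _).sub_right e0').eq, a2] at this
        rw [← this, ← mul_assoc _ (1 - tau ρ x y), a2, ← mul_assoc,
          ((Commute.one_right _).sub_right e0).eq, mul_assoc, rho_mul_inv, mul_one]
    have sg := fun δ₁ δ₂ ε₁ ε₂ => h.sign h5 hρ hψG hψ hi hj hij huG
      (fun g hg => (c1 g hg).map ρ) (fun g hg => (c2 g hg).map ρ) (c3.map ρ)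
      (by rw [← map_mul, z1, map_one]) (by rw [← map_mul, z2, map_one]) (k2 e1).1 (k2 e2).1
      (δ₁ := δ₁) (δ₂ := δ₂) (ε₁ := ε₁) (ε₂ := ε₂)
    have n1 : (1 : ZMod p) ≠ -1 := fun e =>
      two_ne_zero_of_charP (K := ZMod p) (p := p) (by omega) (by linear_combination e)
    have k3 : ∀ {ζ : Γ}, ζ ∈ Z → ρ ζ * (1 - tau ρ x y) = 1 - tau ρ x y →
        ((1 + ρ ζ) * tau ρ x y = 0 ∨ (1 - ρ ζ) * tau ρ x y = 0) → ζ = 1 := fun {ζ} h3 h4 h6 => by
      rw [mul_sub, mul_one, sub_eq_iff_eq_add] at h4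
      rcases h6 with h6 | h6
      · refine absurd (h3 : ζ ∈ Z) (hρ (show ρ (ψ (-1)) = ρ ζ from ?_) ▸ hz)
        rw [add_mul, one_mul, add_eq_zero_iff_neg_eq] at h6
        rw [h4, ← h6, hψ, Matrix.SpecialLinearGroup.coe_neg, Matrix.SpecialLinearGroup.coe_one,
          map_neg, Phi_one]
      · rw [sub_mul, one_mul, sub_eq_zero] at h6
        exact hρ (by rw [h4, ← h6]; simp)
    have h3 := k3 hζ1 (k2 e1).2 (or_of_four h2
      (sg 1 1 (-1) 1 (.inl rfl) (.inl rfl) (.inr rfl) (.inl rfl) (.inl n1))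
      (sg 1 1 (-1) (-1) (.inl rfl) (.inl rfl) (.inr rfl) (.inr rfl) (.inl n1))
      (sg 1 (-1) (-1) 1 (.inl rfl) (.inr rfl) (.inr rfl) (.inl rfl) (.inl n1))
      (sg 1 (-1) (-1) (-1) (.inl rfl) (.inr rfl) (.inr rfl) (.inr rfl) (.inl n1))
      (by simp only [one_smul, neg_smul]; noncomm_ring)
      (by simp only [one_smul, neg_smul]; noncomm_ring))
    have h4 := k3 hζ2 (k2 e2).2 (by
      subst h3
      simpa [← sub_eq_add_neg, one_add_one_eq_two, h2.mul_right_eq_zero] using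
        sg 1 1 1 (-1) (.inl rfl) (.inl rfl) (.inl rfl) (.inr rfl) (.inr n1))
    rw [h3, one_mul, mul_inv_eq_iff_eq_mul] at e1
    rw [h4, one_mul, mul_inv_eq_iff_eq_mul] at e2
    exact PR.comm_of_quat h5 hρ hψ hi hs e1 e2
  have hH := hmin (G ⊓ centralizer S) inf_le_left (pg_le_normalizer_inf hA.norm fun r hr => by
    refine mem_normalizer_fintype fun g hg => mem_centralizer_iff.2 fun u hu => ?_
    have hr' := (mem_normalizer_iff''.1 (hAT hr))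
    have hu' : r⁻¹ * u * r ∈ S := ⟨(hr' u).1 hu.1, by
      simpa [sq, mul_assoc] using hZn.conj_mem' _ hu.2.1 r, fun t ht => by
        have := hZn.conj_mem' _ (hu.2.2 _ ((mem_normalizer_iff.1 (hAT hr) t).1 ht)) r
        simpa [commutatorElement_def, mul_assoc] using this⟩
    have := mem_centralizer_iff.1 hg _ hu'
    calc u * (r * g * r⁻¹) = r * (r⁻¹ * u * r * g) * r⁻¹ := by group
      _ = _ := by rw [this]; group)
    x ⟨h.l.mem, mem_centralizer_iff.2 fun u hu => (hS u hu).1⟩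
    y ⟨h.r.mem, mem_centralizer_iff.2 fun u hu => (hS u hu).2⟩ h
  obtain ⟨u, huT, hu1, hu2, hu3⟩ := pg_exists_fixed_mod hT.isPGroup hT.isPGroup le_normalizer
    (K := T ⊓ Z) (lt_of_le_of_ne inf_le_left fun e => hz (by
      rw [← hi', map_mul]; exact (e.ge (mul_mem hiT hiT)).2))
    (pg_le_normalizer_inf le_normalizer le_normalizer_of_normal)
    (pg_le_normalizer_inf le_normalizer le_normalizer_of_normal)
  refine hu1 ⟨huT, mem_centralizer_iff.2 fun g hg => ?_⟩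
  exact (mem_centralizer_iff.1 (hH.ge hg).2 u ⟨huT, hu2.2, fun t ht => (hu3 t ht).2⟩).symm

end Cfsg.Lib.Flav
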