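import Cfsg.Agent.Lib.Flav.Half
import Cfsg.Agent.Lib.Flav.Central
import Cfsg.Agent.Lib.PGroup.QdSection

/-!
# A section `PSL(2, p)` in the fixed points
-/

set_option autoImplicit false
set_option linter.unusedSectionVars false

namespace Cfsg.Lib.Flav
open Subgroup Cfsg.Lib Cfsg.Lib.Quad
open scoped MatrixGroups

theorem section_of_cover {S Γ : Type*} [Group S] [Group Γ] (ψ : S →* Γ)
    (hψ : Function.Injective ψ) (D : Subgroup Γ)
    (h : ∀ s, ∃ g ∈ D, ∀ t, g * ψ t * g⁻¹ = ψ (s * t * s⁻¹)) :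
    PgHasSection (S ⧸ center S) D := by
  have key : ∀ {g : Γ} {s s' : S}, (∀ t, g * ψ t * g⁻¹ = ψ (s * t * s⁻¹)) →
      (∀ t, g * ψ t * g⁻¹ = ψ (s' * t * s'⁻¹)) → (s : S ⧸ center S) = s' := fun {g s s'} h h' =>
    QuotientGroup.eq.2 (mem_center_iff.2 fun t => by
      have := hψ ((h t).symm.trans (h' t))
      calc t * (s⁻¹ * s') = s⁻¹ * (s * t * s⁻¹) * s' := by group
        _ = _ := by rw [this]; group)
  have mul : ∀ {g g' : Γ} {s s' : S}, (∀ t, g * ψ t * g⁻¹ = ψ (s * t * s⁻¹)) →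
      (∀ t, g' * ψ t * g'⁻¹ = ψ (s' * t * s'⁻¹)) →
      ∀ t, g * g' * ψ t * (g * g')⁻¹ = ψ (s * s' * t * (s * s')⁻¹) := fun {g g' s s'} h h' t => by
    rw [show g * g' * ψ t * (g * g')⁻¹ = g * (g' * ψ t * g'⁻¹) * g⁻¹ by group, h', h]
    congr 1; group
  let M : Subgroup D :=
    { carrier := {g | ∃ s, ∀ t, g * ψ t * (g : Γ)⁻¹ = ψ (s * t * s⁻¹)}
      one_mem' := ⟨1, by simp⟩
      mul_mem' := fun ⟨s, hs⟩ ⟨s', hs'⟩ => ⟨s * s', mul hs hs'⟩
      inv_mem' := fun {g} ⟨s, hs⟩ => ⟨s⁻¹, fun t => by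
        have := hs (s⁻¹ * t * s)
        rw [show s * (s⁻¹ * t * s) * s⁻¹ = t by group] at this
        rw [← this]; simp [mul_assoc]⟩ }
  refine ⟨M, MonoidHom.mk' (fun g => (g.2.choose : S ⧸ center S)) fun g g' =>
    key (g * g').2.choose_spec (mul g.2.choose_spec g'.2.choose_spec), fun s => ?_⟩
  obtain ⟨s, rfl⟩ := QuotientGroup.mk_surjective s
  obtain ⟨g, hg, e⟩ := h s
  have hm : (⟨g, hg⟩ : D) ∈ M := ⟨s, e⟩
  exact ⟨⟨_, hm⟩, key hm.choose_spec e⟩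

variable {p : ℕ} [hp : Fact p.Prime] {V : Type*} [AddCommGroup V] [Module (ZMod p) V] [Finite V]
  {Γ : Type*} [Group Γ] [Finite Γ] {ρ : Γ →* Module.End (ZMod p) V} {G : Subgroup Γ}

theorem PR.psi_inj {x y : Γ} (h : PR ρ G x y) {ψ : SL(2, ZMod p) →* Γ}
    (hψ : ∀ s, ρ (ψ s) = 1 - tau ρ x y + Phi ρ x y s) : Function.Injective ψ := fun s t e => by
  have := (hψ s).symm.trans ((congrArg ρ e).trans (hψ t))
  exact Subtype.ext (sub_eq_zero.1 (h.Phi_eq_zero (by rw [map_sub, add_left_cancel this, sub_self])))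

namespace Cen
variable (h : Cen ρ G) [hG : G.Normal] {A : Subgroup Γ} (hA : CoprimeAct A G) {a : Γ}
include h hA

theorem odd_card (ha : Root ρ G a) : Odd (Nat.card A) := by
  obtain ⟨y, hy⟩ := h.part a ha
  obtain ⟨ψ, h1, h2⟩ := hy.exists_psi h.inj
  have h3 : orderOf (ψ (-1)) = 2 := orderOf_eq_prime (by rw [← map_pow]; simp) fun e => by
    have := congrArg (fun s : SL(2, ZMod p) => s.1 0 0) (hy.psi_inj h2 (e.trans ψ.map_one.symm))
    refine two_ne_zero_of_charP (K := ZMod p) (p := p) (by have := h.h5; omega) ?_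
    simp at this
    linear_combination -this
  have := hA.cop.coprime_dvd_right (h3 ▸ orderOf_dvd_natCard G (hy.closure_le (h1 _)))
  exact Nat.coprime_two_right.1 this

theorem exists_fixed_root (ha : Root ρ G a) :
    ∃ x, Root ρ G x ∧ ∀ r ∈ A, Rel ρ x (r * x * r⁻¹) → Commute r x := by
  have hc : CoprimeAct (A ⊓ h.St ha) (G ⊓ h.St ha) :=
    (hA.mono_left inf_le_left).inf_right (inf_le_right.trans le_normalizer)
  have mul : ∀ {r s}, r ∈ A ⊓ h.St ha → (∃ k ∈ G ⊓ h.St ha, k * a * k⁻¹ = r * a * r⁻¹) →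
      (∃ k ∈ G ⊓ h.St ha, k * a * k⁻¹ = s * a * s⁻¹) →
      ∃ k ∈ G ⊓ h.St ha, k * a * k⁻¹ = r * s * a * (r * s)⁻¹ := by
    rintro r s hr ⟨k, hk, e⟩ ⟨k', hk', e'⟩
    refine ⟨r * k' * r⁻¹ * k, mul_mem (hc.conj_mem hr hk') hk, ?_⟩
    calc _ = r * k' * r⁻¹ * (k * a * k⁻¹) * (r * k' * r⁻¹)⁻¹ := by group
      _ = r * (k' * a * k'⁻¹) * r⁻¹ := by rw [e]; group
      _ = _ := by rw [e']; group
  obtain ⟨k, hk, hk'⟩ := hc.glauberman (centralizer {a}) fun r hr => by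
    suffices ∃ k ∈ G ⊓ h.St ha, k * a * k⁻¹ = r * a * r⁻¹ by
      obtain ⟨k, hk, e⟩ := this
      refine ⟨k, hk, mem_centralizer_singleton_iff.2 ?_⟩
      calc _ = k⁻¹ * (r * a * r⁻¹) * r := by group
        _ = _ := by rw [← e]; group
    rcases h.conj_or ha (h.root_conj ha r) (h.root_conj ha (r * r)) hr.2 (mul_mem hr.2 hr.2) with
      e | e | ⟨k, hk, e⟩
    · exact e
    · have : ∀ n : ℕ, ∃ k ∈ G ⊓ h.St ha, k * a * k⁻¹ = (r * r) ^ n * a * ((r * r) ^ n)⁻¹ := fun n => by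
        induction n with
        | zero => exact ⟨1, one_mem _, by simp⟩
        | succ n ih => rw [pow_succ']; exact mul (mul_mem hr hr) e ih
      obtain ⟨n, hn⟩ := (h.odd_card hA ha).of_dvd_nat (orderOf_dvd_natCard A hr.1)
      have e' : (r * r) ^ (n + 1) = r := by
        rw [← sq, ← pow_mul, show 2 * (n + 1) = 2 * n + 1 + 1 by ring, ← hn, pow_succ,
          pow_orderOf_eq_one, one_mul]
      simpa only [e'] using this (n + 1)
    · refine ⟨r⁻¹ * k * r⁻¹⁻¹, hc.conj_mem (inv_mem hr) hk, ?_⟩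
      calc _ = r⁻¹ * (k * (r * a * r⁻¹) * k⁻¹) * r := by group
        _ = _ := by rw [e]; group
  refine ⟨k * a * k⁻¹, ha.conj hk.1, fun r hr hr' => ?_⟩
  have := mem_centralizer_singleton_iff.1 (hk' r ⟨hr, h.mem_St_of_rel ha (ha.conj hk.1) hk.2 hr'⟩)
  calc r * (k * a * k⁻¹) = k * (k⁻¹ * r * k * a) * k⁻¹ := by group
    _ = _ := by rw [this]; group

theorem exists_fixed (ha : Root ρ G a) : ∃ x y, PR ρ G x y ∧
    ∀ r ∈ A, Rel ρ x (r * x * r⁻¹) → Commute r x ∧ Commute r y := by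
  obtain ⟨x, hx, hx'⟩ := h.exists_fixed_root hA ha
  obtain ⟨y, hy⟩ := h.part x hx
  have hc : CoprimeAct (A ⊓ centralizer {x}) (G ⊓ centralizer {x}) :=
    (hA.mono_left inf_le_left).inf_right (inf_le_right.trans le_normalizer)
  have conj : ∀ r ∈ centralizer {x}, PR ρ G x (r * y * r⁻¹) := fun r hr => by
    have := hy.conj r
    rwa [mem_centralizer_singleton_iff.1 hr, mul_inv_cancel_right] at this
  obtain ⟨k, hk, hk'⟩ := hc.glauberman (centralizer {y}) fun r hr => by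
    obtain ⟨k, hk, e⟩ := h.exists_conj_part hy (conj r hr.2)
    refine ⟨k, ⟨hk.1, mem_centralizer_singleton_iff.2 (h.comm_inX hx hk (.refl hx))⟩,
      mem_centralizer_singleton_iff.2 ?_⟩
    calc _ = k⁻¹ * (r * y * r⁻¹) * r := by group
      _ = _ := by rw [← e]; group
  refine ⟨x, _, conj k hk.2, fun r hr hr' => ⟨hx' r hr hr', ?_⟩⟩
  have := mem_centralizer_singleton_iff.1
    (hk' r ⟨hr, mem_centralizer_singleton_iff.2 (hx' r hr hr')⟩)
  calc r * (k * y * k⁻¹) = k * (k⁻¹ * r * k * y) * k⁻¹ := by group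
    _ = _ := by rw [this]; group

omit hA in
theorem diag (ha : Root ρ G a) (hf : ∀ r ∈ A, Rel ρ a (r * a * r⁻¹) → Commute r a) :
    ∃ c, a * c ∈ G ⊓ centralizer (A : Set Γ) ∧ ∀ z, Root ρ G z → Rel ρ a z → Commute z c := by
  classical
  let O : Finset Γ := (Set.toFinite {b | ∃ r ∈ A, r * a * r⁻¹ = b}).toFinset
  have hO : ∀ {b}, b ∈ O.1 ↔ ∃ r ∈ A, r * a * r⁻¹ = b := by simp [O]
  have hc : {b | b ∈ O.1}.Pairwise Commute := by
    intro _ hb _ hb' hne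
    obtain ⟨r, hr, rfl⟩ := hO.1 hb
    obtain ⟨s, hs, rfl⟩ := hO.1 hb'
    refine h.comm (h.root_conj ha r) (h.root_conj ha s) fun e => hne ?_
    have := (hf _ (mul_mem (inv_mem hr) hs) (.inr (by simpa [mul_assoc] using e.conj r⁻¹))).eq
    calc r * a * r⁻¹ = r * (a * (r⁻¹ * s)) * s⁻¹ := by group
      _ = _ := by rw [← this]; group
  have ha' : a ∈ O.1 := hO.2 ⟨1, one_mem _, by simp⟩
  refine ⟨_, mem_of_mem_of_eq (mem_inf.2 ⟨?_, ?_⟩) (Multiset.mul_noncommProd_erase O.1 ha' hc).symm,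
    fun z hz hz' => ?_⟩
  · refine G.multiset_noncommProd_mem _ _ fun b hb => ?_
    obtain ⟨r, -, rfl⟩ := hO.1 hb
    exact hG.conj_mem a ha.mem r
  · intro r hr
    have e : O.1.map (MulAut.conj r) = O.1 := by
      change (O.map (MulAut.conj r).toEquiv.toEmbedding).1 = _
      congr 1
      refine Finset.eq_of_subset_of_card_le (fun b hb => ?_) (by simp)
      obtain ⟨_, hb', rfl⟩ := Finset.mem_map.1 hb
      obtain ⟨s, hs, rfl⟩ := hO.1 hb'
      exact hO.2 ⟨r * s, mul_mem hr hs, by simp [mul_assoc]⟩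
    have := Multiset.map_noncommProd O.1 hc (MulAut.conj r)
    simp only [e, MulAut.conj_apply] at this
    exact mul_inv_eq_iff_eq_mul.1 this
  · refine Multiset.noncommProd_commute _ _ _ fun b hb => ?_
    obtain ⟨hb1, hb2⟩ := (Multiset.Nodup.mem_erase_iff O.2).1 hb
    obtain ⟨r, hr, rfl⟩ := hO.1 hb2
    refine h.comm hz (h.root_conj ha r) fun e => hb1 ?_
    rw [(hf r hr (h.rel_trans ha hz (h.root_conj ha r) hz' (.inr e))).eq, mul_inv_cancel_right]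

theorem hasSection (ha : Root ρ G a) : PgHasSection (Matrix.ProjectiveSpecialLinearGroup (Fin 2)
    (ZMod p)) (G ⊓ centralizer (A : Set Γ) : Subgroup Γ) := by
  obtain ⟨x, y, hxy, hf⟩ := h.exists_fixed hA ha
  obtain ⟨c, c1, c2⟩ := h.diag hxy.l fun r hr e => (hf r hr e).1
  obtain ⟨d, d1, d2⟩ := h.diag hxy.r fun r hr e =>
    (hf r hr (h.mem_St_of_rel hxy.l hxy.r (.inr hxy.opp) e)).2
  obtain ⟨ψ, h1, h2⟩ := hxy.exists_psi h.inj
  have key : ∀ l ∈ closure ({x, y} : Set Γ), ∃ c ∈ centralizer (closure ({x, y} : Set Γ) : Set Γ),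
      l * c ∈ G ⊓ centralizer (A : Set Γ) := fun l hl => by
    induction hl using closure_induction with
    | mem l hl =>
      simp only [centralizer_closure, mem_centralizer_iff, Set.mem_insert_iff,
        Set.mem_singleton_iff, forall_eq_or_imp, forall_eq]
      rcases hl with rfl | rfl
      · exact ⟨c, ⟨c2 _ hxy.l (.refl _), c2 _ hxy.r (.inr hxy.opp)⟩, c1⟩
      · exact ⟨d, ⟨d2 _ hxy.l (.inr hxy.opp.symm), d2 _ hxy.r (.refl _)⟩, d1⟩
    | one => exact ⟨1, one_mem _, by simp⟩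
    | mul l l' _ hl' ih ih' =>
      obtain ⟨c, c1, c2⟩ := ih
      obtain ⟨d, d1, d2⟩ := ih'
      refine ⟨c * d, mul_mem c1 d1, mem_of_mem_of_eq (mul_mem c2 d2) ?_⟩
      rw [mul_assoc, ← mul_assoc c, ← c1 l' hl']; group
    | inv l hl ih =>
      obtain ⟨c, c1, c2⟩ := ih
      refine ⟨c⁻¹, inv_mem c1, mem_of_mem_of_eq (inv_mem c2) ?_⟩
      rw [c1 l hl]; group
  refine section_of_cover ψ (hxy.psi_inj h2) _ fun s => ?_
  obtain ⟨c, c1, c2⟩ := key _ (h1 s)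
  refine ⟨_, c2, fun t => ?_⟩
  rw [mul_assoc (ψ s), ← c1 _ (h1 t)]
  simp [mul_assoc]

end Cen

end Cfsg.Lib.Flav
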