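import Cfsg.Agent.Lib.Flav.Rel

/-!
# At most two classes of roots in a component
-/

set_option autoImplicit false
set_option linter.unusedSectionVars false

namespace Cfsg.Lib.Flav
open Subgroup Cfsg.Lib Cfsg.Lib.Quad
open scoped MatrixGroups

theorem anti_corner {p : ℕ} [hp : Fact p.Prime] {R : Type*} [Ring R] [Finite R]
    [Algebra (ZMod p) R] (h5 : 5 ≤ p) {f : R} (hf : IsIdempotentElem f) (J : AddSubgroup R)
    (h1 : f ∈ J) (h2 : ∀ u ∈ J, f * u = u ∧ u * f = u) (h3 : ∀ u ∈ J, ∀ v ∈ J, u * v * u ∈ J)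
    (h4 : ∀ u ∈ J, u ≠ 0 → ∃ z, u * z = f) {u v : R} (hu : u ∈ J) (hv : v ∈ J)
    (e : u * v + v * u = 0) : u = 0 ∨ v = 0 := by
  by_cases h0 : f = 0
  · exact .inl (by rw [← (h2 u hu).1, h0, zero_mul])
  let c : hf.Corner →+ R := AddMonoidHom.mk' Subtype.val fun _ _ => rfl
  have hc : Function.Injective c := Subtype.val_injective
  have : Finite hf.Corner := .of_injective c hc
  have : Nontrivial hf.Corner := ⟨1, 0, fun e => h0 (congrArg c e)⟩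
  have : CharP hf.Corner p := (CharP.charP_iff_prime_eq_zero hp.out).2 (hc (by
    rw [← nsmul_one, map_nsmul, map_zero, ← Nat.cast_smul_eq_nsmul (ZMod p), ZMod.natCast_self,
      zero_smul]))
  let := ZMod.algebra hf.Corner p
  have hJ : JDiv (J.comap c) :=
    ⟨h1, fun u hu v hv => h3 _ hu _ hv, fun u hu hu0 => by
      obtain ⟨z, hz⟩ := h4 _ hu fun e => hu0 (hc e)
      refine IsUnit.of_mul_eq_one ⟨f * z * f, z, rfl⟩ (hc ?_)
      change c u * (f * z * f) = f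
      rw [← mul_assoc, ← mul_assoc, (h2 _ hu).2, hz, hf.eq]⟩
  have h2' : IsUnit (2 : hf.Corner) := by
    have : (2 : ZMod p) ≠ 0 := two_ne_zero_of_charP (K := ZMod p) (p := p) (by omega)
    simpa [map_ofNat] using this.isUnit.map (algebraMap (ZMod p) hf.Corner)
  exact (hJ.anti (p := p) h2' (u := ⟨u, (Subsemigroup.mem_corner_iff hf).2 (h2 u hu)⟩)
    (v := ⟨v, (Subsemigroup.mem_corner_iff hf).2 (h2 v hv)⟩) hu hv (hc e)).imp
    (congrArg c) (congrArg c)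

variable {p : ℕ} [hp : Fact p.Prime] {V : Type*} [AddCommGroup V] [Module (ZMod p) V] [Finite V]
  {Γ : Type*} [Group Γ] [Finite Γ] {ρ : Γ →* Module.End (ZMod p) V} {G : Subgroup Γ}

theorem PR.opp {x y : Γ} (h : PR ρ G x y) : Opp ρ x y := h.not_nil

theorem InX.refl {x : Γ} (hx : Root ρ G x) : InX ρ G x x := (Same.refl x).inX hx.mem

theorem InX.one (x : Γ) : InX ρ G x 1 := by
  refine ⟨one_mem _, ?_, ?_⟩ <;> simp [nn]

theorem InX.nn_mul {x u v : Γ} (hx : Root ρ G x) (hu : InX ρ G x u) (hv : InX ρ G x v) :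
    nn ρ (u * v) = nn ρ u + nn ρ v := by
  rw [nn, map_mul, rho_eq ρ u, rho_eq ρ v, mul_add, add_mul, add_mul, hu.mul_eq_zero hx hv]
  simp; abel

theorem InX.mul {x u v : Γ} (hx : Root ρ G x) (hu : InX ρ G x u) (hv : InX ρ G x v) :
    InX ρ G x (u * v) := by
  refine ⟨mul_mem hu.1 hv.1, ?_, fun w hw => ?_⟩ <;> rw [hu.nn_mul hx hv]
  · rintro _ ⟨w, rfl⟩
    exact add_mem (hu.2.1 ⟨w, rfl⟩) (hv.2.1 ⟨w, rfl⟩)
  · simp [LinearMap.mem_ker.1 (hu.2.2 hw), LinearMap.mem_ker.1 (hv.2.2 hw)]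

theorem InX.inv {x u : Γ} (hx : Root ρ G x) (hu : InX ρ G x u) : InX ρ G x u⁻¹ := by
  refine ⟨inv_mem hu.1, ?_, ?_⟩ <;> rw [nn_inv (hu.mul_eq_zero hx hu)]
  · rw [LinearMap.range_neg]; exact hu.2.1
  · rw [LinearMap.ker_neg]; exact hu.2.2

namespace Cen
variable (h : Cen ρ G) {a b c : Γ}
include h

theorem exists_pr (ha : Root ρ G a) (hb : Root ρ G b) (ho : Opp ρ a b) :
    ∃ y, Same ρ b y ∧ PR ρ G a y := by
  obtain ⟨y, h1, h2, h3⟩ := hb.exists_part h.h5 h.inj ha ho.symm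
  exact ⟨y, h2, ha, h1, h3.symm⟩

theorem ne_one (ha : Root ρ G a) : a ≠ 1 := fun e => ha.ne (by simp [e, nn])

theorem comm_inX (ha : Root ρ G a) (hb : InX ρ G a b) (hc : InX ρ G a c) : Commute b c :=
  comm_of_nn h.inj ((hb.mul_eq_zero ha hc).trans (hc.mul_eq_zero ha hb).symm)

theorem rel_of_opp (ha : Root ρ G a) (hb : Root ρ G b) (hc : Root ρ G c) (h1 : Opp ρ a b)
    (h2 : Opp ρ a c) : Rel ρ b c := by
  obtain ⟨x, x1, x2⟩ := h.exists_pr ha hb h1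
  obtain ⟨y, y1, y2⟩ := h.exists_pr ha hc h2
  obtain ⟨u, u1, rfl⟩ := h.exists_conj_part x2 y2
  rcases h.inX ha u1 with rfl | ⟨u2, u3⟩
  · exact .inl (x1.trans (by simpa using y1.symm))
  · have := h.opp_conj u2 x2.r (h.opp_of_same ha u2 x2.r u3 x2.opp)
    exact .inr (h.opp_of_same x2.r hb hc x1.symm (h.opp_of_same y2.r hc x2.r y1.symm this).symm)

theorem rel_trans (ha : Root ρ G a) (hb : Root ρ G b) (hc : Root ρ G c) (h1 : Rel ρ a b)
    (h2 : Rel ρ b c) : Rel ρ a c := by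
  rcases h1 with h1 | h1 <;> rcases h2 with h2 | h2
  · exact .inl (h1.trans h2)
  · exact .inr (h.opp_of_same hb ha hc h1.symm h2)
  · exact .inr (h.opp_of_same hb hc ha h2 h1.symm).symm
  · exact h.rel_of_opp hb ha hc h1.symm h2

theorem rel_conj (ha : Root ρ G a) (hb : Root ρ G b) (h1 : Rel ρ a b) :
    Rel ρ a (b * a * b⁻¹) := by
  rcases h1 with h1 | h1
  · rw [(h.comm_inX ha (h1.inX hb.mem) (.refl ha)).eq, mul_inv_cancel_right]; exact .refl a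
  · exact .inr (h.opp_conj hb ha h1.symm).symm

theorem fibre {x y u v : Γ} (hxy : PR ρ G x y) (hu : InX ρ G x u) (hv : InX ρ G x v)
    (e : nn ρ u * nn ρ y * nn ρ u = nn ρ v * nn ρ y * nn ρ v) : u = v ∨ u = v⁻¹ := by
  have hx := hxy.l
  let J : AddSubgroup (Module.End (ZMod p) V) :=
    { carrier := {t | ∃ u, InX ρ G x u ∧ t = nn ρ u * nn ρ y}
      zero_mem' := ⟨1, .one x, by simp [nn]⟩
      add_mem' := by
        rintro _ _ ⟨u, hu, rfl⟩ ⟨v, hv, rfl⟩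
        exact ⟨u * v, hu.mul hx hv, by rw [hu.nn_mul hx hv, add_mul]⟩
      neg_mem' := by
        rintro _ ⟨u, hu, rfl⟩
        exact ⟨u⁻¹, hu.inv hx, by rw [nn_inv (hu.mul_eq_zero hx hu), neg_mul]⟩ }
  have key : ∀ u, InX ρ G x u → nn ρ u * nn ρ y ≠ 0 → ∃ z, Same ρ y z ∧ PR ρ G u z ∧ Same ρ x u :=
    fun u hu h0 => by
    rcases h.inX hx hu with rfl | ⟨u2, u3⟩
    · exact (h0 (by simp [nn])).elim
    · obtain ⟨z, z1, z2⟩ := h.exists_pr u2 hxy.r (h.opp_of_same hx u2 hxy.r u3 hxy.opp)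
      exact ⟨z, z1, z2, u3⟩
  have inj : ∀ {u}, InX ρ G x u → nn ρ u * nn ρ y = 0 → u = 1 := fun {u} hu e => h.inj (by
    rw [rho_eq, ← hu.r hxy.part, ← mul_assoc, e]; simp)
  have := anti_corner h.h5 (f := nn ρ x * nn ρ y) (by
      rw [IsIdempotentElem, ← mul_assoc, hxy.part.l]) J ⟨x, .refl hx, rfl⟩
    (by
      rintro _ ⟨u, hu, rfl⟩
      exact ⟨by rw [← mul_assoc, mul_assoc (nn ρ x), hu.l hxy.part], by
        rw [mul_assoc, ← mul_assoc (nn ρ y), hxy.part.r]⟩)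
    (by
      rintro _ ⟨u, hu, rfl⟩ _ ⟨v, hv, rfl⟩
      by_cases h0 : nn ρ u * nn ρ y = 0
      · rw [h0, mul_zero]; exact zero_mem _
      obtain ⟨z, z1, z2, z3⟩ := key u hu h0
      obtain ⟨w1, w2⟩ := hxy.symm.weyl hv
      obtain ⟨w3, w4⟩ := z2.weyl (w2.of_same z1)
      exact ⟨_, w4.of_same z3.symm, by rw [w3, w1]; simp only [mul_assoc]⟩)
    (by
      rintro _ ⟨u, hu, rfl⟩ h0
      obtain ⟨z, z1, z2, z3⟩ := key u hu h0
      refine ⟨nn ρ x * nn ρ z, ?_⟩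
      rw [mul_assoc, (z1.inX z2.r.mem).l hxy.part.symm, ← (z1.inX z2.r.mem).r hxy.part.symm,
        ← mul_assoc (nn ρ z), ← mul_assoc, (z3.symm.inX hx.mem).l z2.part])
    (u := nn ρ (u * v⁻¹) * nn ρ y) (v := nn ρ (u * v) * nn ρ y)
    ⟨_, hu.mul hx (hv.inv hx), rfl⟩ ⟨_, hu.mul hx hv, rfl⟩ (by
      rw [hu.nn_mul hx hv, hu.nn_mul hx (hv.inv hx), nn_inv (hv.mul_eq_zero hx hv)]
      have e' := congrArg (· * nn ρ y) e
      simp only [mul_add, add_mul, mul_neg, neg_mul, mul_assoc] at e' ⊢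
      rw [e']; abel)
  exact this.imp (fun e => mul_inv_eq_one.1 (inj (hu.mul hx (hv.inv hx)) e))
    fun e => eq_inv_of_mul_eq_one_left (inj (hu.mul hx hv) e)

variable [hG : G.Normal]

theorem root_conj (ha : Root ρ G a) (g : Γ) : Root ρ G (g * a * g⁻¹) :=
  ha.conj' (hG.conj_mem a ha.mem g)

/-- The stabilizer of a component. -/
def St (ha : Root ρ G a) : Subgroup Γ where
  carrier := {g | Rel ρ a (g * a * g⁻¹)}
  one_mem' := by simpa using Rel.refl a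
  mul_mem' := fun {g g'} hg hg' => by
    refine h.rel_trans ha (h.root_conj ha g) (h.root_conj ha _) hg ?_
    simpa [mul_assoc] using Rel.conj hg' g
  inv_mem' := fun {g} hg => by simpa [mul_assoc] using (Rel.conj hg g⁻¹).symm

theorem mem_St (ha : Root ρ G a) {g : Γ} : g ∈ h.St ha ↔ Rel ρ a (g * a * g⁻¹) := Iff.rfl

theorem rel_conj_St (ha : Root ρ G a) (hb : Root ρ G b) (hab : Rel ρ a b) {g : Γ}
    (hg : g ∈ h.St ha) : Rel ρ a (g * b * g⁻¹) :=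
  h.rel_trans ha (h.root_conj ha g) (h.root_conj hb g) hg (hab.conj g)

theorem mem_St_of_rel (ha : Root ρ G a) (hb : Root ρ G b) (hab : Rel ρ a b) {g : Γ}
    (hg : Rel ρ b (g * b * g⁻¹)) : g ∈ h.St ha :=
  h.rel_trans ha (h.root_conj hb g) (h.root_conj ha g)
    (h.rel_trans ha hb (h.root_conj hb g) hab hg) (hab.conj g).symm

theorem mem_K (ha : Root ρ G a) (hb : Root ρ G b) (hab : Rel ρ a b) : b ∈ G ⊓ h.St ha :=
  ⟨hb.mem, h.rel_conj ha hb hab⟩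

theorem half {x y : Γ} (ha : Root ρ G a) (hxy : PR ρ G x y) (hx : Same ρ a x) :
    Set.ncard {u | Root ρ G u ∧ Same ρ a u} ≤ 2 * Set.ncard
      {u | (Root ρ G u ∧ Same ρ a u) ∧ ∃ k ∈ G ⊓ h.St ha, k * y⁻¹ * k⁻¹ = u} := by
  classical
  have hy : Opp ρ a y := h.opp_of_same hxy.l ha hxy.r hx.symm hxy.opp
  have key : ∀ u, Root ρ G u ∧ Same ρ a u → ∃ t, ((Root ρ G t ∧ Same ρ a t) ∧
      ∃ k ∈ G ⊓ h.St ha, k * y⁻¹ * k⁻¹ = t) ∧ nn ρ t = nn ρ u * nn ρ y * nn ρ u := by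
    rintro u ⟨u1, u2⟩
    obtain ⟨z, z1, z2⟩ := h.exists_pr u1 hxy.r (h.opp_of_same ha u1 hxy.r u2 hy)
    obtain ⟨w1, w2⟩ := z2.weyl (z1.symm.inX hxy.r.mem)
    have hr := h.root_conj hxy.r.inv.1 (u * z⁻¹ * u)
    have hu := h.mem_K ha u1 (.inl u2)
    have hz := h.mem_K ha z2.r (.inr (h.opp_of_same hxy.r z2.r ha z1 hy.symm).symm)
    exact ⟨_, ⟨⟨hr, u2.trans ((h.inX u1 w2).resolve_left (h.ne_one hr)).2⟩, _,
      mul_mem (mul_mem hu (inv_mem hz)) hu, rfl⟩, w1⟩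
  choose! f f1 f2 using key
  rw [Set.ncard_eq_toFinset_card _ (Set.toFinite _), Set.ncard_eq_toFinset_card _ (Set.toFinite _)]
  refine Finset.card_le_mul_card_image_of_maps_to (f := f) (fun u hu => ?_) 2 fun t _ => ?_
  · rw [Set.Finite.mem_toFinset] at hu ⊢
    exact f1 u hu
  · by_contra hn
    obtain ⟨v, hv⟩ := Finset.card_pos.1 (two_pos.trans (not_le.1 hn))
    apply hn
    refine (Finset.card_le_card (t := {v, v⁻¹}) fun u hu => ?_).trans Finset.card_le_two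
    simp only [Finset.mem_filter, Set.Finite.mem_toFinset, Set.mem_setOf_eq] at hu hv
    simpa using h.fibre hxy ((hx.symm.trans hu.1.2).inX hu.1.1.mem)
      ((hx.symm.trans hv.1.2).inX hv.1.1.mem) (by rw [← f2 u hu.1, ← f2 v hv.1, hu.2, hv.2])

theorem half' (ha : Root ρ G a) (hb : Root ρ G b) (hab : Rel ρ a b) :
    Set.ncard {u | Root ρ G u ∧ Same ρ a u} ≤ 2 * Set.ncard
      {u | (Root ρ G u ∧ Same ρ a u) ∧ ∃ k ∈ G ⊓ h.St ha, k * b * k⁻¹ = u} := by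
  have key : ∀ b, Root ρ G b → Opp ρ a b → Set.ncard {u | Root ρ G u ∧ Same ρ a u} ≤ 2 * Set.ncard
      {u | (Root ρ G u ∧ Same ρ a u) ∧ ∃ k ∈ G ⊓ h.St ha, k * b * k⁻¹ = u} := fun b hb ho => by
    obtain ⟨x, x1, x2⟩ := h.exists_pr hb.inv.1 ha (h.opp_of_same hb hb.inv.1 ha hb.inv.2 ho.symm)
    simpa using h.half ha x2.symm x1
  rcases hab with hab | hab
  · obtain ⟨y, hy⟩ := h.part b hb
    have h1 := h.opp_of_same hb ha (h.root_conj hb y) hab.symm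
      (h.opp_conj hy.r hb hy.opp.symm).symm
    refine (key _ (h.root_conj hb y) h1).trans (Nat.mul_le_mul_left 2
      (Set.ncard_le_ncard ?_ (Set.toFinite _)))
    rintro u ⟨u1, k, hk, rfl⟩
    exact ⟨u1, k * y, mul_mem hk (h.mem_K ha hy.r
      (.inr (h.opp_of_same hb ha hy.r hab.symm hy.opp))), by group⟩
  · exact key b hb hab

theorem conj_or (ha : Root ρ G a) (hb : Root ρ G b) (hc : Root ρ G c) (hab : Rel ρ a b)
    (hac : Rel ρ a c) : (∃ k ∈ G ⊓ h.St ha, k * a * k⁻¹ = b) ∨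
      (∃ k ∈ G ⊓ h.St ha, k * a * k⁻¹ = c) ∨ ∃ k ∈ G ⊓ h.St ha, k * b * k⁻¹ = c := by
  by_contra hn
  push Not at hn
  have dis : ∀ {b c}, (∀ k ∈ G ⊓ h.St ha, k * b * k⁻¹ ≠ c) →
      Disjoint {u | (Root ρ G u ∧ Same ρ a u) ∧ ∃ k ∈ G ⊓ h.St ha, k * b * k⁻¹ = u}
        {u | (Root ρ G u ∧ Same ρ a u) ∧ ∃ k ∈ G ⊓ h.St ha, k * c * k⁻¹ = u} := fun {b c} e => by
    rw [Set.disjoint_left]
    rintro _ ⟨-, k, hk, rfl⟩ ⟨-, k', hk', e'⟩
    exact e (k'⁻¹ * k) (mul_mem (inv_mem hk') hk) (by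
      rw [← mul_left_cancel_iff (a := k'), ← mul_right_cancel_iff (a := k'⁻¹), e']; group)
  have h1 := h.half' ha ha (.refl a)
  have h2 := h.half' ha hb hab
  have h3 := h.half' ha hc hac
  have h4 := Set.ncard_union_eq (Set.disjoint_union_left.2 ⟨dis hn.2.1, dis hn.2.2⟩)
  rw [Set.ncard_union_eq (dis hn.1)] at h4
  have h5 := Set.ncard_le_ncard (t := {u | Root ρ G u ∧ Same ρ a u}) (Set.union_subset
    (Set.union_subset (Set.sep_subset _ fun u => ∃ k ∈ G ⊓ h.St ha, k * a * k⁻¹ = u)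
      (Set.sep_subset _ fun u => ∃ k ∈ G ⊓ h.St ha, k * b * k⁻¹ = u))
      (Set.sep_subset _ fun u => ∃ k ∈ G ⊓ h.St ha, k * c * k⁻¹ = u)) (Set.toFinite _)
  have h6 : 0 < Set.ncard {u | Root ρ G u ∧ Same ρ a u} :=
    (Set.ncard_pos (Set.toFinite _)).2 ⟨a, ha, .refl a⟩
  simp only [Set.mem_setOf_eq] at h5
  omega

end Cen

end Cfsg.Lib.Flav
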