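import Mathlib

/-!
# Finite Jordan division rings have no anticommuting elements
-/

set_option autoImplicit false

namespace Cfsg.Lib.Flav

variable {R : Type*} [Ring R]

theorem not_isUnit_or {x y : R} (h : ¬ IsUnit (x * y)) :
    ¬ IsUnit x ∨ ¬ IsUnit y := by
  by_contra h'
  push Not at h'
  exact h (h'.1.mul h'.2)

theorem exists_not_isUnit_sub_pow [Nontrivial R] (c : ℕ) : ∀ {s t : R}, Commute s t →
    s ^ 2 ^ c = -1 → t ^ 2 ^ (c + 1) = 1 → ∃ k, ¬ IsUnit (t - s ^ k) := by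
  have key : ∀ {s t : R} {c k : ℕ}, Commute s t → s ^ 2 ^ c = -1 →
      ¬ IsUnit (t ^ 2 - (s ^ k) ^ 2) → ∃ k, ¬ IsUnit (t - s ^ k) := fun {s t c k} hc hs h => by
    have h1 : Commute t (s ^ k) := (hc.pow_left k).symm
    rw [h1.sq_sub_sq] at h
    rcases not_isUnit_or h with h2 | h2
    · exact ⟨k + 2 ^ c, by rwa [pow_add, hs, mul_neg_one, sub_neg_eq_add]⟩
    · exact ⟨k, h2⟩
  induction c with
  | zero =>
    intro s t hc hs ht
    refine key (k := 0) hc hs ?_
    rw [show t ^ 2 = 1 by simpa using ht]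
    simp
  | succ c ih =>
    intro s t hc hs ht
    obtain ⟨k, hk⟩ := ih (s := s ^ 2) (t := t ^ 2) (hc.pow_pow 2 2)
      (by rw [← pow_mul, ← pow_succ', hs]) (by rw [← pow_mul, ← pow_succ', ht])
    exact key (k := k) hc hs (by rwa [← pow_mul, mul_comm, pow_mul])

/-- A Jordan division subring. -/
structure JDiv (J : AddSubgroup R) : Prop where
  one : (1 : R) ∈ J
  hua : ∀ u ∈ J, ∀ v ∈ J, u * v * u ∈ J
  unit : ∀ u ∈ J, u ≠ 0 → IsUnit u

namespace JDiv
variable {J : AddSubgroup R} (h : JDiv J)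
include h

theorem pow_mem {u : R} (hu : u ∈ J) (n : ℕ) : u ^ n ∈ J := by
  induction n using Nat.twoStepInduction with
  | zero => simpa using h.one
  | one => simpa using hu
  | more n ih _ =>
    have := h.hua u hu _ ih
    rwa [← pow_succ', ← pow_succ] at this

theorem eq_zero {u : R} (hu : u ∈ J) (hn : ¬ IsUnit u) : u = 0 := by
  by_contra h0
  exact hn (h.unit u hu h0)

theorem eq_one_or {u : R} (hu : u ∈ J) (a : ℕ) (ha : u ^ 2 ^ a = 1) :
    u = 1 ∨ ∃ c, u ^ 2 ^ c = -1 := by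
  induction a with
  | zero => exact .inl (by simpa using ha)
  | succ a ih =>
    by_cases h1 : u ^ 2 ^ a = 1
    · exact ih h1
    refine .inr ⟨a, ?_⟩
    have h2 := h.unit _ (J.sub_mem (h.pow_mem hu (2 ^ a)) h.one) (sub_ne_zero.2 h1)
    have h3 : (u ^ 2 ^ a - 1) * (u ^ 2 ^ a + 1) = 0 := by
      rw [pow_succ, pow_mul, sq] at ha
      rw [sub_mul, mul_add, ha]; simp [add_comm]
    exact eq_neg_of_add_eq_zero_left (h2.mul_right_eq_zero.1 h3)

omit h in
theorem anti_pow {u v : R} (e : u * v = -(v * u)) {m : ℕ} (hm : Odd m) :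
    u ^ m * v = -(v * u ^ m) := by
  obtain ⟨k, rfl⟩ := hm
  have h1 : Commute (u ^ 2) v := by
    rw [Commute, SemiconjBy, sq, mul_assoc, e, mul_neg, ← mul_assoc, e]; simp [mul_assoc]
  rw [pow_succ, pow_mul, mul_assoc, e, mul_neg, ← mul_assoc, (h1.pow_left k).eq, mul_assoc]

theorem exists_odd_pow [Finite R] {u : R} (hu : u ∈ J) (h0 : u ≠ 0) :
    ∃ m, Odd m ∧ (u ^ m = 1 ∨ ∃ c, (u ^ m) ^ 2 ^ c = -1) := by
  obtain ⟨w, rfl⟩ := h.unit u hu h0
  obtain ⟨a, m, hm, e⟩ := Nat.exists_eq_two_pow_mul_odd (orderOf_pos w).ne'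
  refine ⟨m, hm, h.eq_one_or (h.pow_mem hu m) a ?_⟩
  rw [← pow_mul, mul_comm, ← e, ← Units.val_pow_eq_pow_val, pow_orderOf_eq_one, Units.val_one]

theorem anti_aux [Nontrivial R] {p : ℕ} [hp : Fact p.Prime] [Algebra (ZMod p) R]
    (h2 : IsUnit (2 : R)) {u v : R} (hu : u ∈ J) (hv : v ∈ J) (e : u * v = -(v * u))
    {a b : ℕ} (ha : u ^ 2 ^ a = -1) (hb : v ^ 2 ^ b = -1) (hab : b ≤ a) : False := by
  have hu' : IsUnit u := (isUnit_pow_iff (by positivity)).1 (ha ▸ isUnit_one.neg)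
  have hv' : IsUnit v := (isUnit_pow_iff (by positivity)).1 (hb ▸ isUnit_one.neg)
  have hnc : ¬ Commute u v := fun hc => by
    have h3 : 2 * (v * u) = 0 := by rw [two_mul]; nth_rewrite 1 [← hc.eq, e]; simp
    exact (h2.mul (hv'.mul hu')).ne_zero h3
  have hnz : ∀ k, ¬ IsUnit (v - u ^ k) → False := fun k hk => by
    have := h.eq_zero (J.sub_mem hv (h.pow_mem hu k)) hk
    exact hnc (by rw [sub_eq_zero.1 this]; exact Commute.self_pow u k)
  have hb0 : b ≠ 0 := by
    rintro rfl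
    exact hnc (by rw [show v = -1 by simpa using hb]; exact (Commute.one_right u).neg_right)
  obtain ⟨c, rfl⟩ : ∃ c, a = c + 1 := ⟨a - 1, by omega⟩
  have h1 : Commute (u ^ 2) v := by
    rw [Commute, SemiconjBy, sq, mul_assoc, e, mul_neg, ← mul_assoc, e]; simp [mul_assoc]
  have hs : (u ^ 2) ^ 2 ^ c = -1 := by rw [← pow_mul, ← pow_succ', ha]
  obtain ⟨k, hk⟩ := exists_not_isUnit_sub_pow c (h1.pow_right 2) hs (by
    obtain ⟨d, hd⟩ := Nat.exists_eq_add_of_le hab
    rw [hd, pow_add, pow_mul, ← pow_mul v, mul_comm 2, pow_mul, hb]; simp)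
  have hneg : ∀ k, -u ^ k = u ^ (k + 2 ^ (c + 1)) := fun k => by rw [pow_add, ha, mul_neg_one]
  rcases Nat.even_or_odd k with ⟨j, rfl⟩ | hk'
  · have h3 : Commute v (u ^ (j + j)) := by rw [← two_mul, pow_mul]; exact (h1.pow_left j).symm
    rw [← pow_mul, mul_comm, pow_mul, h3.sq_sub_sq] at hk
    rcases not_isUnit_or hk with h4 | h4
    · exact hnz _ (by rwa [← hneg, sub_neg_eq_add])
    · exact hnz _ h4
  rcases Nat.eq_zero_or_pos c with rfl | hc
  · obtain rfl : b = 1 := by omega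
    obtain ⟨s, t, hst⟩ := ZMod.sq_add_sq p (-1)
    have hu2 : u * u = -1 := by simpa [sq] using ha
    have hv2 : v * v = -1 := by simpa [sq] using hb
    have hm : ∀ (s : ZMod p) {x : R}, x ∈ J → s • x ∈ J := fun s x hx => by
      rw [← ZMod.natCast_zmod_val s, Nat.cast_smul_eq_nsmul]; exact J.nsmul_mem hx _
    have hw : s • u + t • v ∈ J := J.add_mem (hm s hu) (hm t hv)
    have hw2 : (s • u + t • v) * (s • u + t • v) = 1 := by
      simp only [mul_add, add_mul, smul_mul_assoc, mul_smul_comm, hu2, hv2, e]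
      have : (-(s ^ 2 + t ^ 2)) • (1 : R) = 1 := by rw [hst]; simp
      refine Eq.trans ?_ this
      module
    have hwu : u * (s • u + t • v) + (s • u + t • v) * u = (-2 * s) • (1 : R) := by
      simp only [mul_add, add_mul, smul_mul_assoc, mul_smul_comm, hu2, e]
      module
    have h5 : ∀ ε : ZMod p, s • u + t • v = ε • (1 : R) → ε * ε = 1 → False := fun ε hε hε2 => by
      rw [hε] at hwu
      have h6 : (2 : R) * u = 2 * ((-s * ε) • (1 : R)) := by
        have h7 : (2 : R) * u = ε • (u * (ε • (1 : R)) + (ε • (1 : R)) * u) := by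
          simp only [smul_mul_assoc, mul_smul_comm, mul_one, one_mul, smul_add, smul_smul, hε2,
            one_smul, two_mul]
        rw [h7, hwu, two_mul]
        module
      apply hnc
      rw [h2.mul_left_cancel h6]
      exact (Commute.one_left v).smul_left _
    by_cases h6 : s • u + t • v = 1
    · exact h5 1 (by simpa using h6) (by simp)
    have h7 := h.unit _ (J.sub_mem hw h.one) (sub_ne_zero.2 h6)
    have h8 : (s • u + t • v - 1) * (s • u + t • v + 1) = 0 := by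
      generalize s • u + t • v = w at hw2
      rw [sub_mul, mul_add, hw2]; simp [add_comm]
    exact h5 (-1) (by simpa using eq_neg_of_add_eq_zero_left (h7.mul_right_eq_zero.1 h8)) (by simp)
  · have h3 : Odd (k + 2 ^ c) := hk'.add_even (Nat.even_pow.2 ⟨even_two, hc.ne'⟩)
    have h4 := anti_pow e h3
    have h5 : (v - u ^ (k + 2 ^ c)) * (v - u ^ (k + 2 ^ c)) = v ^ 2 - (u ^ 2) ^ k := by
      have h6 : u ^ (k + 2 ^ c) * u ^ (k + 2 ^ c) = -(u ^ 2) ^ k := by
        rw [← sq, ← pow_mul, mul_comm, pow_mul, pow_add, hs, mul_neg_one]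
      rw [sub_mul, mul_sub, mul_sub, h4, h6, sq v]; abel
    exact hnz _ fun h6 => hk (h5 ▸ h6.mul h6)

theorem anti [Finite R] {p : ℕ} [hp : Fact p.Prime] [Algebra (ZMod p) R]
    (h2 : IsUnit (2 : R)) {u v : R} (hu : u ∈ J) (hv : v ∈ J) (e : u * v + v * u = 0) :
    u = 0 ∨ v = 0 := by
  by_contra h0
  push Not at h0
  have : Nontrivial R := ⟨u, 0, h0.1⟩
  obtain ⟨m, hm, h3⟩ := h.exists_odd_pow hu h0.1
  obtain ⟨n, hn, h4⟩ := h.exists_odd_pow hv h0.2
  have e1 := anti_pow (eq_neg_of_add_eq_zero_left e) hm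
  have e2 := anti_pow (u := v) (v := u ^ m) (by rw [e1, neg_neg]) hn
  have hu' := (h.unit u hu h0.1).pow m
  have hv' := (h.unit v hv h0.2).pow n
  have key : ∀ x : R, IsUnit x → x = -x → False := fun x hx e => by
    have : 2 * x = 0 := by rw [two_mul]; nth_rewrite 1 [e]; simp
    exact (h2.mul hx).ne_zero this
  rcases h3 with h3 | ⟨a, ha⟩
  · exact key _ hv' (by simpa [h3] using e2)
  rcases h4 with h4 | ⟨b, hb⟩
  · exact key _ hu' (by simpa [h4] using e2)
  rcases le_total b a with hab | hab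
  · exact h.anti_aux (p := p) h2 (h.pow_mem hu m) (h.pow_mem hv n) (by rw [e2, neg_neg]) ha hb hab
  · exact h.anti_aux (p := p) h2 (h.pow_mem hv n) (h.pow_mem hu m) e2 hb ha hab

end JDiv

end Cfsg.Lib.Flav
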