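import Cfsg.Agent.Lib.Flav.Root

/-!
# Partners of root elements
-/

set_option autoImplicit false
set_option linter.unusedSectionVars false

namespace Cfsg.Lib.Flav
open Subgroup Cfsg.Lib Cfsg.Lib.Quad

section Dickson
open Matrix MulAction OnePoint
open scoped MatrixGroups

theorem dickson_upT {K : Type*} [Field K] [IsAlgClosed K] {p : ℕ} [hp : Fact p.Prime] [CharP K p]
    (h5 : 5 ≤ p) (L : Subgroup SL(2, K)) [Finite L] {l : K}
    (hl : l ≠ 0) (hu : upT 1 ∈ L) (hw : loT l ∈ L) : upT l⁻¹ ∈ L := by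
  have h2 : p ≠ 2 := by omega
  classical
  have h2' : (2 : K) ≠ 0 := two_ne_zero_of_charP h2
  set Γ := L.map pgMob with hΓ
  have : Finite Γ := Finite.of_surjective _ (pgMob.subgroupMap_surjective L)
  have := Fintype.ofFinite Γ
  let Q : Subgroup Γ :=
    { carrier := {σ | ∃ t, upT t ∈ L ∧ (σ : Equiv.Perm (OnePoint K)) = pgMob (upT t)}
      one_mem' := ⟨0, by rw [upT_zero]; exact ⟨one_mem _, (map_one _).symm⟩⟩
      mul_mem' := by
        rintro σ τ ⟨s, hs, e⟩ ⟨t, ht, e'⟩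
        exact ⟨s + t, by rw [← upT_mul]; exact ⟨mul_mem hs ht, by rw [map_mul, ← e, ← e']; rfl⟩⟩
      inv_mem' := by
        rintro σ ⟨s, hs, e⟩
        have : upT (-s) = (upT s)⁻¹ := by
          rw [eq_inv_iff_mul_eq_one, upT_mul, neg_add_cancel, upT_zero]
        exact ⟨-s, by rw [this]; exact ⟨inv_mem hs, by rw [map_inv, ← e]; rfl⟩⟩ }
  have hpow : ∀ σ : Γ, σ ^ p = 1 ↔ (σ : Equiv.Perm (OnePoint K)) ^ p = 1 := fun σ => by
    rw [Subtype.ext_iff]; rfl
  have hQ : ∀ u : Γ, u ∈ Q ↔ u • (∞ : OnePoint K) = ∞ ∧ u ^ p = 1 := fun u => by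
    rw [hpow]
    change _ ↔ (u : Equiv.Perm (OnePoint K)) ∞ = ∞ ∧ _
    constructor
    · rintro ⟨t, -, e⟩
      rw [e, pgMob_infty_eq_iff, pgMob_pow_eq_one_iff h2]
      simp [coe_upT]; norm_num
    · obtain ⟨_, A, hA, rfl⟩ := u
      rw [pgMob_infty_eq_iff, pgMob_pow_eq_one_iff h2]
      rintro ⟨h3, h4⟩
      have hd := pg_sl2_det A
      have h5 : A 0 0 = A 1 1 := by
        have : (A 0 0 - A 1 1) ^ 2 = 0 := by grind
        exact sub_eq_zero.mp (pow_eq_zero_iff two_ne_zero |>.mp this)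
      obtain ⟨n, hn⟩ := hp.out.odd_of_ne_two h2
      have h6 : A * A = upT (2 * (A 0 0 * A 0 1)) := by
        ext i j
        rw [Matrix.SpecialLinearGroup.coe_mul, mul_apply, Fin.sum_univ_two]
        fin_cases i <;> fin_cases j <;> simp [coe_upT] <;> grind
      have h7 : (A * A) ^ (n + 1) = upT (A 0 0 * A 0 1) := by
        rw [h6, upT_pow]
        congr 1
        have : ((2 * n + 1 : ℕ) : K) = 0 := by rw [← hn]; exact CharP.cast_eq_zero K p
        push_cast at this ⊢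
        linear_combination (A 0 0 * A 0 1) * this
      refine ⟨A 0 0 * A 0 1, h7 ▸ pow_mem (mul_mem hA hA) _, ?_⟩
      change pgMob A = _
      rw [← h7, ← pow_two, ← pow_mul, show 2 * (n + 1) = p + 1 by omega, pow_succ, map_mul, map_pow,
        (pgMob_pow_eq_one_iff h2 A).mpr h4, one_mul]
  have h1 : ∀ u : Γ, u ≠ 1 → u ^ p = 1 → ∀ x y : OnePoint K, u • x = x → u • y = y → x = y := by
    rintro ⟨_, A, hA, rfl⟩ hu1 hup x y hx hy
    exact pgMob_fixed_unique h2 (fun e => hu1 (Subtype.ext e)) ((hpow _).mp hup) x y hx hy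
  have h3 : ∀ g : Γ, g ^ p ≠ 1 → ∃ x y : OnePoint K, x ≠ y ∧ ∀ z, g • z = z ↔ z = x ∨ z = y := by
    rintro ⟨_, A, hA, rfl⟩ hg
    exact pgMob_fixed_two h2 fun e => hg (Subtype.ext e)
  let u₁ : Q := ⟨⟨pgMob (upT 1), mem_map_of_mem _ hu⟩, 1, hu, rfl⟩
  have hu₁ : orderOf u₁ = p := by
    refine orderOf_eq_prime (Subtype.ext ((hQ _).mp u₁.2).2) fun e => ?_
    have : pgMob (upT (1 : K)) = 1 := congrArg (fun v : Q => ((v : Γ) : Equiv.Perm (OnePoint K))) e
    simp [pgMob_eq_one_iff, coe_upT] at this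
  have hpq : p ≤ Nat.card Q := Nat.le_of_dvd Nat.card_pos (hu₁ ▸ orderOf_dvd_natCard u₁)
  have hp3 : 3 ≤ p := by have := hp.out.two_le; omega
  let w : Γ := ⟨pgMob (loT l), mem_map_of_mem _ hw⟩
  have hw1 : w • (∞ : OnePoint K) = ((l⁻¹ : K) : OnePoint K) := pgMob_loT_infty hl
  have hw2 : w⁻¹ • (∞ : OnePoint K) = ((-l⁻¹ : K) : OnePoint K) := by
    rw [inv_smul_eq_iff]
    change _ = pgMob (loT l) _
    simp [pgMob_coe, coe_loT, hl]
  have hQs : ∀ u ∈ Q, ∀ a b : K, u • (a : OnePoint K) = b → upT (b - a) ∈ L := by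
    rintro u ⟨t, ht, e⟩ a b h
    change (u : Equiv.Perm (OnePoint K)) a = b at h
    rw [e, pgMob_upT_coe, coe_eq_coe] at h
    rwa [← h, add_sub_cancel_left]
  by_contra hcon
  have hcon' : ∀ t : K, upT t ∈ L → t = 2 * l⁻¹ ∨ t = -(2 * l⁻¹) → False := fun t ht e => by
    have h6 : upT (2 * l⁻¹) ∈ L := by
      rcases e with rfl | rfl
      · exact ht
      · have : upT (2 * l⁻¹) = (upT (-(2 * l⁻¹)))⁻¹ := by
          rw [eq_inv_iff_mul_eq_one, upT_mul, add_neg_cancel, upT_zero]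
        exact this ▸ inv_mem ht
    obtain ⟨n, hn⟩ := hp.out.odd_of_ne_two h2
    have h7 := pow_mem h6 (n + 1)
    rw [upT_pow] at h7
    refine hcon (by
      convert h7 using 2
      have : ((2 * n + 1 : ℕ) : K) = 0 := by rw [← hn]; exact CharP.cast_eq_zero K p
      push_cast at this ⊢
      linear_combination -l⁻¹ * this)
  rcases pg_dickson_count hQ h1 h3 (by omega) ⟨w, by rw [hw1]; exact coe_ne_infty _⟩ with h | h
  · have := pg_dickson_card_mul_le hQ h1 (ι := Fin 2) (fun i => ((![l⁻¹, -l⁻¹] i : K) : OnePoint K))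
      (fun i => by
        fin_cases i
        exacts [⟨w, hw1⟩, ⟨w⁻¹, hw2⟩]) (fun i => coe_ne_infty _) (fun i j u hu e => by
        have e' := hQs u hu _ _ e
        fin_cases i <;> fin_cases j
        · rfl
        · exact (hcon' _ e' (.inr (by simp; ring))).elim
        · exact (hcon' _ e' (.inl (by simp; ring))).elim
        · rfl)
    rw [h, Nat.card_eq_fintype_card (α := Fin 2), Fintype.card_fin] at this
    omega
  · omega

end Dickson

open scoped MatrixGroups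

variable {p : ℕ} [hp : Fact p.Prime] {V : Type*} [AddCommGroup V] [Module (ZMod p) V] [Finite V]
  {Γ : Type*} [Group Γ] [Finite Γ] {ρ : Γ →* Module.End (ZMod p) V} {G : Subgroup Γ}

theorem exists_mul_eq_of_ker_le {x y : Module.End (ZMod p) V}
    (h : LinearMap.ker x ≤ LinearMap.ker y) : ∃ s, y = s * x := by
  obtain ⟨g, hg⟩ := x.rangeRestrict.exists_rightInverse_of_surjective x.range_rangeRestrict
  obtain ⟨s, hs⟩ := LinearMap.exists_extend g
  refine ⟨y * s, LinearMap.ext fun v => ?_⟩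
  have h1 : s (x v) = g ⟨x v, v, rfl⟩ := LinearMap.congr_fun hs ⟨x v, v, rfl⟩
  have h2 : x (g ⟨x v, v, rfl⟩) = x v :=
    congrArg Subtype.val (LinearMap.congr_fun hg ⟨x v, v, rfl⟩)
  have h3 : v - s (x v) ∈ LinearMap.ker y := h (by simp [h1, h2])
  simpa [sub_eq_zero] using h3

theorem exists_plane (hρ : Function.Injective ρ) {a b : Γ} (hs : closure ({a, b} : Set Γ) = ⊤)
    (ha : nn ρ a * nn ρ a = 0) (hb : nn ρ b * nn ρ b = 0) (hn : ¬ IsPGroup p Γ) :
    ∃ l : AlgebraicClosure (ZMod p), l ≠ 0 ∧ ∃ φ : Γ →* SL(2, AlgebraicClosure (ZMod p)),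
      φ a = upT 1 ∧ φ b = loT l ∧
      ∀ u c, LinearMap.ker (nn ρ u) ≤ LinearMap.ker (nn ρ c) → φ u = 1 → φ c = 1 := by
  set F := AlgebraicClosure (ZMod p)
  let B := Module.finBasis (ZMod p) V
  let ψ : Module.End (ZMod p) V →+* Module.End F (Fin (Module.finrank (ZMod p) V) → F) :=
    (Matrix.toLinAlgEquiv' (R := F)).toRingEquiv.toRingHom.comp
      ((algebraMap (ZMod p) F).mapMatrix.comp (LinearMap.toMatrixAlgEquiv B).toRingEquiv.toRingHom)
  have hψ : Function.Injective ψ :=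
    (Matrix.toLinAlgEquiv' (R := F)).injective.comp
      ((Matrix.map_injective (algebraMap (ZMod p) F).injective).comp
        (LinearMap.toMatrixAlgEquiv B).injective)
  have hq : ∀ c : Γ, nn ρ c * nn ρ c = 0 →
      ((ψ.toMonoidHom.comp ρ) c - 1) * ((ψ.toMonoidHom.comp ρ) c - 1) = 0 := fun c hc => by
    have := congrArg ψ hc
    simpa [nn] using this
  rcases isNilpotent_or_exists_eigenvector ((ψ.toMonoidHom.comp ρ) (a * b))
    (P := Polynomial.X ^ orderOf (a * b) - Polynomial.C 1)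
    (Polynomial.monic_X_pow_sub_C 1 (orderOf_pos _).ne') (IsAlgClosed.splits _)
    (by rw [map_sub, map_pow, Polynomial.aeval_X, ← map_pow, pow_orderOf_eq_one]; simp) with
    h1 | ⟨μ, hμ, v, hv, h1⟩
  · refine absurd (fun g => ?_) hn
    obtain ⟨k, hk⟩ := pow_eq_one_of_isNilpotent (p := p)
      (unipotent_of_two_quadratic _ hs (hq a ha) (hq b hb) h1 g)
    refine ⟨k, hρ (hψ ?_)⟩
    rw [← map_pow] at hk
    simpa using hk
  obtain ⟨l, hl, ev, hev, φ, h3, h4, h5⟩ :=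
    pg_exists_sl2_plane_of_eigenvector _ hs (hq a ha) (hq b hb) hμ hv h1
  refine ⟨l, hl, φ, h3, h4, fun u c h hu => sl2_eq_of_mulVec fun w => hev ?_⟩
  obtain ⟨s, hs⟩ := exists_mul_eq_of_ker_le h
  have h6 : ψ (nn ρ u) (ev w) = 0 := by
    have := h5 u w
    rw [hu] at this
    simpa [nn, sub_eq_zero] using this
  have h7 : ψ (nn ρ c) (ev w) = 0 := by rw [hs, map_mul, Module.End.mul_apply, h6, map_zero]
  rw [← h5]
  simpa [nn, sub_eq_zero] using h7

variable (ρ) in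
/-- Partners generate a copy of `SL(2, p)`. -/
structure Part (x y : Γ) : Prop where
  l : nn ρ x * nn ρ y * nn ρ x = nn ρ x
  r : nn ρ y * nn ρ x * nn ρ y = nn ρ y

theorem Part.symm {x y : Γ} (h : Part ρ x y) : Part ρ y x := ⟨h.r, h.l⟩

theorem Part.conj {x y : Γ} (h : Part ρ x y) (g : Γ) : Part ρ (g * x * g⁻¹) (g * y * g⁻¹) := by
  have key : ∀ {x y : Γ}, nn ρ x * nn ρ y * nn ρ x = nn ρ x → nn ρ (g * x * g⁻¹) *
      nn ρ (g * y * g⁻¹) * nn ρ (g * x * g⁻¹) = nn ρ (g * x * g⁻¹) := fun {x y} h => by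
    have h1 : ∀ t, ρ g⁻¹ * (ρ g * t) = t := fun t => by rw [← mul_assoc, rho_inv_mul, one_mul]
    simp only [nn_conj]
    simp only [mul_assoc, h1]
    rw [← mul_assoc (nn ρ y), ← mul_assoc (nn ρ x), ← mul_assoc (nn ρ x), h]
  exact ⟨key h.l, key h.r⟩

theorem comm_of_not_dvd (h5 : 5 ≤ p) (hρ : Function.Injective ρ) {a : Γ}
    (ha : nn ρ a * nn ρ a = 0) (N : Subgroup Γ) [hN : N.Normal] (hd : ¬ p ∣ Nat.card N) {n : Γ}
    (hn : n ∈ N) : Commute n a := by
  have hc := (hp.out.coprime_iff_not_dvd.2 hd).symm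
  have h1 : IsPGroup p (closure ({a, n * a * n⁻¹} : Set Γ)) := by
    by_contra h
    have := (three_of_quadratic_conj ρ (by omega) hρ ha N ⊥ IsPGroup.of_bot hc
      (fun r hr => congrArg Subtype.val (pow_card_eq_one' (x := (⟨r, hr⟩ : N)))) hn h).1
    omega
  obtain ⟨k, hk⟩ := h1 ⟨a⁻¹ * (n * a * n⁻¹), mul_mem (inv_mem (subset_closure (by simp)))
    (subset_closure (by simp))⟩
  have h2 : a⁻¹ * (n * a * n⁻¹) ∈ N := by
    simpa only [mul_assoc] using mul_mem (hN.conj_mem' _ hn a) (inv_mem hn)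
  have h3 := orderOf_eq_one_iff.1 (Nat.eq_one_of_dvd_coprimes (hc.pow_right k)
    (N.orderOf_dvd_natCard h2) (orderOf_dvd_of_pow_eq_one (congrArg Subtype.val hk)))
  rw [inv_mul_eq_one, eq_mul_inv_iff_mul_eq] at h3
  exact h3.symm

theorem Root.exists_part (h5 : 5 ≤ p) (hρ : Function.Injective ρ) {a b : Γ} (ha : Root ρ G a)
    (hb : Root ρ G b) (hn : ¬ IsNilpotent (tau ρ a b)) :
    ∃ x, Root ρ G x ∧ Same ρ a x ∧ Part ρ x b := by
  obtain ⟨m, he2⟩ := exists_idem (tau ρ a b)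
  set e := tau ρ a b ^ (m + 1) with he
  have ea := ha.mul_idem h5 hρ hb hn he he2
  have eb := hb.mul_idem h5 hρ ha (tau_comm ρ a b ▸ hn) (tau_comm ρ a b ▸ he) he2
  set L := closure ({a, b} : Set Γ) with hL
  have hLG : L ≤ G := (closure_le _).2 (by rintro _ (rfl | rfl); exacts [ha.mem, hb.mem])
  have h1 : a ∈ L := subset_closure (by simp)
  have h2 : b ∈ L := subset_closure (by simp)
  have hLe : ∀ g ∈ L, nn ρ g * e = nn ρ g := fun g hg => by
    obtain ⟨r₀, r₁, r₂, r₃, -, -, e1, -⟩ := form ha.quad hb.quad hg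
    have : nn ρ g = r₀ * tau ρ a b + r₁ * nn ρ a + r₂ * nn ρ b + r₃ * (nn ρ a * nn ρ b) := by
      rw [nn, e1]; abel
    rw [this]
    simp only [tau, add_mul, mul_assoc, ea, eb]
  have hsame : ∀ u ∈ L, u ≠ 1 → u ^ p = 1 → Commute u a → Root ρ G u ∧ Same ρ a u :=
    fun u hu hu1 hup hc => by
      obtain ⟨-, r, h3, h4⟩ := core h5 ha.quad hb.quad he he2 hu (hLe u hu) hup hc
      rw [ea] at h4
      refine ha.of_le (hLG hu) (fun h => hu1 (hρ (by rw [rho_eq, h]; simp))) ?_ ?_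
      · rw [h4, ← h3.eq]; exact LinearMap.range_comp_le_range _ _
      · rw [h4]; exact LinearMap.ker_le_ker_comp _ _
  have hρ' : Function.Injective (ρ.comp L.subtype) := hρ.comp L.subtype_injective
  have hs := closure_pair_subtype_eq_top h1 h2 hL
  obtain ⟨l, hl, φ, h3, h4, h6⟩ := exists_plane hρ' hs ha.quad hb.quad
    fun h => hn (nil_of_isPGroup ha.quad hb.quad h)
  set a' : L := ⟨a, h1⟩
  set b' : L := ⟨b, h2⟩
  have hap : a' ^ p = 1 := Subtype.ext (ha.pow_eq_one hρ)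
  have hbp : b' ^ p = 1 := Subtype.ext (hb.pow_eq_one hρ)
  have hd : ¬ p ∣ Nat.card φ.ker := fun hd => by
    obtain ⟨u, hu, hu1, hup, hc⟩ := exists_comm_of_dvd hap (le_normalizer_of_normal (mem_top _)) hd
    have := h6 u a' (hsame u u.2 (fun e => hu1 (Subtype.ext e)) (congrArg Subtype.val hup)
      (congrArg Subtype.val hc.eq)).2.2.ge hu
    rw [h3, upT_eq_one_iff] at this
    exact one_ne_zero this
  have hcen : ∀ n ∈ φ.ker, ∀ g, Commute n g := fun n hn g => by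
    have : (⊤ : Subgroup L) ≤ centralizer {n} := by
      rw [← hs, closure_le]
      rintro _ (rfl | rfl) <;> refine mem_centralizer_singleton_iff.2 (Commute.eq (.symm ?_))
      exacts [comm_of_not_dvd h5 hρ' (a := a') ha.quad _ hd hn,
        comm_of_not_dvd h5 hρ' (a := b') hb.quad _ hd hn]
    exact (mem_centralizer_singleton_iff.1 (this (mem_top g))).symm
  have hcop := (hp.out.coprime_iff_not_dvd.2 hd).symm
  have heq : ∀ g h : L, φ g = φ h → g ^ p = 1 → h ^ p = 1 → g = h := fun g h e hg hh => by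
    have h7 : g * h⁻¹ ∈ φ.ker := by simp [e]
    have h8 : (g * h⁻¹ * h) ^ p = (g * h⁻¹) ^ p * h ^ p := (hcen _ h7 h).mul_pow p
    rw [inv_mul_cancel_right, hg, hh, mul_one] at h8
    exact mul_inv_eq_one.1 (orderOf_eq_one_iff.1 (Nat.eq_one_of_dvd_coprimes hcop
      (φ.ker.orderOf_dvd_natCard h7) (orderOf_dvd_of_pow_eq_one h8.symm)))
  have : Finite φ.range := Finite.of_surjective _ φ.rangeRestrict_surjective
  obtain ⟨x₀, hx₀⟩ := dickson_upT h5 φ.range hl ⟨a', h3⟩ ⟨b', h4⟩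
  obtain ⟨j, hj1, k, hj2⟩ : ∃ j, j ≡ 1 [MOD p] ∧ Nat.card φ.ker ∣ j :=
    ⟨_, (Nat.chineseRemainder hcop.symm 1 0).2.1,
      Nat.modEq_zero_iff_dvd.1 (Nat.chineseRemainder hcop.symm 1 0).2.2⟩
  have hx : φ (x₀ ^ j) = upT l⁻¹ := by
    rw [map_pow, hx₀, upT_pow, (CharP.natCast_eq_natCast' _ p hj1), Nat.cast_one, one_mul]
  have hxp : (x₀ ^ j) ^ p = 1 := by
    have h7 : x₀ ^ p ∈ φ.ker := by
      rw [MonoidHom.mem_ker, map_pow, hx₀, upT_pow, CharP.cast_eq_zero, zero_mul, upT_zero]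
    rw [← pow_mul, mul_comm, pow_mul, hj2, pow_mul,
      show (x₀ ^ p) ^ Nat.card φ.ker = 1 from congrArg Subtype.val
        (pow_card_eq_one' (x := (⟨_, h7⟩ : φ.ker))), one_pow]
  generalize x₀ ^ j = x at hx hxp
  have hxa : x * a' * x⁻¹ = a' := heq _ _ (by
    rw [map_mul, map_mul, map_inv, hx, h3, upT_mul, add_comm, ← upT_mul, mul_inv_cancel_right])
    (by rw [conj_pow, hap]; simp) hap
  obtain ⟨hxr, hxs⟩ := hsame x x.2 (fun e => by
    rw [show x = 1 from Subtype.ext e, map_one, eq_comm, upT_eq_one_iff] at hx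
    exact inv_ne_zero hl hx) (congrArg Subtype.val hxp)
    (congrArg Subtype.val (mul_inv_eq_iff_eq_mul.1 hxa))
  have hbr : (x * b'⁻¹ * x) * b' * (x * b'⁻¹ * x)⁻¹ = x⁻¹ := heq _ _ (by
    rw [map_mul, map_inv, map_inv, mul_inv_eq_iff_eq_mul, map_mul, eq_inv_mul_iff_mul_eq, map_mul,
      map_mul, map_inv, hx, h4]
    have : (loT l)⁻¹ = loT (-l) := by
      rw [inv_eq_iff_mul_eq_one, loT_mul, add_neg_cancel, loT_zero]
    rw [this]
    ext i j
    fin_cases i <;> fin_cases j <;>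
      simp [coe_upT, coe_loT, Matrix.mul_apply, Fin.sum_univ_two, hl])
    (by rw [conj_pow, hbp]; simp) (by rw [inv_pow, hxp, inv_one])
  have hbr' : (x : Γ) * b⁻¹ * x * b = b⁻¹ * x := by
    have := congrArg Subtype.val (mul_inv_eq_iff_eq_mul.1 hbr)
    simpa [b', mul_assoc] using this
  have h7 := congrArg ρ hbr'
  simp only [map_mul, rho_inv_eq hb.quad] at h7
  rw [rho_eq ρ x, rho_eq ρ b] at h7
  have q1 := hxr.quad
  have q2 := hb.quad
  have q3 : nn ρ a * nn ρ x = 0 := hxs.mul_left ha.quad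
  have ex : e * nn ρ x = nn ρ x := by
    have := mul_eq_of_range_le (z := e) (w := 1) (x := nn ρ a) (by
      rw [← (he ▸ (commute_tau_left ha.quad b).pow_right _ : Commute (nn ρ a) e).eq, ea, one_mul])
      hxs.1.ge
    rwa [one_mul] at this
  refine ⟨x, hxr, hxs, ?_⟩
  set ξ := nn ρ (x : Γ)
  set β := nn ρ b
  have q1' : ∀ t, ξ * (ξ * t) = 0 := fun t => by rw [← mul_assoc, q1, zero_mul]
  have q2' : ∀ t, β * (β * t) = 0 := fun t => by rw [← mul_assoc, q2, zero_mul]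
  have h8 : ξ + ξ * β + β - β * (ξ * β) - ξ * (β * ξ) - ξ * (β * (ξ * β)) = 0 := by
    rw [← sub_eq_zero.2 h7]
    simp only [mul_add, add_mul, mul_sub, sub_mul, mul_assoc, q1, q2, q1', q2', one_mul, mul_one,
      mul_zero, zero_mul]
    abel
  have h9 : ξ * β - ξ * (β * (ξ * β)) = 0 := by
    simpa only [mul_add, mul_sub, q1, q1', mul_zero, zero_add, sub_zero] using congrArg (ξ * ·) h8
  have h10 : ξ - ξ * (β * ξ) = -(β - β * (ξ * β)) := by
    rw [eq_neg_iff_add_eq_zero, ← sub_eq_zero.2 (h8.trans h9.symm)]; abel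
  have h11 : ξ - ξ * (β * ξ) = 0 := by
    have e1 : e * (ξ - ξ * (β * ξ)) = ξ - ξ * (β * ξ) := by rw [mul_sub, ← mul_assoc, ex]
    have e2 : nn ρ a * (ξ - ξ * (β * ξ)) = 0 := by rw [mul_sub, ← mul_assoc, q3]; simp
    have e3 : β * (ξ - ξ * (β * ξ)) = 0 := by rw [h10, mul_neg, mul_sub, q2, q2']; simp
    rw [← e1, he, pow_succ, mul_assoc, tau, add_mul, mul_assoc, mul_assoc, e2, e3]
    simp
  refine ⟨by rw [mul_assoc, ← sub_eq_zero.1 h11], ?_⟩
  rw [h11, eq_comm, neg_eq_zero] at h10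
  rw [mul_assoc, ← sub_eq_zero.1 h10]

end Cfsg.Lib.Flav
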