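import Cfsg.Agent.Lib.Flav.Partner

/-!
# The copy of `SL(2, p)` generated by partners
-/

set_option autoImplicit false
set_option linter.unusedSectionVars false

namespace Cfsg.Lib.Flav
open Subgroup Cfsg.Lib Cfsg.Lib.Quad
open scoped MatrixGroups

variable {p : ℕ} [hp : Fact p.Prime] {V : Type*} [AddCommGroup V] [Module (ZMod p) V] [Finite V]
  {Γ : Type*} [Group Γ] [Finite Γ] {ρ : Γ →* Module.End (ZMod p) V} {G : Subgroup Γ}

variable (ρ) in
/-- The matrix algebra spanned by partners. -/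
def Phi (x y : Γ) : Matrix (Fin 2) (Fin 2) (ZMod p) →ₗ[ZMod p] Module.End (ZMod p) V where
  toFun m := m 0 0 • (nn ρ x * nn ρ y) + m 0 1 • nn ρ x + m 1 0 • nn ρ y + m 1 1 • (nn ρ y * nn ρ x)
  map_add' m n := by simp only [Matrix.add_apply]; module
  map_smul' c m := by simp only [Matrix.smul_apply, RingHom.id_apply, smul_eq_mul]; module

theorem Phi_apply (x y : Γ) (m : Matrix (Fin 2) (Fin 2) (ZMod p)) : Phi ρ x y m =
    m 0 0 • (nn ρ x * nn ρ y) + m 0 1 • nn ρ x + m 1 0 • nn ρ y + m 1 1 • (nn ρ y * nn ρ x) := rfl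

theorem Phi_one (x y : Γ) : Phi ρ x y 1 = tau ρ x y := by simp [Phi_apply, tau]

theorem commute_Phi {x y : Γ} {r : Module.End (ZMod p) V} (h1 : Commute r (nn ρ x))
    (h2 : Commute r (nn ρ y)) (m : Matrix (Fin 2) (Fin 2) (ZMod p)) : Commute r (Phi ρ x y m) :=
  ((((h1.mul_right h2).smul_right _).add_right (h1.smul_right _)).add_right
    (h2.smul_right _)).add_right ((h2.mul_right h1).smul_right _)

theorem Phi_conj (g x y : Γ) (m : Matrix (Fin 2) (Fin 2) (ZMod p)) :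
    Phi ρ (g * x * g⁻¹) (g * y * g⁻¹) m = ρ g * Phi ρ x y m * ρ g⁻¹ := by
  have h1 : ∀ t, ρ g⁻¹ * (ρ g * t) = t := fun t => by rw [← mul_assoc, rho_inv_mul, one_mul]
  simp only [Phi_apply, nn_conj]
  simp only [mul_assoc, h1, mul_add, add_mul, mul_smul_comm, smul_mul_assoc]

variable (ρ G) in
/-- Partner roots. -/
structure PR (x y : Γ) : Prop where
  l : Root ρ G x
  r : Root ρ G y
  part : Part ρ x y

namespace PR
variable {x y : Γ} (h : PR ρ G x y)
include h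

theorem symm : PR ρ G y x := ⟨h.r, h.l, h.part.symm⟩

theorem conj [hG : G.Normal] (g : Γ) : PR ρ G (g * x * g⁻¹) (g * y * g⁻¹) :=
  ⟨h.l.conj' (hG.conj_mem _ h.l.mem g), h.r.conj' (hG.conj_mem _ h.r.mem g), h.part.conj g⟩

theorem Phi_mul (m n : Matrix (Fin 2) (Fin 2) (ZMod p)) :
    Phi ρ x y (m * n) = Phi ρ x y m * Phi ρ x y n := by
  have q1 := h.l.quad
  have q2 := h.r.quad
  have q3 := h.part.l
  have q4 := h.part.r
  simp only [Phi_apply]
  generalize nn ρ x = ξ at *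
  generalize nn ρ y = η at *
  have q1' : ∀ t, ξ * (ξ * t) = 0 := fun t => by rw [← mul_assoc, q1, zero_mul]
  have q2' : ∀ t, η * (η * t) = 0 := fun t => by rw [← mul_assoc, q2, zero_mul]
  have q3' : ∀ t, ξ * (η * (ξ * t)) = ξ * t := fun t => by rw [← mul_assoc, ← mul_assoc, q3]
  have q4' : ∀ t, η * (ξ * (η * t)) = η * t := fun t => by rw [← mul_assoc, ← mul_assoc, q4]
  rw [mul_assoc] at q3 q4
  simp only [Matrix.mul_apply, Fin.sum_univ_two, mul_add, add_mul, smul_mul_assoc, mul_smul_comm,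
    mul_assoc, q1, q2, q3, q4, q1', q2', q3', q4', mul_zero, smul_zero]
  module

theorem tau_Phi (m : Matrix (Fin 2) (Fin 2) (ZMod p)) : tau ρ x y * Phi ρ x y m = Phi ρ x y m := by
  rw [← Phi_one, ← h.Phi_mul, one_mul]

theorem Phi_tau (m : Matrix (Fin 2) (Fin 2) (ZMod p)) : Phi ρ x y m * tau ρ x y = Phi ρ x y m := by
  rw [← Phi_one, ← h.Phi_mul, mul_one]

theorem tau_tau : tau ρ x y * tau ρ x y = tau ρ x y := by
  simpa only [Phi_one] using h.tau_Phi 1

theorem tau_l : tau ρ x y * nn ρ x = nn ρ x := by rw [tau_mul_left h.l.quad, h.part.l]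

theorem l_tau : nn ρ x * tau ρ x y = nn ρ x := by rw [(commute_tau_left h.l.quad y).eq, h.tau_l]

theorem tau_r : tau ρ x y * nn ρ y = nn ρ y := tau_comm ρ x y ▸ h.symm.tau_l

theorem r_tau : nn ρ y * tau ρ x y = nn ρ y := tau_comm ρ x y ▸ h.symm.l_tau

theorem not_nil : ¬ IsNilpotent (tau ρ x y) := fun hn =>
  h.l.ne (by rw [← h.tau_l, IsIdempotentElem.eq_zero_of_isNilpotent h.tau_tau hn, zero_mul])

theorem Phi_eq_zero {m : Matrix (Fin 2) (Fin 2) (ZMod p)} (hm : Phi ρ x y m = 0) : m = 0 := by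
  ext i j
  have h1 := h.Phi_mul (Matrix.single 0 i 1 * m) (Matrix.single j 1 1)
  rw [h.Phi_mul _ m, hm, mul_zero, zero_mul, Matrix.single_mul_mul_single] at h1
  simpa [Phi_apply, Matrix.single_apply, h.l.ne] using h1

theorem rk_Phi {m : Matrix (Fin 2) (Fin 2) (ZMod p)} (hm : m.det = 0) :
    rk (Phi ρ x y m) ≤ rk (nn ρ x) := by
  obtain ⟨a, b, c, d, rfl⟩ : ∃ a b c d : ZMod p, m = !![a, 0; b, 0] * !![0, 1; 0, 0] * !![0, 0; c, d] := by
    rw [Matrix.det_fin_two] at hm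
    by_cases h0 : m 0 0 = 0
    · by_cases h1 : m 0 1 = 0
      · exact ⟨0, 1, m 1 0, m 1 1, by ext i j; fin_cases i <;> fin_cases j <;> simp [h0, h1]⟩
      · have h2 : m 1 0 = 0 := by simpa [h0, h1] using hm
        exact ⟨m 0 1, m 1 1, 0, 1, by ext i j; fin_cases i <;> fin_cases j <;> simp [h0, h2]⟩
    · refine ⟨m 0 0, m 1 0, 1, m 0 1 / m 0 0, ?_⟩
      ext i j
      fin_cases i <;> fin_cases j <;> simp <;> field_simp
      linear_combination hm
  rw [h.Phi_mul, h.Phi_mul]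
  refine (rk_mul_le_left _ _).trans ((rk_mul_le_right _ _).trans (le_of_eq ?_))
  simp [Phi_apply]

theorem exists_psi (hρ : Function.Injective ρ) : ∃ ψ : SL(2, ZMod p) →* Γ,
    (∀ s, ψ s ∈ closure ({x, y} : Set Γ)) ∧ ∀ s, ρ (ψ s) = 1 - tau ρ x y + Phi ρ x y s := by
  have hmul : ∀ s t : SL(2, ZMod p), 1 - tau ρ x y + Phi ρ x y (s * t : SL(2, ZMod p)) =
      (1 - tau ρ x y + Phi ρ x y s) * (1 - tau ρ x y + Phi ρ x y t) := fun s t => by
    rw [Matrix.SpecialLinearGroup.coe_mul, h.Phi_mul]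
    simp only [mul_add, add_mul, mul_sub, sub_mul, one_mul, mul_one, h.tau_tau, h.tau_Phi,
      h.Phi_tau]
    abel
  have : ∀ s : SL(2, ZMod p), ∃ g ∈ closure ({x, y} : Set Γ),
      ρ g = 1 - tau ρ x y + Phi ρ x y s := by
    refine sl2_induction _ (fun c => ⟨x ^ c.val, pow_mem (subset_closure (by simp)) _, ?_⟩)
      (fun c => ⟨y ^ c.val, pow_mem (subset_closure (by simp)) _, ?_⟩) ?_
    · rw [rho_pow h.l.quad]; simp [Phi_apply, coe_upT, tau]; abel
    · rw [rho_pow h.r.quad]; simp [Phi_apply, coe_loT, tau]; abel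
    · rintro s t ⟨g, hg, e1⟩ ⟨k, hk, e2⟩
      exact ⟨g * k, mul_mem hg hk, by rw [map_mul, e1, e2, hmul]⟩
  choose f h1 h2 using this
  exact ⟨MonoidHom.mk' f fun s t => hρ (by rw [map_mul, h2, h2, h2, hmul]), h1, h2⟩

theorem closure_le : closure ({x, y} : Set Γ) ≤ G :=
  (Subgroup.closure_le _).2 (by rintro _ (rfl | rfl); exacts [h.l.mem, h.r.mem])

end PR

/-- Quaternion units in `SL(2, p)`. -/
theorem exists_quat (h5 : 5 ≤ p) : ∃ i j : SL(2, ZMod p), i.1 * i.1 = -1 ∧ j.1 * j.1 = -1 ∧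
    j.1 * i.1 = -(i.1 * j.1) ∧ ∀ m : Matrix (Fin 2) (Fin 2) (ZMod p), ∃ c₀ c₁ c₂ c₃ : ZMod p,
      m = c₀ • (1 : Matrix (Fin 2) (Fin 2) (ZMod p)) + c₁ • i.1 + c₂ • j.1 + c₃ • (i.1 * j.1) := by
  obtain ⟨a, b, hab⟩ := ZMod.sq_add_sq p (-1)
  have h2 : (2 : ZMod p) ≠ 0 := two_ne_zero_of_charP (K := ZMod p) (p := p) (by omega)
  refine ⟨⟨!![0, 1; -1, 0], by simp [Matrix.det_fin_two]⟩, ⟨!![a, b; b, -a], by
    simp [Matrix.det_fin_two]; linear_combination -hab⟩, ?_, ?_, ?_, fun m => ?_⟩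
  · ext i j; fin_cases i <;> fin_cases j <;> simp
  · ext i j
    fin_cases i <;> fin_cases j <;> simp [Matrix.mul_apply, Fin.sum_univ_two] <;>
      first | linear_combination hab | ring
  · ext i j; fin_cases i <;> fin_cases j <;> simp
  · refine ⟨(m 0 0 + m 1 1) / 2, (m 0 1 - m 1 0) / 2,
      -(a * (m 0 0 - m 1 1) + b * (m 0 1 + m 1 0)) / 2,
      -(b * (m 0 0 - m 1 1) - a * (m 0 1 + m 1 0)) / 2, ?_⟩
    ext i j
    fin_cases i <;> fin_cases j <;> simp <;> field_simp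
    · linear_combination (m 0 0 - m 1 1) * hab
    · linear_combination (m 0 1 + m 1 0) * hab
    · linear_combination (m 0 1 + m 1 0) * hab
    · linear_combination -(m 0 0 - m 1 1) * hab

end Cfsg.Lib.Flav
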