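import Cfsg.Agent.Lib.Flav.Psi
import Cfsg.Agent.Lib.Flav.Jordan

/-!
# Root elements when all root involutions are central
-/

set_option autoImplicit false
set_option linter.unusedSectionVars false

namespace Cfsg.Lib.Flav
open Subgroup Cfsg.Lib Cfsg.Lib.Quad
open scoped MatrixGroups

variable {p : ℕ} [hp : Fact p.Prime] {V : Type*} [AddCommGroup V] [Module (ZMod p) V] [Finite V]
  {Γ : Type*} [Group Γ] [Finite Γ] {ρ : Γ →* Module.End (ZMod p) V} {G : Subgroup Γ}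

variable (ρ) in
/-- Opposite elements. -/
def Opp (a b : Γ) : Prop := ¬ IsNilpotent (tau ρ a b)

variable (ρ) in
/-- Equal or opposite root subgroups. -/
def Rel (a b : Γ) : Prop := Same ρ a b ∨ Opp ρ a b

variable (ρ G) in
/-- Membership in the root subgroup. -/
def InX (x u : Γ) : Prop := u ∈ G ∧ LinearMap.range (nn ρ u) ≤ LinearMap.range (nn ρ x) ∧
  LinearMap.ker (nn ρ x) ≤ LinearMap.ker (nn ρ u)

theorem Opp.symm {a b : Γ} (h : Opp ρ a b) : Opp ρ b a := by rwa [Opp, tau_comm]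

theorem Rel.symm {a b : Γ} (h : Rel ρ a b) : Rel ρ b a := h.imp Same.symm Opp.symm

theorem Rel.refl (a : Γ) : Rel ρ a a := .inl (.refl a)

theorem Opp.conj {a b : Γ} (h : Opp ρ a b) (g : Γ) : Opp ρ (g * a * g⁻¹) (g * b * g⁻¹) := by
  rintro ⟨n, hn⟩
  refine h ⟨n, ?_⟩
  have : ∀ n, (ρ g * tau ρ a b * ρ g⁻¹) ^ n = ρ g * tau ρ a b ^ n * ρ g⁻¹ := fun n => by
    induction n with
    | zero => simp [rho_mul_inv]
    | succ n ih =>
      rw [pow_succ, pow_succ, ih]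
      simp only [mul_assoc]
      rw [← mul_assoc (ρ g⁻¹), rho_inv_mul, one_mul]
  rwa [← Phi_one, Phi_conj, Phi_one, this, (isUnit_rho ρ _).mul_left_eq_zero,
    (isUnit_rho ρ _).mul_right_eq_zero] at hn

theorem Same.conj {a b : Γ} (h : Same ρ a b) (g : Γ) : Same ρ (g * a * g⁻¹) (g * b * g⁻¹) := by
  have k1 : ∀ {a b : Γ}, LinearMap.range (nn ρ a) ≤ LinearMap.range (nn ρ b) →
      LinearMap.range (nn ρ (g * a * g⁻¹)) ≤ LinearMap.range (nn ρ (g * b * g⁻¹)) := by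
    rintro a b h _ ⟨v, rfl⟩
    obtain ⟨w, hw⟩ := h ⟨ρ g⁻¹ v, rfl⟩
    exact ⟨ρ g w, by simp [nn_conj, rep_inv_apply, hw]⟩
  have k2 : ∀ {a b : Γ}, LinearMap.ker (nn ρ a) ≤ LinearMap.ker (nn ρ b) →
      LinearMap.ker (nn ρ (g * a * g⁻¹)) ≤ LinearMap.ker (nn ρ (g * b * g⁻¹)) := by
    intro a b h v hv
    have h1 : nn ρ a (ρ g⁻¹ v) = 0 := by
      simpa [nn_conj, rep_inv_apply] using congrArg (ρ g⁻¹) (LinearMap.mem_ker.1 hv)
    simp [nn_conj, LinearMap.mem_ker.1 (h h1)]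
  exact ⟨le_antisymm (k1 h.1.le) (k1 h.1.ge), le_antisymm (k2 h.2.le) (k2 h.2.ge)⟩

theorem Rel.conj {a b : Γ} (h : Rel ρ a b) (g : Γ) : Rel ρ (g * a * g⁻¹) (g * b * g⁻¹) :=
  h.imp (·.conj g) (·.conj g)

theorem comm_of_nn (hρ : Function.Injective ρ) {a b : Γ} (h : Commute (nn ρ a) (nn ρ b)) :
    Commute a b := hρ (by
  rw [map_mul, map_mul, rho_eq ρ a, rho_eq ρ b]
  exact ((Commute.one_left _).add_left ((Commute.one_right _).add_right h)).eq)

theorem InX.mul_eq_zero {x u v : Γ} (hx : Root ρ G x) (hu : InX ρ G x u) (hv : InX ρ G x v) :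
    nn ρ u * nn ρ v = 0 := by
  simpa using mul_eq_of_range_le (w := 0) (by simpa using mul_eq_zero_of_ker_le hx.quad hu.2.2)
    hv.2.1

theorem Same.inX {x u : Γ} (h : Same ρ x u) (hu : u ∈ G) : InX ρ G x u := ⟨hu, h.1.ge, h.2.le⟩

theorem InX.of_same {x x' u : Γ} (h : InX ρ G x u) (h' : Same ρ x x') : InX ρ G x' u :=
  ⟨h.1, h'.1 ▸ h.2.1, h'.2 ▸ h.2.2⟩

theorem InX.l {x y u : Γ} (h : Part ρ x y) (hu : InX ρ G x u) :
    nn ρ x * (nn ρ y * nn ρ u) = nn ρ u := by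
  simpa [mul_assoc] using mul_eq_of_range_le (w := 1) (h.l.trans (one_mul _).symm) hu.2.1

theorem InX.r {x y u : Γ} (h : Part ρ x y) (hu : InX ρ G x u) :
    nn ρ u * (nn ρ y * nn ρ x) = nn ρ u := by
  have := mul_eq_zero_of_ker_le (z := 1 - nn ρ y * nn ρ x) (by
    rw [mul_sub, ← mul_assoc, h.l, mul_one, sub_self]) hu.2.2
  rwa [mul_sub, mul_one, sub_eq_zero, eq_comm] at this

theorem PR.weyl {x y v : Γ} (h : PR ρ G x y) (hv : InX ρ G y v) :
    nn ρ (x * y⁻¹ * x * v⁻¹ * (x * y⁻¹ * x)⁻¹) = nn ρ x * nn ρ v * nn ρ x ∧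
      InX ρ G x (x * y⁻¹ * x * v⁻¹ * (x * y⁻¹ * x)⁻¹) := by
  have hy : InX ρ G y y := (Same.refl y).inX h.r.mem
  have e : nn ρ (x * y⁻¹ * x * v⁻¹ * (x * y⁻¹ * x)⁻¹) = nn ρ x * nn ρ v * nn ρ x := by
    have q1 := h.l.quad
    have q2 := hy.mul_eq_zero h.r hv
    have q3 := hv.mul_eq_zero h.r hy
    have q4 := hv.l h.part.symm
    have q5 := hv.r h.part.symm
    rw [nn_conj, nn_inv (hv.mul_eq_zero h.r hv)]
    simp only [mul_inv_rev, inv_inv, map_mul, rho_inv_eq q1, rho_inv_eq h.r.quad]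
    rw [rho_eq ρ x, rho_eq ρ y]
    have a1 : (1 + nn ρ x) * (1 - nn ρ y) * (1 + nn ρ x) * nn ρ v = nn ρ x * nn ρ v := by
      simp only [mul_add, add_mul, mul_sub, sub_mul, mul_assoc, one_mul, mul_one, q2, q4, mul_zero]
      rw [← mul_assoc, q1]; simp
    have a2 : nn ρ v * ((1 - nn ρ x) * ((1 + nn ρ y) * (1 - nn ρ x))) = -(nn ρ v * nn ρ x) := by
      rw [← mul_assoc] at q5
      simp only [mul_add, add_mul, mul_sub, sub_mul, ← mul_assoc, one_mul, mul_one, q3, q5, zero_mul]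
      rw [mul_assoc _ (nn ρ x), q1]; simp; abel
    rw [mul_neg, a1, neg_mul, mul_assoc, a2, mul_neg, neg_neg, mul_assoc]
  have hw := mul_mem (mul_mem h.l.mem (inv_mem h.r.mem)) h.l.mem
  refine ⟨e, mul_mem (mul_mem hw (inv_mem hv.1)) (inv_mem hw), ?_, ?_⟩
  · rw [e, mul_assoc]; exact LinearMap.range_comp_le_range _ _
  · rw [e]; exact LinearMap.ker_le_ker_comp _ _

variable (ρ G) in
/-- All root involutions are central. -/
structure Cen : Prop where
  h5 : 5 ≤ p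
  inj : Function.Injective ρ
  part : ∀ a, Root ρ G a → ∃ y, PR ρ G a y
  cen : ∀ x y, PR ρ G x y → ∀ g ∈ G, Commute (ρ g) (tau ρ x y)

namespace Cen
variable (h : Cen ρ G) {a b c : Γ}
include h

theorem opp_iff (ha : Root ρ G a) (hb : Root ρ G b) :
    Opp ρ a b ↔ nn ρ a * nn ρ b * nn ρ a ≠ 0 := by
  refine not_congr ⟨fun ⟨n, hn⟩ => Root.tau_mul_eq_zero h.h5 n ha hb hn, fun e => ⟨2, ?_⟩⟩
  have q1 : ∀ t, nn ρ a * (nn ρ a * t) = 0 := fun t => by rw [← mul_assoc, ha.quad, zero_mul]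
  have q2 : ∀ t, nn ρ b * (nn ρ b * t) = 0 := fun t => by rw [← mul_assoc, hb.quad, zero_mul]
  have q3 : ∀ t, nn ρ a * (nn ρ b * (nn ρ a * t)) = 0 := fun t => by
    rw [← mul_assoc, ← mul_assoc, e, zero_mul]
  rw [mul_assoc] at e
  simp only [tau, sq, mul_add, add_mul, mul_assoc, q1, q2, q3, e, mul_zero, add_zero]

theorem opp_of_same (ha : Root ρ G a) (hb : Root ρ G b) (hc : Root ρ G c) (h1 : Same ρ a b)
    (h2 : Opp ρ a c) : Opp ρ b c := by
  rw [h.opp_iff ha hc] at h2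
  rw [h.opp_iff hb hc]
  intro e
  refine h2 (h1.symm.mul_left ?_)
  rw [mul_assoc] at e ⊢
  exact h1.symm.mul_right e

theorem comm (ha : Root ρ G a) (hb : Root ρ G b) (hn : ¬ Opp ρ a b) : Commute a b := by
  have key : ∀ {a b}, Root ρ G a → Root ρ G b → ¬ Opp ρ a b →
      nn ρ a * (nn ρ b * nn ρ a) = 0 ∧
        LinearMap.range (nn ρ b * nn ρ a) ≤ LinearMap.range (nn ρ a) := fun {a b} ha hb hn => by
    rw [h.opp_iff ha hb, not_not, mul_assoc] at hn
    obtain ⟨y, hy⟩ := h.part a ha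
    have h1 := ((h.cen a y hy b hb.mem).sub_left (Commute.one_left _)).eq
    have : nn ρ b * nn ρ a = nn ρ a * (nn ρ y * (nn ρ b * nn ρ a)) := by
      nth_rewrite 1 [← hy.tau_l]
      rw [← mul_assoc, nn, h1, ← nn, tau, mul_assoc, add_mul, mul_assoc, mul_assoc, hn, mul_zero,
        add_zero]
    exact ⟨hn, this ▸ LinearMap.range_comp_le_range _ _⟩
  obtain ⟨k1, k2⟩ := key ha hb hn
  obtain ⟨k3, k4⟩ := key hb ha fun e => hn e.symm
  have q1 := ha.quad
  have q2 := hb.quad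
  have q1' : ∀ t, nn ρ a * (nn ρ a * t) = 0 := fun t => by rw [← mul_assoc, q1, zero_mul]
  have q2' : ∀ t, nn ρ b * (nn ρ b * t) = 0 := fun t => by rw [← mul_assoc, q2, zero_mul]
  have e : nn ρ (a * b * a⁻¹ * b⁻¹) = nn ρ a * nn ρ b - nn ρ b * nn ρ a := by
    rw [nn, map_mul, map_mul, map_mul, rho_inv_eq q1, rho_inv_eq q2, rho_eq ρ a, rho_eq ρ b]
    simp only [mul_add, add_mul, mul_sub, sub_mul, mul_assoc, one_mul, mul_one, q1, q2, q1', q2', k1,
      k3, mul_zero, zero_mul]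
    abel
  refine comm_of_nn h.inj (sub_eq_zero.1 ?_)
  by_contra h0
  have hm := mul_mem (mul_mem (mul_mem ha.mem hb.mem) (inv_mem ha.mem)) (inv_mem hb.mem)
  have hq : nn ρ (a * b * a⁻¹ * b⁻¹) * nn ρ (a * b * a⁻¹ * b⁻¹) = 0 := by
    rw [e]
    simp only [mul_sub, sub_mul, mul_assoc, q1', q2', k1, k3, mul_zero, sub_zero]
  have r1 := ha.min _ hm (e ▸ h0) hq
  have r2 := hb.min _ hm (e ▸ h0) hq
  rw [e] at r1 r2
  have hle : ∀ {x y z : Module.End (ZMod p) V}, LinearMap.range x ≤ LinearMap.range z →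
      LinearMap.range y ≤ LinearMap.range z → LinearMap.range (x - y) ≤ LinearMap.range z := by
    rintro x y z h1 h2 _ ⟨v, rfl⟩
    exact sub_mem (h1 ⟨v, rfl⟩) (h2 ⟨v, rfl⟩)
  have r3 := (range_eq_of_rk (hle (LinearMap.range_comp_le_range _ _) k2) r1).symm.trans
    (range_eq_of_rk (hle k4 (LinearMap.range_comp_le_range _ _)) r2)
  have e1 := mul_eq_of_range_le (w := 0) (q1.trans (zero_mul _).symm) r3.ge
  have e2 := mul_eq_of_range_le (w := 0) (q2.trans (zero_mul _).symm) r3.le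
  exact h0 (by rw [e1, e2]; simp)

theorem opp_conj (ha : Root ρ G a) (hb : Root ρ G b) (ho : Opp ρ a b) : Opp ρ (a * b * a⁻¹) b := by
  refine Opp.symm ((h.opp_iff hb (hb.conj ha.mem)).2 fun e => hb.ne ?_)
  obtain ⟨m, he2⟩ := exists_idem (tau ρ b a)
  have q1 := ha.quad
  have q2 := hb.quad
  have q1' : ∀ t, nn ρ a * (nn ρ a * t) = 0 := fun t => by rw [← mul_assoc, q1, zero_mul]
  have q2' : ∀ t, nn ρ b * (nn ρ b * t) = 0 := fun t => by rw [← mul_assoc, q2, zero_mul]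
  have e1 : nn ρ b * tau ρ b a ^ 2 = 0 := by
    rw [nn_conj, rho_inv_eq q1, rho_eq ρ a] at e
    rw [← neg_eq_zero, ← e]
    simp only [tau, sq, mul_add, add_mul, mul_sub, sub_mul, mul_assoc, one_mul, mul_one, q1, q2, q1',
      q2', mul_zero]
    abel
  rw [← hb.mul_idem h.h5 h.inj ha ho.symm rfl he2, ← he2, ← pow_add,
    show m + 1 + (m + 1) = 2 + (m + m) by omega, pow_add, ← mul_assoc, e1, zero_mul]

theorem inX (ha : Root ρ G a) (hb : InX ρ G a b) : b = 1 ∨ (Root ρ G b ∧ Same ρ a b) := by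
  by_cases h0 : nn ρ b = 0
  · exact .inl (h.inj (by rw [rho_eq, h0]; simp))
  · exact .inr (ha.of_le hb.1 h0 hb.2.1 hb.2.2)

theorem exists_conj_part (hb : PR ρ G a b) (hc : PR ρ G a c) :
    ∃ u, InX ρ G a u ∧ u * b * u⁻¹ = c := by
  have h2 : (2 : ZMod p) ≠ 0 := two_ne_zero_of_charP (K := ZMod p) (p := p) (by have := h.h5; omega)
  have h3 : (3 : ZMod p) ≠ 0 := by
    have := h.h5
    exact_mod_cast (ZMod.natCast_eq_zero_iff 3 p).not.2 fun e => by
      have := Nat.le_of_dvd three_pos e; omega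
  have key : ∀ {b c}, PR ρ G a b → PR ρ G a c → tau ρ a b * tau ρ a c = tau ρ a c :=
    fun {b c} hb hc => by
    have h1 := ((h.cen a b hb c hc.r.mem).sub_left (Commute.one_left _)).symm
    rw [tau.eq_1 ρ a c, mul_add, ← mul_assoc, hb.tau_l, nn.eq_1 ρ c, h1.left_comm, hb.tau_l]
  have he : tau ρ a b = tau ρ a c := by
    have k : ∀ g ∈ G, Commute (nn ρ g) (tau ρ a c) := fun g hg =>
      (h.cen a c hc g hg).sub_left (Commute.one_left _)
    have h1 : Commute (tau ρ a b) (tau ρ a c) := ((k a hb.l.mem).mul_left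
      (k b hb.r.mem)).add_left ((k b hb.r.mem).mul_left (k a hb.l.mem))
    rw [← key hc hb, ← h1.eq, key hb hc]
  obtain ⟨ψ, a1, a2⟩ := hb.exists_psi h.inj
  obtain ⟨ψ', a3, a4⟩ := hc.exists_psi h.inj
  obtain ⟨s, hs⟩ : ∃ s : SL(2, ZMod p), s.1 = !![2, 0; 0, 2⁻¹] :=
    ⟨⟨_, by simp [Matrix.det_fin_two, h2]⟩, rfl⟩
  obtain ⟨t, ht⟩ : ∃ s : SL(2, ZMod p), s.1 = !![2⁻¹, 0; 0, 2] :=
    ⟨⟨_, by simp [Matrix.det_fin_two, h2]⟩, rfl⟩
  have q1 := hb.l.quad
  have q2 := hb.r.quad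
  have q3 := hb.part.l
  have q4 := hb.part.r
  have q5 := hc.part.l
  have q6 := hc.part.r
  have q7 := hc.tau_r
  have q8 := hc.r_tau
  have q9 := hc.r.quad
  have hm := mul_mem (hc.closure_le (a3 s)) (hb.closure_le (a1 t))
  have e1 : ρ (ψ' s * ψ t) = 1 - tau ρ a b + Phi ρ a c s * Phi ρ a b t := by
    have := hb.tau_Phi t
    rw [map_mul, a2, a4, he] at *
    simp only [mul_add, add_mul, mul_sub, sub_mul, one_mul, mul_one, hc.tau_tau, hc.Phi_tau, this]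
    abel
  rw [hs, ht] at e1
  rw [← he] at q7 q8
  simp only [Phi_apply, tau] at e1 he q7 q8
  set α := nn ρ a
  set η := nn ρ b
  set η' := nn ρ c
  have q1' : ∀ t, α * (α * t) = 0 := fun t => by rw [← mul_assoc, q1, zero_mul]
  have q3' : ∀ t, α * (η * (α * t)) = α * t := fun t => by rw [← mul_assoc, ← mul_assoc, q3]
  have q5' : ∀ t, α * (η' * (α * t)) = α * t := fun t => by rw [← mul_assoc, ← mul_assoc, q5]
  rw [mul_assoc] at q3 q4 q5 q6
  have e2 : η' * α = η * α - α * (η' * (η * α)) := by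
    have := congrArg (· * (η * α)) he
    simp only [add_mul, mul_assoc, q3, ← mul_assoc η η, q2, zero_mul, mul_zero, zero_add] at this
    exact eq_sub_of_add_eq' this.symm
  have e3 : nn ρ (ψ' s * ψ t) = (3 : ZMod p) • (α * (η' * (η * α))) := by
    rw [nn, e1]
    simp only [Matrix.of_apply, Matrix.cons_val', Matrix.cons_val_zero, Matrix.cons_val_one,
      Matrix.cons_val_fin_one, zero_smul, add_zero, mul_add, add_mul, smul_mul_assoc, mul_smul_comm,
      mul_assoc, q1', q3, q5', mul_zero, smul_zero, smul_smul, smul_add]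
    rw [e2]
    match_scalars <;> field_simp <;> ring
  have q10 : (α * (η' * (η * α))) * (α * (η' * (η * α))) = 0 := by
    simp only [mul_assoc, q1', mul_zero]
  have e4 : ρ ((ψ' s * ψ t) ^ (-3⁻¹ : ZMod p).val) = 1 - α * (η' * (η * α)) := by
    rw [rho_pow (by rw [e3, smul_mul_smul_comm, q10, smul_zero]), e3, smul_smul,
      ZMod.natCast_zmod_val, neg_mul, inv_mul_cancel₀ h3, neg_smul, one_smul, sub_eq_add_neg]
  have e5 : nn ρ ((ψ' s * ψ t) ^ (-3⁻¹ : ZMod p).val) = -(α * (η' * (η * α))) := by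
    rw [nn, e4]; abel
  refine ⟨_, ⟨pow_mem hm (-3⁻¹ : ZMod p).val, ?_, ?_⟩, h.inj ?_⟩
  · rw [e5, LinearMap.range_neg]; exact LinearMap.range_comp_le_range _ _
  · rw [e5, LinearMap.ker_neg, ← mul_assoc, ← mul_assoc]; exact LinearMap.ker_le_ker_comp _ _
  · rw [rho_eq, rho_eq ρ c, nn_conj, rho_inv_eq (by rw [e5, neg_mul_neg, q10]), e4, e5]
    change 1 + (1 - α * (η' * (η * α))) * η * (1 - -(α * (η' * (η * α)))) = 1 + η'
    have e6 : (1 - α * (η' * (η * α))) * η = η' * α * η := by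
      rw [e2]; simp only [sub_mul, mul_assoc, q4, one_mul]
    rw [e6, sub_neg_eq_add]
    have q6' : ∀ t, η' * (α * (η' * t)) = η' * t := fun t => by
      rw [← mul_assoc, ← mul_assoc, mul_assoc η', q6]
    rw [mul_add] at q8
    simp only [mul_add, mul_assoc, mul_one, q3', q6', q8]

end Cen

end Cfsg.Lib.Flav
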