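import Cfsg.Agent.Lib.PGroup.QdSection
import Cfsg.Agent.Lib.Quad.Stab

/-!
# Root elements of quadratic pairs
-/

set_option autoImplicit false
set_option linter.unusedSectionVars false

namespace Cfsg.Lib.Flav
open Subgroup Cfsg.Lib Cfsg.Lib.Quad

theorem exists_idem {R : Type*} [Monoid R] [Finite R] (t : R) :
    ∃ m, t ^ (m + 1) * t ^ (m + 1) = t ^ (m + 1) := by
  have key : ∀ i k : ℕ, 0 < k → t ^ i = t ^ (i + k) →
      ∃ m, t ^ (m + 1) * t ^ (m + 1) = t ^ (m + 1) := fun i k hk h => by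
    have h1 : ∀ j, t ^ (i + j * k) = t ^ i := fun j => by
      induction j with
      | zero => simp
      | succ j ih => rw [add_mul, one_mul, ← add_assoc, pow_add, ih, ← pow_add, ← h]
    obtain ⟨d, hd⟩ : ∃ d, (i + 1) * k = i + d + 1 := ⟨(i + 1) * k - (i + 1), by
      have := Nat.le_mul_of_pos_right (i + 1) hk; omega⟩
    refine ⟨i + d, ?_⟩
    rw [← pow_add, show i + d + 1 + (i + d + 1) = (i + (i + 1) * k) + (d + 1) by omega, pow_add, h1,
      ← pow_add, add_assoc]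
  obtain ⟨i, j, hij, h⟩ := Finite.exists_ne_map_eq_of_infinite fun n : ℕ => t ^ n
  rcases lt_or_gt_of_ne hij with h1 | h1
  · exact key i (j - i) (by omega) (by rw [show i + (j - i) = j by omega]; exact h)
  · exact key j (i - j) (by omega) (by rw [show j + (i - j) = i by omega]; exact h.symm)

theorem exists_comm_of_dvd {Γ : Type*} [Group Γ] [Finite Γ] {p : ℕ} [hp : Fact p.Prime]
    {N : Subgroup Γ} {a : Γ} (ha : a ^ p = 1) (haN : a ∈ normalizer (N : Set Γ))
    (hd : p ∣ Nat.card N) : ∃ u ∈ N, u ≠ 1 ∧ u ^ p = 1 ∧ Commute u a := by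
  have h1 : IsPGroup p (zpowers a) := ea_isPGroup (ea_zpowers ha)
  obtain ⟨P, hP, haP⟩ := exists_isSylowIn_ge h1 (le_sup_right : zpowers a ≤ N ⊔ zpowers a)
  have hn : N ⊔ zpowers a ≤ normalizer (N : Set Γ) := sup_le le_normalizer (zpowers_le.2 haN)
  have h2 := hP.inf_of_le_normalizer le_sup_left hn
  obtain ⟨u, hu, hup, hc⟩ := pg_exists_fixed_of_order_p h2.isPGroup h1
    (pg_le_normalizer_inf (haP.trans le_normalizer) (zpowers_le.2 haN)) (h2.ne_bot hd)
  refine ⟨u, hu.2, fun e => ?_, hup ▸ pow_orderOf_eq_one u,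
    (mem_centralizer_iff.1 hc a (mem_zpowers a)).symm⟩
  rw [e, orderOf_one] at hup
  exact hp.out.one_lt.ne hup

variable {p : ℕ} [hp : Fact p.Prime] {V : Type*} [AddCommGroup V] [Module (ZMod p) V] [Finite V]
  {Γ : Type*} [Group Γ] [Finite Γ]

instance finite_end : Finite (Module.End (ZMod p) V) :=
  Finite.of_injective (fun f : Module.End (ZMod p) V => (f : V → V)) DFunLike.coe_injective

theorem isUnit_two (h5 : 5 ≤ p) : IsUnit (2 : Module.End (ZMod p) V) := by
  have h : (2 : ZMod p) ≠ 0 := two_ne_zero_of_charP (K := ZMod p) (p := p) (by omega)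
  have := (IsUnit.mk0 _ h).map (algebraMap (ZMod p) (Module.End (ZMod p) V))
  rwa [map_ofNat] at this

/-- The rank. -/
noncomputable def rk (x : Module.End (ZMod p) V) : ℕ :=
  Module.finrank (ZMod p) (LinearMap.range x)

theorem rk_le_of_range_le {x y : Module.End (ZMod p) V}
    (h : LinearMap.range x ≤ LinearMap.range y) : rk x ≤ rk y := Submodule.finrank_mono h

theorem rk_mul_le_left (x y : Module.End (ZMod p) V) : rk (x * y) ≤ rk x :=
  rk_le_of_range_le (LinearMap.range_comp_le_range _ _)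

theorem rk_mul_le_right (x y : Module.End (ZMod p) V) : rk (x * y) ≤ rk y := by
  rw [rk, Module.End.mul_eq_comp, LinearMap.range_comp]
  exact Submodule.finrank_map_le _ _

theorem range_eq_of_rk {x y : Module.End (ZMod p) V}
    (h : LinearMap.range x ≤ LinearMap.range y) (h' : rk y ≤ rk x) :
    LinearMap.range x = LinearMap.range y := Submodule.eq_of_le_of_finrank_le h h'

theorem ker_eq_of_rk {x y : Module.End (ZMod p) V}
    (h : LinearMap.ker y ≤ LinearMap.ker x) (h' : rk y ≤ rk x) :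
    LinearMap.ker y = LinearMap.ker x := by
  refine Submodule.eq_of_le_of_finrank_le h ?_
  have h1 := x.finrank_range_add_finrank_ker
  have h2 := y.finrank_range_add_finrank_ker
  unfold rk at h'
  omega

theorem mul_eq_of_range_le {x y z w : Module.End (ZMod p) V} (h : z * x = w * x)
    (h' : LinearMap.range y ≤ LinearMap.range x) : z * y = w * y := by
  ext v
  obtain ⟨u, hu⟩ := h' ⟨v, rfl⟩
  have := LinearMap.congr_fun h u
  simpa [hu] using this

theorem mul_eq_zero_of_ker_le {x y z : Module.End (ZMod p) V} (h : x * z = 0)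
    (h' : LinearMap.ker x ≤ LinearMap.ker y) : y * z = 0 := by
  ext v
  exact h' (LinearMap.congr_fun h v)

variable (ρ : Γ →* Module.End (ZMod p) V)

/-- The nilpotent part. -/
def nn (a : Γ) : Module.End (ZMod p) V := ρ a - 1

/-- The anticommutator of the nilpotent parts. -/
def tau (a b : Γ) : Module.End (ZMod p) V := nn ρ a * nn ρ b + nn ρ b * nn ρ a

theorem rho_eq (a : Γ) : ρ a = 1 + nn ρ a := by simp [nn]

theorem tau_comm (a b : Γ) : tau ρ a b = tau ρ b a := add_comm _ _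

theorem nn_conj (g a : Γ) : nn ρ (g * a * g⁻¹) = ρ g * nn ρ a * ρ g⁻¹ := by
  simp only [nn, map_mul, mul_sub, sub_mul, mul_one]
  rw [← map_mul ρ g g⁻¹, mul_inv_cancel, map_one]

theorem rho_mul_inv (g : Γ) : ρ g * ρ g⁻¹ = 1 := by rw [← map_mul, mul_inv_cancel, map_one]

theorem rho_inv_mul (g : Γ) : ρ g⁻¹ * ρ g = 1 := by rw [← map_mul, inv_mul_cancel, map_one]

theorem isUnit_rho (g : Γ) : IsUnit (ρ g) := (Group.isUnit g).map ρ

variable {ρ}

theorem rho_inv_eq {a : Γ} (ha : nn ρ a * nn ρ a = 0) : ρ a⁻¹ = 1 - nn ρ a :=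
  rep_inv_of_quadratic ρ ha

theorem nn_inv {a : Γ} (ha : nn ρ a * nn ρ a = 0) : nn ρ a⁻¹ = -nn ρ a := by
  rw [nn, rho_inv_eq ha]; simp

theorem rho_pow {a : Γ} (ha : nn ρ a * nn ρ a = 0) (k : ℕ) :
    ρ (a ^ k) = 1 + (k : ZMod p) • nn ρ a := by
  induction k with
  | zero => simp
  | succ k ih =>
    rw [pow_succ, map_mul, ih, rho_eq ρ a]
    simp only [mul_add, add_mul, one_mul, mul_one, smul_mul_assoc, ha]
    push_cast
    module

theorem commute_tau_left {a : Γ} (ha : nn ρ a * nn ρ a = 0) (b : Γ) :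
    Commute (nn ρ a) (tau ρ a b) := by
  simp only [Commute, SemiconjBy, tau, mul_add, add_mul, ← mul_assoc, ha, zero_mul, zero_add]
  rw [mul_assoc _ (nn ρ a) (nn ρ a), ha, mul_zero, add_zero]

theorem commute_tau_right (a : Γ) {b : Γ} (hb : nn ρ b * nn ρ b = 0) :
    Commute (nn ρ b) (tau ρ a b) := tau_comm ρ a b ▸ commute_tau_left hb a

theorem tau_mul_left {a : Γ} (ha : nn ρ a * nn ρ a = 0) (b : Γ) :
    tau ρ a b * nn ρ a = nn ρ a * nn ρ b * nn ρ a := by
  rw [tau, add_mul, mul_assoc (nn ρ b), ha, mul_zero, add_zero]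

theorem commute_rho {a b : Γ} {r : Module.End (ZMod p) V} (h1 : Commute (nn ρ a) r)
    (h2 : Commute (nn ρ b) r) {g : Γ} (hg : g ∈ closure ({a, b} : Set Γ)) : Commute (ρ g) r := by
  have hg' : g ∈ Submonoid.closure ({a, b} : Set Γ) := by
    rw [← closure_toSubmonoid_of_finite]; exact hg
  induction hg' using Submonoid.closure_induction_right with
  | one => simp
  | mul_right x hx y hy ih =>
    have hx' : x ∈ closure ({a, b} : Set Γ) := by
      rw [← closure_toSubmonoid_of_finite] at hx; exact hx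
    rw [map_mul]
    refine (ih hx').mul_left ?_
    rcases hy with rfl | rfl <;> rw [rho_eq] <;> exact (Commute.one_left r).add_left ‹_›

theorem form {a b : Γ} (ha : nn ρ a * nn ρ a = 0) (hb : nn ρ b * nn ρ b = 0) {g : Γ}
    (hg : g ∈ closure ({a, b} : Set Γ)) : ∃ r₀ r₁ r₂ r₃ : Module.End (ZMod p) V,
    (Commute (nn ρ a) r₀ ∧ Commute (nn ρ a) r₁ ∧ Commute (nn ρ a) r₂ ∧ Commute (nn ρ a) r₃) ∧
    (Commute (nn ρ b) r₀ ∧ Commute (nn ρ b) r₁ ∧ Commute (nn ρ b) r₂ ∧ Commute (nn ρ b) r₃) ∧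
    ρ g = 1 + r₀ * tau ρ a b + r₁ * nn ρ a + r₂ * nn ρ b + r₃ * (nn ρ a * nn ρ b) ∧
    ρ g⁻¹ = 1 + r₀ * tau ρ a b - r₁ * nn ρ a - r₂ * nn ρ b + r₃ * (nn ρ b * nn ρ a) := by
  have hg' : g ∈ Submonoid.closure ({a, b} : Set Γ) := by
    rw [← closure_toSubmonoid_of_finite]; exact hg
  clear hg
  have ta := commute_tau_left ha b
  have tb := commute_tau_right a hb
  have ha' : ∀ x, nn ρ a * (nn ρ a * x) = 0 := fun x => by rw [← mul_assoc, ha, zero_mul]
  have hb' : ∀ x, nn ρ b * (nn ρ b * x) = 0 := fun x => by rw [← mul_assoc, hb, zero_mul]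
  induction hg' using Submonoid.closure_induction_right with
  | one => exact ⟨0, 0, 0, 0, by simp, by simp, by simp, by simp⟩
  | mul_right x hx y hy ih =>
    obtain ⟨r₀, r₁, r₂, r₃, ⟨a0, a1, a2, a3⟩, ⟨b0, b1, b2, b3⟩, e1, e2⟩ := ih
    rcases hy with rfl | rfl
    · refine ⟨r₀ + r₂, 1 + r₀ * tau ρ y b + r₁ + r₃ * tau ρ y b, r₂, r₃ - r₂,
        ⟨a0.add_right a2, (((Commute.one_right _).add_right (a0.mul_right ta)).add_right
          a1).add_right (a3.mul_right ta), a2, a3.sub_right a2⟩,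
        ⟨b0.add_right b2, (((Commute.one_right _).add_right (b0.mul_right tb)).add_right
          b1).add_right (b3.mul_right tb), b2, b3.sub_right b2⟩, ?_, ?_⟩
      · rw [map_mul, e1, rho_eq ρ y]
        simp only [tau, mul_add, add_mul, sub_mul, mul_assoc, ha, ha', one_mul, mul_one, mul_zero]
        abel
      · rw [mul_inv_rev, map_mul, e2, rho_inv_eq ha]
        simp only [tau, mul_add, add_mul, sub_mul, mul_sub, mul_assoc, ha, ha', one_mul, mul_one,
          mul_zero, a0.left_comm, a1.left_comm, a2.left_comm, a3.left_comm]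
        abel
    · refine ⟨r₀, r₁, 1 + r₀ * tau ρ a y + r₂, r₁ + r₃,
        ⟨a0, a1, ((Commute.one_right _).add_right (a0.mul_right ta)).add_right a2, a1.add_right a3⟩,
        ⟨b0, b1, ((Commute.one_right _).add_right (b0.mul_right tb)).add_right b2, b1.add_right b3⟩,
        ?_, ?_⟩
      · rw [map_mul, e1, rho_eq ρ y]
        simp only [tau, mul_add, add_mul, sub_mul, mul_assoc, hb, hb', one_mul, mul_one, mul_zero]
        abel
      · rw [mul_inv_rev, map_mul, e2, rho_inv_eq hb]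
        simp only [tau, mul_add, add_mul, sub_mul, mul_sub, mul_assoc, hb, hb', one_mul, mul_one,
          mul_zero, b0.left_comm, b1.left_comm, b2.left_comm, b3.left_comm]
        abel

theorem nn_pow_pow (g : Γ) (k : ℕ) : nn ρ (g ^ p ^ k) = nn ρ g ^ p ^ k := by
  rcases subsingleton_or_nontrivial (Module.End (ZMod p) V) with h | h
  · exact Subsingleton.elim _ _
  have : CharP (Module.End (ZMod p) V) p :=
    charP_of_injective_algebraMap (algebraMap (ZMod p) _).injective p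
  rw [nn, nn, sub_pow_char_pow_of_commute _ _ (Commute.one_right _), one_pow, map_pow]

theorem nn_sq {a b : Γ} (ha : nn ρ a * nn ρ a = 0) (hb : nn ρ b * nn ρ b = 0) {g : Γ}
    (hg : g ∈ closure ({a, b} : Set Γ)) : ∃ r, Commute r (tau ρ a b) ∧
      nn ρ g ^ 2 = r * tau ρ a b := by
  obtain ⟨r₀, r₁, r₂, r₃, ⟨a0, -, -, a3⟩, ⟨b0, -, -, b3⟩, e1, e2⟩ := form ha hb hg
  have h1 : ∀ r, Commute (nn ρ a) r → Commute (nn ρ b) r → Commute r (tau ρ a b) :=
    fun r h1 h2 => ((h1.mul_left h2).add_left (h2.mul_left h1)).symm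
  refine ⟨ρ g * (r₀ + r₀ + r₃), (commute_rho (commute_tau_left ha b) (commute_tau_right a hb)
    hg).mul_left (((h1 _ a0 b0).add_left (h1 _ a0 b0)).add_left (h1 _ a3 b3)), ?_⟩
  have h2 : ρ g + ρ g⁻¹ - 2 = (r₀ + r₀ + r₃) * tau ρ a b := by
    rw [e1, e2]
    simp only [tau, mul_add, add_mul, ← one_add_one_eq_two]
    abel
  rw [mul_assoc, ← h2, nn, mul_sub, mul_add, rho_mul_inv]
  noncomm_ring

theorem core (h5 : 5 ≤ p) {a b : Γ} (ha : nn ρ a * nn ρ a = 0) (hb : nn ρ b * nn ρ b = 0) {m : ℕ}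
    {e : Module.End (ZMod p) V} (he : e = tau ρ a b ^ (m + 1)) (he2 : e * e = e) {u : Γ}
    (hu : u ∈ closure ({a, b} : Set Γ)) (hue : nn ρ u * e = nn ρ u) (hup : u ^ p = 1)
    (hc : Commute u a) : nn ρ u * nn ρ u = 0 ∧
      ∃ r, Commute (nn ρ a) r ∧ nn ρ u = r * (nn ρ a * e) := by
  obtain ⟨r₀, r₁, r₂, r₃, ⟨-, a1, a2, a3⟩, ⟨-, -, b2, b3⟩, e1, e2⟩ := form ha hb hu
  have ta := commute_tau_left ha b
  have tb := commute_tau_right a hb
  have h2 := isUnit_two (V := V) h5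
  set α := nn ρ a with hα
  set β := nn ρ b with hβ
  set τ := tau ρ a b with hτ
  have ha' : ∀ x, α * (α * x) = 0 := fun x => by rw [← mul_assoc, ha, zero_mul]
  have ea : Commute α e := he ▸ ta.pow_right _
  have eb : Commute β e := he ▸ tb.pow_right _
  have hd : ρ u - ρ u⁻¹ = 2 * (r₁ * α) + 2 * (r₂ * β) + r₃ * (α * β - β * α) := by
    rw [e1, e2]; noncomm_ring
  have hca : Commute α (ρ u - ρ u⁻¹) := by
    have h1 : ∀ {v}, Commute v a → Commute α (ρ v) := fun h =>
      ((h.map ρ).sub_right (Commute.one_right _)).symm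
    exact (h1 hc).sub_right (h1 hc.inv_left)
  have hτα : τ * α = α * (β * α) := by rw [hτ, tau_mul_left ha, mul_assoc]
  have h3 : r₂ * (α * β - β * α) = r₃ * (τ * α) := by
    refine h2.mul_left_cancel (sub_eq_zero.1 ?_)
    have := sub_eq_zero.2 hca.eq
    rw [hd] at this
    rw [← this, hτα]
    simp only [two_mul, mul_add, add_mul, mul_sub, sub_mul, mul_assoc, a1.left_comm, a2.left_comm,
      a3.left_comm, ha, ha', mul_zero]
    abel
  have hcan : ∀ x, x * (τ * e) = 0 → x * e = 0 := fun x h => by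
    have : e = τ * e * τ ^ m := by
      have h1 : Commute e (τ ^ m) := he ▸ (Commute.refl τ).pow_pow _ _
      rw [mul_assoc, h1.eq, ← mul_assoc, ← pow_succ', ← he, he2]
    rw [this, ← mul_assoc, h, zero_mul]
  have hk : ∀ r, Commute α r → Commute β r → r * (τ * α) * e = 0 → r * e = 0 := fun r h1 h2 h => by
    have h4 : r * α * e = 0 := hcan _ (by rw [← h, ← ta.eq]; simp only [mul_assoc])
    refine hcan _ ?_
    have h5 : τ = α * β + β * α := rfl
    rw [h5, add_mul, mul_add, mul_assoc α, eb.eq, mul_assoc β, ← h2.left_comm, ← mul_assoc r α e,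
      h4, ← mul_assoc, ← mul_assoc, h4]
    simp
  have h4 := hk r₂ a2 b2 (by
    have := congrArg (α * ·) h3
    simp only [hτα, mul_sub, a2.left_comm, a3.left_comm, ha', mul_zero, zero_sub,
      neg_eq_zero] at this
    rw [hτα, this, zero_mul])
  have hκ : Commute (α * β - β * α) e := (ea.mul_left eb).sub_left (eb.mul_left ea)
  have h6 := hk r₃ a3 b3 (by rw [← h3, mul_assoc, hκ.eq, ← mul_assoc, h4, zero_mul])
  have hue' : nn ρ u⁻¹ * e = nn ρ u⁻¹ := by
    have : nn ρ u⁻¹ = -ρ u⁻¹ * nn ρ u := by rw [nn, nn, mul_sub, neg_mul, rho_inv_mul]; simp; abel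
    rw [this, mul_assoc, hue]
  have h7 : ρ u - ρ u⁻¹ = 2 * (r₁ * (α * e)) := by
    have : (ρ u - ρ u⁻¹) * e = ρ u - ρ u⁻¹ := by
      rw [rho_eq ρ u, rho_eq ρ u⁻¹, add_sub_add_left_eq_sub, sub_mul, hue, hue']
    rw [← this, hd, add_mul, add_mul, mul_assoc r₃, hκ.eq, ← mul_assoc r₃, h6, mul_assoc 2 (r₂ * β),
      mul_assoc r₂, eb.eq, ← mul_assoc r₂, h4]
    simp [mul_assoc]
  have h8 : (ρ u - ρ u⁻¹) * (ρ u - ρ u⁻¹) = 0 := by
    rw [h7]
    simp only [two_mul, mul_add, add_mul, mul_assoc, ea.left_comm, a1.left_comm, ha', mul_zero,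
      add_zero]
  have hn : IsNilpotent (nn ρ u) := ⟨p ^ 1, by rw [← nn_pow_pow, pow_one, hup]; simp [nn]⟩
  have h9 : IsUnit (2 + nn ρ u) := hn.isUnit_add_left_of_commute h2 (Commute.ofNat_right _ 2)
  have h10 : ρ u - ρ u⁻¹ = ρ u⁻¹ * (nn ρ u * (2 + nn ρ u)) := by
    have : nn ρ u * (2 + nn ρ u) = ρ u * ρ u - 1 := by rw [nn]; noncomm_ring
    rw [this, mul_sub, ← mul_assoc, rho_inv_mul, one_mul, mul_one]
  have h11 : nn ρ u * nn ρ u = 0 := by
    have c1 : Commute (nn ρ u) (ρ u⁻¹) := ((Commute.refl u).inv_right.map ρ).sub_left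
      (Commute.one_left _)
    have c2 : Commute (nn ρ u) (2 + nn ρ u) := (Commute.ofNat_right _ 2).add_right (Commute.refl _)
    rw [h10, mul_assoc, (isUnit_rho ρ _).mul_right_eq_zero, ← mul_assoc, ← mul_assoc,
      h9.mul_left_eq_zero, c2.eq, mul_assoc, mul_assoc, h9.mul_right_eq_zero, c1.left_comm,
      (isUnit_rho ρ _).mul_right_eq_zero] at h8
    exact h8
  refine ⟨h11, r₁, a1, h2.mul_left_cancel ?_⟩
  rw [← h7, rho_inv_eq h11, rho_eq ρ u]
  noncomm_ring

theorem pow_eq_one_of_nil (hρ : Function.Injective ρ) {g : Γ} (h : IsNilpotent (nn ρ g)) :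
    ∃ k, g ^ p ^ k = 1 := by
  obtain ⟨k, hk⟩ := pow_eq_one_of_isNilpotent (p := p) h
  exact ⟨k, hρ (by rw [map_pow, hk, map_one])⟩

theorem isPGroup_of_nil (hρ : Function.Injective ρ) {a b : Γ} (ha : nn ρ a * nn ρ a = 0)
    (hb : nn ρ b * nn ρ b = 0) (h : IsNilpotent (tau ρ a b)) :
    IsPGroup p (closure ({a, b} : Set Γ)) := fun g => by
  obtain ⟨r, h1, h2⟩ := nn_sq ha hb g.2
  obtain ⟨k, hk⟩ := pow_eq_one_of_nil hρ (IsNilpotent.of_pow (h2 ▸ h1.isNilpotent_mul_left h))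
  exact ⟨k, Subtype.ext hk⟩

theorem nil_of_isPGroup {a b : Γ} (ha : nn ρ a * nn ρ a = 0)
    (hb : nn ρ b * nn ρ b = 0) (h : IsPGroup p (closure ({a, b} : Set Γ))) :
    IsNilpotent (tau ρ a b) := by
  have hm : a * b ∈ closure ({a, b} : Set Γ) :=
    mul_mem (subset_closure (by simp)) (subset_closure (by simp))
  obtain ⟨k, hk⟩ := h ⟨_, hm⟩
  have h1 : IsNilpotent (nn ρ (a * b)) :=
    ⟨p ^ k, by rw [← nn_pow_pow, show (a * b) ^ p ^ k = 1 from congrArg Subtype.val hk]; simp [nn]⟩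
  have h2 : tau ρ a b = nn ρ (a * b) ^ 2 * ρ (a * b)⁻¹ := by
    have ha' : ∀ x, nn ρ a * (nn ρ a * x) = 0 := fun x => by rw [← mul_assoc, ha, zero_mul]
    have hb' : ∀ x, nn ρ b * (nn ρ b * x) = 0 := fun x => by rw [← mul_assoc, hb, zero_mul]
    refine (isUnit_rho ρ (a * b)).mul_right_cancel ?_
    rw [mul_assoc, rho_inv_mul, mul_one, nn, map_mul, rho_eq ρ a, rho_eq ρ b]
    simp only [tau, sq, mul_add, add_mul, mul_sub, sub_mul, mul_assoc, ha, hb, ha', hb', one_mul,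
      mul_one, mul_zero]
    abel
  rw [h2]
  exact (((Commute.refl (a * b)).inv_right.map ρ).sub_left (Commute.one_left _)).pow_left 2
    |>.isNilpotent_mul_right (h1.pow_of_pos two_ne_zero)

theorem isPGroup_of_normal (h5 : 5 ≤ p) (hρ : Function.Injective ρ) {a b : Γ}
    (ha : nn ρ a * nn ρ a = 0) (hb : nn ρ b * nn ρ b = 0) {N : Subgroup Γ}
    (hn : closure ({a, b} : Set Γ) ≤ normalizer (N : Set Γ)) (hN : ¬ p ∣ Nat.card N)
    (h : ∀ g ∈ closure ({a, b} : Set Γ), ∃ k, g ^ p ^ k ∈ N) :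
    IsPGroup p (closure ({a, b} : Set Γ)) := by
  set L := closure ({a, b} : Set Γ) with hL
  have h1 : a ∈ L := subset_closure (by simp)
  have h2 : b ∈ L := subset_closure (by simp)
  have : (N.subgroupOf L).Normal := normal_subgroupOf_of_le_normalizer hn
  have hs : IsPSolvable p L := by
    refine ⟨2, ![⊥, N.subgroupOf L, ⊤], rfl, rfl, ?_, ?_, ?_⟩
    · refine Fin.monotone_iff_le_succ.mpr fun i => ?_
      fin_cases i
      exacts [bot_le, le_top]
    · intro i
      fin_cases i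
      exacts [(inferInstance : (⊥ : Subgroup L).Normal), this,
        (inferInstance : (⊤ : Subgroup L).Normal)]
    · intro i
      fin_cases i
      · refine .inr ?_
        change ((⊥ : Subgroup L).relIndex (N.subgroupOf L)).Coprime p
        rw [relIndex_bot_left]
        exact ((hp.out.coprime_iff_not_dvd.2 hN).symm).coprime_dvd_left
          (card_comap_dvd_of_injective _ _ L.subtype_injective)
      · refine .inl ?_
        change ∃ m, (N.subgroupOf L).relIndex ⊤ = _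
        rw [relIndex_top_right]
        refine IsPGroup.iff_card.1 fun q => ?_
        obtain ⟨g, rfl⟩ := QuotientGroup.mk_surjective q
        obtain ⟨k, hk⟩ := h g g.2
        exact ⟨k, (QuotientGroup.eq_one_iff _).2 hk⟩
  have key : ∀ c : L, nn ρ c * nn ρ c = 0 → c ∈ pCore p L := fun c hc => by
    by_contra hc'
    have := (three_of_quadratic_of_not_mem_pCore (ρ.comp L.subtype) (by omega)
      (hρ.comp L.subtype_injective) hs hc hc').1
    omega
  have h3 : pCore p L = ⊤ := by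
    rw [eq_top_iff, ← closure_pair_subtype_eq_top h1 h2 hL, closure_le]
    rintro _ (rfl | rfl)
    exacts [key _ ha, key _ hb]
  exact (h3 ▸ isPGroup_pCore (p := p) (G := L)).of_equiv topEquiv

variable (ρ) (G : Subgroup Γ)

/-- Quadratic elements of minimal rank. -/
structure Root (a : Γ) : Prop where
  mem : a ∈ G
  ne : nn ρ a ≠ 0
  quad : nn ρ a * nn ρ a = 0
  min : ∀ b ∈ G, nn ρ b ≠ 0 → nn ρ b * nn ρ b = 0 → rk (nn ρ a) ≤ rk (nn ρ b)

/-- The same root subgroup. -/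
def Same (a b : Γ) : Prop := LinearMap.range (nn ρ a) = LinearMap.range (nn ρ b) ∧
  LinearMap.ker (nn ρ a) = LinearMap.ker (nn ρ b)

variable {ρ G}

theorem Same.refl (a : Γ) : Same ρ a a := ⟨rfl, rfl⟩

theorem Same.symm {a b : Γ} (h : Same ρ a b) : Same ρ b a := ⟨h.1.symm, h.2.symm⟩

theorem Same.trans {a b c : Γ} (h : Same ρ a b) (h' : Same ρ b c) : Same ρ a c :=
  ⟨h.1.trans h'.1, h.2.trans h'.2⟩

theorem Same.mul_left {a b : Γ} (h : Same ρ a b) {x : Module.End (ZMod p) V}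
    (hx : x * nn ρ a = 0) : x * nn ρ b = 0 := by
  simpa using mul_eq_of_range_le (w := 0) (by simpa using hx) h.1.ge

theorem Same.mul_right {a b : Γ} (h : Same ρ a b) {x : Module.End (ZMod p) V}
    (hx : nn ρ a * x = 0) : nn ρ b * x = 0 := mul_eq_zero_of_ker_le hx h.2.le

theorem Root.of_le {a u : Γ} (ha : Root ρ G a) (hu : u ∈ G) (h0 : nn ρ u ≠ 0)
    (h1 : LinearMap.range (nn ρ u) ≤ LinearMap.range (nn ρ a))
    (h2 : LinearMap.ker (nn ρ a) ≤ LinearMap.ker (nn ρ u)) : Root ρ G u ∧ Same ρ a u := by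
  have h3 : nn ρ u * nn ρ u = 0 := by
    simpa using mul_eq_of_range_le (w := 0) (by simpa using mul_eq_zero_of_ker_le ha.quad h2) h1
  have h4 := ha.min u hu h0 h3
  exact ⟨⟨hu, h0, h3, fun b h5 h6 h7 => (rk_le_of_range_le h1).trans (ha.min b h5 h6 h7)⟩,
    (range_eq_of_rk h1 h4).symm, ker_eq_of_rk h2 h4⟩

theorem Root.pow_eq_one (hρ : Function.Injective ρ) {a : Γ} (ha : Root ρ G a) : a ^ p = 1 :=
  pow_eq_one_of_quadratic_rep ρ hρ ha.quad

theorem Root.rk_eq {a b : Γ} (ha : Root ρ G a) (hb : Root ρ G b) : rk (nn ρ a) = rk (nn ρ b) :=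
  le_antisymm (ha.min b hb.mem hb.ne hb.quad) (hb.min a ha.mem ha.ne ha.quad)

theorem rk_conj (g a : Γ) : rk (nn ρ (g * a * g⁻¹)) = rk (nn ρ a) := by
  have key : ∀ g a : Γ, rk (nn ρ (g * a * g⁻¹)) ≤ rk (nn ρ a) := fun g a => by
    rw [nn_conj]; exact (rk_mul_le_left _ _).trans (rk_mul_le_right _ _)
  refine le_antisymm (key g a) ?_
  simpa [mul_assoc] using key g⁻¹ (g * a * g⁻¹)

theorem nn_conj_ne {a : Γ} (h : nn ρ a ≠ 0) (g : Γ) : nn ρ (g * a * g⁻¹) ≠ 0 := by
  rwa [nn_conj, Ne, (isUnit_rho ρ _).mul_left_eq_zero, (isUnit_rho ρ _).mul_right_eq_zero]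

theorem Root.conj' {a : Γ} (ha : Root ρ G a) {g : Γ} (hg : g * a * g⁻¹ ∈ G) :
    Root ρ G (g * a * g⁻¹) :=
  ⟨hg, nn_conj_ne ha.ne g, quadratic_rep_conj ρ ha.quad g, by rw [rk_conj]; exact ha.min⟩

theorem Root.conj {a : Γ} (ha : Root ρ G a) {g : Γ} (hg : g ∈ G) : Root ρ G (g * a * g⁻¹) :=
  ha.conj' (mul_mem (mul_mem hg ha.mem) (inv_mem hg))

theorem Root.inv {a : Γ} (ha : Root ρ G a) : Root ρ G a⁻¹ ∧ Same ρ a a⁻¹ :=
  ha.of_le (inv_mem ha.mem) (by rw [nn_inv ha.quad]; exact neg_ne_zero.2 ha.ne)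
    (by rw [nn_inv ha.quad, LinearMap.range_neg]) (by rw [nn_inv ha.quad, LinearMap.ker_neg])

theorem Root.mul_idem (h5 : 5 ≤ p) (hρ : Function.Injective ρ) {a b : Γ} (ha : Root ρ G a)
    (hb : Root ρ G b) (hn : ¬ IsNilpotent (tau ρ a b)) {m : ℕ} {e : Module.End (ZMod p) V}
    (he : e = tau ρ a b ^ (m + 1)) (he2 : e * e = e) : nn ρ a * e = nn ρ a := by
  set L := closure ({a, b} : Set Γ) with hL
  have hLG : L ≤ G := (closure_le _).2 (by rintro _ (rfl | rfl); exacts [ha.mem, hb.mem])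
  have ta := commute_tau_left ha.quad b
  have tb := commute_tau_right a hb.quad
  have ea : Commute (nn ρ a) e := he ▸ ta.pow_right _
  have eL : ∀ g ∈ L, Commute (ρ g) e := fun g hg => commute_rho ea (he ▸ tb.pow_right _) hg
  let N : Subgroup Γ :=
    { carrier := {g | g ∈ L ∧ nn ρ g * e = nn ρ g}
      one_mem' := ⟨one_mem _, by simp [nn]⟩
      mul_mem' := fun {x y} hx hy => ⟨mul_mem hx.1 hy.1, by
        have : nn ρ (x * y) = nn ρ x + ρ x * nn ρ y := by simp [nn, mul_sub]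
        rw [this, add_mul, mul_assoc, hx.2, hy.2]⟩
      inv_mem' := fun {x} hx => ⟨inv_mem hx.1, by
        have : nn ρ x⁻¹ = -ρ x⁻¹ * nn ρ x := by
          rw [nn, nn, mul_sub, neg_mul, rho_inv_mul]; simp; abel
        rw [this, mul_assoc, hx.2]⟩ }
  have hN : L ≤ normalizer (N : Set Γ) := fun g hg => mem_normalizer_fintype fun x hx =>
    ⟨mul_mem (mul_mem hg hx.1) (inv_mem hg), by
      rw [nn_conj, mul_assoc, (eL _ (inv_mem hg)).eq, ← mul_assoc, mul_assoc _ _ e, hx.2]⟩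
  have hd : p ∣ Nat.card N := by
    by_contra hd
    refine hn (nil_of_isPGroup ha.quad hb.quad (isPGroup_of_normal h5 hρ ha.quad hb.quad hN hd
      fun g hg => ⟨2 * (m + 1), pow_mem hg _, ?_⟩))
    obtain ⟨r, h1, h2⟩ := nn_sq ha.quad hb.quad hg
    obtain ⟨d, hd⟩ := Nat.exists_eq_add_of_le (Nat.lt_pow_self hp.out.one_lt (n := 2 * (m + 1))).le
    rw [nn_pow_pow, hd, add_comm, pow_add, pow_mul, h2, h1.mul_pow, ← he, mul_assoc, mul_assoc, he2]
  obtain ⟨u, hu, hu1, hup, hc⟩ := exists_comm_of_dvd (ha.pow_eq_one hρ)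
    (hN (subset_closure (by simp))) hd
  obtain ⟨h1, r, h2, h3⟩ := core h5 ha.quad hb.quad he he2 hu.1 hu.2 hup hc
  have h4 := ha.min u (hLG hu.1) (fun h => hu1 (hρ (by rw [rho_eq, h]; simp))) h1
  rw [h3] at h4
  have h6 := range_eq_of_rk (LinearMap.range_comp_le_range e (nn ρ a))
    (h4.trans (rk_mul_le_right _ _))
  have h7 := mul_eq_of_range_le (z := e) (w := 1) (x := nn ρ a * e)
    (by rw [← ea.left_comm, he2, one_mul]) h6.ge
  rw [ea.eq, h7, one_mul]

theorem Root.tau_mul_eq_zero (h5 : 5 ≤ p) (n : ℕ) : ∀ {a b : Γ}, Root ρ G a → Root ρ G b →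
    tau ρ a b ^ n = 0 → nn ρ a * nn ρ b * nn ρ a = 0 := by
  induction n using Nat.strong_induction_on with
  | _ n ih =>
  intro a b ha hb hn
  rcases le_or_gt n 1 with h | h
  · have : tau ρ a b = 0 := by
      interval_cases n
      · exact absurd (eq_zero_of_zero_eq_one (by simpa using hn.symm) _) ha.ne
      · simpa using hn
    rw [← tau_mul_left ha.quad, this, zero_mul]
  have key : ∀ {a b : Γ}, Root ρ G a → Root ρ G b → tau ρ a b ^ n = 0 →
      nn ρ a * (nn ρ b * (nn ρ a * (nn ρ b * nn ρ a))) = 0 := fun {a b} ha hb hn => by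
    have ha' : ∀ x, nn ρ a * (nn ρ a * x) = 0 := fun x => by rw [← mul_assoc, ha.quad, zero_mul]
    have hb' : ∀ x, nn ρ b * (nn ρ b * x) = 0 := fun x => by rw [← mul_assoc, hb.quad, zero_mul]
    have h1 : tau ρ a (b * a * b⁻¹) = -tau ρ a b ^ 2 := by
      rw [tau, nn_conj, rho_inv_eq hb.quad, rho_eq ρ b]
      simp only [tau, sq, mul_add, add_mul, mul_sub, sub_mul, mul_assoc, ha.quad, hb.quad, ha', hb',
        one_mul, mul_one, mul_zero]
      abel
    have h2 := ih (n - 1) (by omega) ha (ha.conj hb.mem) (by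
      rw [h1, neg_pow, ← pow_mul, show 2 * (n - 1) = n + (n - 2) by omega, pow_add, hn]; simp)
    rw [← tau_mul_left ha.quad, h1, neg_mul, neg_eq_zero] at h2
    simpa only [tau, sq, mul_add, add_mul, mul_assoc, ha.quad, hb.quad, ha', hb', mul_zero,
      add_zero, zero_add] using h2
  have k1 := key ha hb hn
  have k2 := key hb ha (tau_comm ρ a b ▸ hn)
  have h2 := isUnit_two (V := V) h5
  have ta := commute_tau_left ha.quad b
  have hτ := tau_mul_left ha.quad b
  have hc : ρ (a * b * a⁻¹ * b⁻¹) = (1 + nn ρ a) * (1 + nn ρ b) * (1 - nn ρ a) * (1 - nn ρ b) := by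
    rw [map_mul, map_mul, map_mul, rho_inv_eq ha.quad, rho_inv_eq hb.quad, ← rho_eq, ← rho_eq]
  have hq := ha.quad
  have hq' := hb.quad
  set α := nn ρ a with hα
  set β := nn ρ b with hβ
  have ha' : ∀ x, α * (α * x) = 0 := fun x => by rw [← mul_assoc, hq, zero_mul]
  have hb' : ∀ x, β * (β * x) = 0 := fun x => by rw [← mul_assoc, hq', zero_mul]
  have k1' : ∀ x, α * (β * (α * (β * (α * x)))) = 0 := fun x => by
    simpa only [mul_assoc, zero_mul] using congrArg (· * x) k1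
  have k2' : ∀ x, β * (α * (β * (α * (β * x)))) = 0 := fun x => by
    simpa only [mul_assoc, zero_mul] using congrArg (· * x) k2
  set c := a * b * a⁻¹ * b⁻¹ with hc'
  have hcG : c ∈ G := mul_mem (mul_mem (mul_mem ha.mem hb.mem) (inv_mem ha.mem)) (inv_mem hb.mem)
  have hu : nn ρ (c * a * c⁻¹ * a⁻¹) = 2 * (α * (β * α)) + β * (α * (β * α)) - α * (β * (α * β)) := by
    rw [nn, sub_eq_iff_eq_add]
    refine (isUnit_rho ρ (a * c)).mul_right_cancel ?_
    rw [← map_mul, show c * a * c⁻¹ * a⁻¹ * (a * c) = c * a by group, map_mul ρ c, map_mul ρ a c,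
      hc, rho_eq ρ a, ← hα]
    simp only [two_mul, mul_add, add_mul, mul_sub, sub_mul, mul_assoc, hq, hq', ha', hb', k1, k2,
      k1', k2', one_mul, mul_one, mul_zero, zero_mul]
    abel
  have hu2 : 2 * nn ρ (c * a * c⁻¹ * a⁻¹) = (2 + β) * (α * β * α) * (2 - β) := by
    rw [hu]
    simp only [two_mul, mul_two, mul_add, add_mul, mul_sub, mul_assoc, k2]
    abel
  have hβn : IsNilpotent β := ⟨2, by rw [sq, hq']⟩
  by_contra h0
  have h3 := ha.min (c * a * c⁻¹ * a⁻¹) (mul_mem (mul_mem (mul_mem hcG ha.mem) (inv_mem hcG))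
    (inv_mem ha.mem)) (fun h => by
      rw [h, mul_zero, eq_comm, sub_eq_add_neg, (hβn.neg.isUnit_add_left_of_commute h2
        (Commute.ofNat_right _ 2)).mul_left_eq_zero, (hβn.isUnit_add_left_of_commute h2
        (Commute.ofNat_right _ 2)).mul_right_eq_zero] at hu2
      exact h0 hu2) (by
      rw [hu]
      simp only [two_mul, mul_add, add_mul, mul_sub, sub_mul, mul_assoc, ha', hb', k1', k2',
        mul_zero, add_zero, sub_zero])
  obtain ⟨w, hw⟩ := h2.exists_left_inv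
  have h4 : rk (nn ρ (c * a * c⁻¹ * a⁻¹)) ≤ rk (α * tau ρ a b) := by
    rw [← one_mul (nn ρ _), ← hw, mul_assoc, hu2, ta.eq, hτ]
    exact (rk_mul_le_right _ _).trans ((rk_mul_le_left _ _).trans (rk_mul_le_right _ _))
  have h6 := range_eq_of_rk (LinearMap.range_comp_le_range (tau ρ a b) α) (h3.trans h4)
  have h7 : ∀ k, tau ρ a b ^ k * α = 0 → α = 0 := fun k => by
    induction k with
    | zero => simp
    | succ k ih =>
      intro h
      refine ih (mul_eq_of_range_le (w := 0) (x := α * tau ρ a b) ?_ h6.ge |>.trans (zero_mul _))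
      rw [ta.eq, ← mul_assoc, ← pow_succ, h, zero_mul]
  exact ha.ne (h7 n (by rw [hn, zero_mul]))

end Cfsg.Lib.Flav
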