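import Cfsg.Agent.Lib.Flav.Fix

/-!
# Quadratic action and coprime automorphisms
-/

set_option autoImplicit false
set_option linter.unusedSectionVars false

namespace Cfsg.Lib.Flav
open Subgroup Cfsg.Lib Cfsg.Lib.Quad
open scoped MatrixGroups

universe u v

theorem section_of_map {X Γ Γ' : Type*} [Group X] [Group Γ] [Group Γ'] [Finite Γ]
    {A G : Subgroup Γ} (hA : CoprimeAct A G) (f : Γ →* Γ')
    (h : PgHasSection X (G.map f ⊓ centralizer (A.map f : Set Γ') : Subgroup Γ')) :
    PgHasSection X (G ⊓ centralizer (A : Set Γ) : Subgroup Γ) := by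
  rw [hA.map_inf_centralizer' f] at h
  exact h.of_surjective _ (f.subgroupMap_surjective _)

theorem section_of_le {X Γ : Type*} [Group X] [Group Γ] {H K : Subgroup Γ} (h : H ≤ K)
    (hs : PgHasSection X H) : PgHasSection X K :=
  hs.of_injective _ (inclusion_injective h)

variable {p : ℕ} [hp : Fact p.Prime]

section
variable {V V' : Type*} [AddCommGroup V] [Module (ZMod p) V] [AddCommGroup V'] [Module (ZMod p) V']
  {Γ : Type*} [Group Γ] {ρ : Γ →* Module.End (ZMod p) V} {ρ' : Γ →* Module.End (ZMod p) V'}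
  {f : V →ₗ[ZMod p] V'} (hf : ∀ g v, f (ρ g v) = ρ' g (f v))
include hf

theorem nn_intertw (g : Γ) (v : V) : f (nn ρ g v) = nn ρ' g (f v) := by simp [nn, hf]

theorem tau_intertw (a b : Γ) (n : ℕ) (v : V) :
    f ((tau ρ a b ^ n) v) = (tau ρ' a b ^ n) (f v) := by
  induction n with
  | zero => rfl
  | succ n ih =>
    rw [pow_succ', pow_succ', Module.End.mul_apply, Module.End.mul_apply, ← ih]
    simp [tau, nn_intertw hf]

end

theorem thmB (h5 : 5 ≤ p) (n : ℕ) : ∀ {V : Type v} [AddCommGroup V] [Module (ZMod p) V] [Finite V]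
    {Γ : Type u} [Group Γ] [Finite Γ] (ρ : Γ →* Module.End (ZMod p) V) (G A : Subgroup Γ)
    [G.Normal], CoprimeAct A G → Nat.card Γ + Nat.card G + Nat.card V = n → ∀ a ∈ G, ∀ b ∈ G,
    nn ρ a * nn ρ a = 0 → nn ρ b * nn ρ b = 0 → ¬ IsNilpotent (tau ρ a b) →
    PgHasSection (Matrix.ProjectiveSpecialLinearGroup (Fin 2) (ZMod p))
      (G ⊓ centralizer (A : Set Γ) : Subgroup Γ) := by
  induction n using Nat.strong_induction_on with
  | _ n ih =>
  intro V _ _ _ Γ _ _ ρ G A hG hA hn a ha b hb qa qb hab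
  by_cases hk : ρ.ker = ⊥
  swap
  · have : (G.map (QuotientGroup.mk' ρ.ker)).Normal := hG.map _ (QuotientGroup.mk'_surjective _)
    refine section_of_map hA (QuotientGroup.mk' ρ.ker) (ih _ ?_
      (QuotientGroup.lift ρ.ker ρ le_rfl) _ _ (hA.map _) rfl _ ⟨a, ha, rfl⟩ _ ⟨b, hb, rfl⟩ qa qb hab)
    have h1 := Nat.le_of_dvd Nat.card_pos (card_map_dvd G (QuotientGroup.mk' ρ.ker))
    have h2 := card_eq_card_quotient_mul_card_subgroup ρ.ker
    have h3 := (one_lt_card_iff_ne_bot _).2 hk
    have h4 : 0 < Nat.card (Γ ⧸ ρ.ker) := Nat.card_pos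
    nlinarith
  have hρ := ρ.ker_eq_bot_iff.1 hk
  by_cases hO : pCore p Γ = ⊥
  swap
  · let W := fixSub ρ (pCore p Γ)
    have hW : ∀ g, W ≤ W.comap (ρ g) := fun g _ hv =>
      apply_mem_fixSub (le_normalizer_of_normal (mem_top g)) hv
    have h1 : 1 < Nat.card W := by
      let := MulAction.compHom V (ρ.comp (pCore p Γ).subtype)
      have : Nontrivial V := not_subsingleton_iff_nontrivial.1 fun _ =>
        hab ⟨0, Subsingleton.elim _ _⟩
      obtain ⟨w, hw, hw0⟩ := (isPGroup_pCore (p := p) (G := Γ)).exists_fixed_point_of_prime_dvd_card_of_fixed_point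
        V (a := 0) (by
          rw [Module.natCard_eq_pow_finrank (K := ZMod p), Nat.card_zmod]
          exact dvd_pow_self p Module.finrank_pos.ne') fun g => map_zero (ρ g)
      exact Finite.one_lt_card_iff_nontrivial.2 ⟨0, ⟨w, fun g hg => hw ⟨g, hg⟩⟩,
        fun e => hw0 (congrArg Subtype.val e)⟩
    have : Finite (V ⧸ W) := .of_surjective _ W.mkQ_surjective
    have h2 : 1 < Nat.card (V ⧸ W) := Finite.one_lt_card_iff_nontrivial.2
      (Submodule.Quotient.nontrivial_iff.2 fun e => hO (eq_bot_iff.2 fun g hg => hρ (by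
        ext v; simpa using mem_fixSub.1 (e.ge (Submodule.mem_top (x := v))) g hg)))
    have h3 := Submodule.card_eq_card_quotient_mul_card W
    have f1 : ∀ g v, W.subtype (Representation.subrepresentation ρ W hW g v) = ρ g (W.subtype v) :=
      fun _ _ => rfl
    have f2 : ∀ g v, W.mkQ (ρ g v) = Representation.quotient ρ W hW g (W.mkQ v) := fun _ _ => rfl
    have q1 : ∀ a, nn ρ a * nn ρ a = 0 → nn (Representation.subrepresentation ρ W hW) a *
        nn (Representation.subrepresentation ρ W hW) a = 0 := fun a q => by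
      ext1 v
      apply W.subtype_injective
      rw [Module.End.mul_apply, nn_intertw f1, nn_intertw f1, ← Module.End.mul_apply, q]; rfl
    have q2 : ∀ a, nn ρ a * nn ρ a = 0 → nn (Representation.quotient ρ W hW) a *
        nn (Representation.quotient ρ W hW) a = 0 := fun a q => LinearMap.ext fun v => by
      obtain ⟨v, rfl⟩ := W.mkQ_surjective v
      rw [Module.End.mul_apply, ← nn_intertw f2, ← nn_intertw f2, ← Module.End.mul_apply, q]; rfl
    by_cases n1 : IsNilpotent (tau (Representation.subrepresentation ρ W hW) a b)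
    · refine ih _ (by nlinarith) (Representation.quotient ρ W hW) G A hA rfl a ha b hb (q2 a qa)
        (q2 b qb) fun ⟨j, hj⟩ => hab ?_
      obtain ⟨i, hi⟩ := n1
      refine ⟨i + j, LinearMap.ext fun v => ?_⟩
      have := tau_intertw f2 a b j v
      rw [hj, LinearMap.zero_apply, Submodule.mkQ_apply, Submodule.Quotient.mk_eq_zero] at this
      have h4 := tau_intertw f1 a b i ⟨_, this⟩
      rw [hi] at h4
      rw [pow_add]; exact h4.symm
    · exact ih _ (by nlinarith) (Representation.subrepresentation ρ W hW) G A hA rfl a ha b hb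
        (q1 a qa) (q1 b qb) n1
  by_cases hmin : ∀ H ≤ G, A ≤ normalizer (H : Set Γ) → ∀ x ∈ H, ∀ y ∈ H, PR ρ G x y → H = G
  swap
  · push Not at hmin
    obtain ⟨H, hH, hAH, x, hx, y, hy, hxy, hne⟩ := hmin
    have : (H.subgroupOf (H ⊔ A)).Normal :=
      (normal_subgroupOf_iff_le_normalizer le_sup_left).2 (sup_le le_normalizer hAH)
    have hc := hA.mono_right hH hAH
    have c1 := Nat.card_congr (subgroupOfEquivOfLe (le_sup_left : H ≤ H ⊔ A)).toEquiv
    have c2 := Nat.card_congr (subgroupOfEquivOfLe (le_sup_right : A ≤ H ⊔ A)).toEquiv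
    have := ih _ (by
        have h1 := card_le_card_group (H ⊔ A)
        have h2 := card_lt_of_lt (lt_of_le_of_ne hH hne)
        omega) (ρ.comp (H ⊔ A).subtype) (H.subgroupOf (H ⊔ A)) (A.subgroupOf (H ⊔ A))
      ⟨le_normalizer_of_normal, by rw [c1, c2]; exact hc.cop, hc.solv.imp
        (fun h => by have := h; exact Group.isSolvable_of_surjective (f :=
          (subgroupOfEquivOfLe le_sup_right).symm.toMonoidHom) (MulEquiv.surjective _))
        (fun h => by have := h; exact Group.isSolvable_of_surjective (f :=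
          (subgroupOfEquivOfLe le_sup_left).symm.toMonoidHom) (MulEquiv.surjective _))⟩ rfl ⟨x, mem_sup_left hx⟩ hx
      ⟨y, mem_sup_left hy⟩ hy hxy.l.quad hxy.r.quad hxy.not_nil
    refine section_of_le (H := Subgroup.map (H ⊔ A).subtype _) ?_
      (this.of_injective (equivMapOfInjective _ _ (H ⊔ A).subtype_injective).toMonoidHom
        (MulEquiv.injective _))
    rintro _ ⟨g, hg, rfl⟩
    exact ⟨hH hg.1, fun r hr => congrArg Subtype.val (hg.2 ⟨r, mem_sup_right hr⟩ hr)⟩
  obtain ⟨c, ⟨c1, c2, c3⟩, hc⟩ := exists_minimalFor_of_wellFoundedLT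
    (fun c => c ∈ G ∧ nn ρ c ≠ 0 ∧ nn ρ c * nn ρ c = 0) (fun c => rk (nn ρ c))
    ⟨a, ha, fun e => hab ⟨1, by simp [tau, e]⟩, qa⟩
  refine Cen.hasSection ⟨h5, hρ, fun a ha => ?_, fun x y h => h.central h5 hρ hA hmin⟩ hA
    (a := c) ⟨c1, c2, c3, fun b b1 b2 b3 => not_lt.1 fun e => (hc ⟨b1, b2, b3⟩ e.le).not_gt e⟩
  by_contra hno
  have := baerSuzuki (p := p) a fun g => by
    have hr := ha.conj' (hG.conj_mem a ha.mem g)
    refine isPGroup_of_nil hρ ha.quad hr.quad (not_not.1 fun e => hno ?_)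
    obtain ⟨x, x1, -, x3⟩ := hr.exists_part h5 hρ ha (by rwa [tau_comm])
    exact ⟨x, ha, x1, x3.symm⟩
  rw [hO, mem_bot] at this
  exact ha.ne (by simp [this, nn])

end Cfsg.Lib.Flav
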