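import Cfsg.Agent.Lib.Flav.ThmB
import Cfsg.Agent.Lib.FT.Final

/-!
# Flavell's equivariant ZJ-theorem
-/

set_option autoImplicit false
set_option linter.unusedSectionVars false

namespace Cfsg.Lib.Flav
open Subgroup Cfsg.Lib Cfsg.Lib.Quad
open scoped MatrixGroups commutatorElement

variable {p : ℕ} [hp : Fact p.Prime] {Γ : Type*} [Group Γ] [Finite Γ] {G A : Subgroup Γ}
  [hG : G.Normal]

theorem section_of_ea (h5 : 5 ≤ p) (hA : CoprimeAct A G) (V : Subgroup Γ) [V.Normal]
    (hV : IsElementaryAbelian p V) {a : Γ} (ha : a ∈ G) (hq : ⁅⁅V, zpowers a⁆, zpowers a⁆ = ⊥)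
    (hna : (QuotientGroup.mk a : Γ ⧸ centralizer (V : Set Γ)) ∉
      pCore p (Γ ⧸ centralizer (V : Set Γ))) :
    PgHasSection PSL(2, ZMod p) (G ⊓ centralizer (A : Set Γ) : Subgroup Γ) := by
  obtain ⟨M, _, _, ⟨m⟩⟩ := exists_conjModel (H := ⊤) hV le_normalizer_of_normal
  have := m.finite
  let ρ := m.rep.comp topEquiv.symm.toMonoidHom
  have hk : ∀ g, ρ g = 1 ↔ g ∈ centralizer (V : Set Γ) := fun g => m.rep_eq_one_iff _
  let ρ' := QuotientGroup.lift (centralizer (V : Set Γ)) ρ fun g hg => (hk g).2 hg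
  have hρ' : Function.Injective ρ' := (injective_iff_map_eq_one _).2 fun g hg => by
    obtain ⟨g, rfl⟩ := QuotientGroup.mk_surjective g
    exact (QuotientGroup.eq_one_iff g).2 ((hk g).1 hg)
  have q : nn ρ a * nn ρ a = 0 := m.quadratic ⟨a, mem_top a⟩ hq
  by_contra hn
  refine hna (baerSuzuki _ fun g => ?_)
  obtain ⟨g, rfl⟩ := QuotientGroup.mk_surjective g
  have q' := quadratic_rep_conj ρ q g
  exact isPGroup_of_nil hρ' q q' (not_not.1 fun e =>
    hn (thmB h5 _ ρ G A hA rfl a ha _ (hG.conj_mem a ha g) q q' e))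

theorem section_of_not_stable (h5 : 5 ≤ p) (hA : CoprimeAct A G) (B : Subgroup Γ) [B.Normal]
    (hB : IsPGroup p B) {a : Γ} (ha : a ∈ G) (hq : ⁅⁅B, zpowers a⁆, zpowers a⁆ = ⊥)
    (hna : (QuotientGroup.mk a : Γ ⧸ centralizer (B : Set Γ)) ∉
      pCore p (Γ ⧸ centralizer (B : Set Γ))) :
    PgHasSection PSL(2, ZMod p) (G ⊓ centralizer (A : Set Γ) : Subgroup Γ) := by
  set Φ := ⁅B, B⁆ ⊔ powerClosure p 1 B with hΦ
  let π := QuotientGroup.mk' Φ
  have hπ : Function.Surjective π := QuotientGroup.mk'_surjective Φ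
  have : (B.map π).Normal := Normal.map inferInstance π hπ
  have : (G.map π).Normal := Normal.map inferInstance π hπ
  refine section_of_map hA π (section_of_ea h5 (hA.map π) (B.map π) ⟨?_, ?_⟩ (a := π a)
    (mem_map_of_mem _ ha) ?_ ?_)
  · rw [← commutator_self_eq_bot_iff, commutator_map_mk'_eq_bot_iff]; exact le_sup_left
  · rintro _ ⟨b, hb, rfl⟩
    rw [← map_pow]
    exact (QuotientGroup.eq_one_iff _).mpr
      (mem_sup_right (by simpa using pg_pow_mem_powerClosure (p := p) (n := 1) hb))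
  · rw [← MonoidHom.map_zpowers, ← map_commutator, ← map_commutator, hq, Subgroup.map_bot]
  · intro h
    apply hna
    rw [pg_mk_mem_pCore_iff] at h ⊢
    obtain ⟨D, -, h3, h4, h5⟩ := h
    have : D.Normal := normal_of_top_le_normalizer h3
    refine ⟨D.comap π, le_top, le_normalizer_of_normal, h4, fun d hd => ?_⟩
    obtain ⟨k, hk⟩ := h5 _ hd
    obtain ⟨j, hj⟩ := exists_pow_coprime_orderOf (p := p) (d ^ p ^ k)
    refine ⟨k + j, ?_⟩
    rw [pow_add, pow_mul]
    set x := (d ^ p ^ k) ^ p ^ j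
    have hx : π x ∈ centralizer (B.map π : Set (Γ ⧸ Φ)) := by
      rw [map_pow, map_pow]; exact pow_mem hk _
    rw [← zpowers_le, le_centralizer_iff]
    refine CoprimeAct.le_centralizer_of_commutator_le_frattini ?_ ?_
    · exact CoprimeAct.of_isPGroup_right hB (by
        rw [Nat.card_zpowers]; exact (Nat.Prime.coprime_iff_not_dvd hp.out).mp hj.symm)
        le_normalizer_of_normal
    · rw [pg_map_frattini_subtype hB, ← commutator_map_mk'_eq_bot_iff,
        commutator_eq_bot_iff_le_centralizer, le_centralizer_iff, MonoidHom.map_zpowers, zpowers_le]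
      exact hx

theorem pgZ_normal_equiv {e : ℕ} (h5 : 5 ≤ p) (hA : CoprimeAct A G) (S : Sylow p Γ)
    (hS : (S : Subgroup Γ) ≤ G) (hc : G ⊓ centralizer (pCore p Γ : Set Γ) ≤ S)
    (hn : ¬ PgHasSection PSL(2, ZMod p) (G ⊓ centralizer (A : Set Γ) : Subgroup Γ)) :
    (pgZ e (S : Subgroup Γ)).Normal := by
  have hst : ∀ B : Subgroup Γ, B.Normal → B ≤ S → ∀ U : Subgroup Γ, U ≤ S → IsMulCommutative U →
      ⁅⁅B, U⁆, U⁆ = ⊥ → ∃ K : Subgroup Γ, K.Normal ∧ U ≤ K ∧ K ≤ centralizer (B : Set Γ) ⊔ S :=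
    fun B _ hBS U hUS _ hq =>
    ⟨(pCore p (Γ ⧸ centralizer (B : Set Γ))).comap (QuotientGroup.mk' _), inferInstance,
      fun a ha => not_not.1 fun e => hn (section_of_not_stable h5 hA B (S.isPGroup'.to_le hBS)
        (hS (hUS ha)) (le_bot_iff.mp ((commutator_mono (commutator_mono le_rfl
          (zpowers_le.mpr ha)) (zpowers_le.mpr ha)).trans hq.le)) e),
      pg_comap_pCore_le_sup_sylow _ S⟩
  have hSZ : (S : Subgroup Γ) ≤ normalizer (pgZ e (S : Subgroup Γ) : Set Γ) :=
    le_normalizer.trans (pg_normalizer_le_normalizer_pgZ e _)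
  obtain ⟨K, hK, hZK, hKS⟩ := hst (pCore p Γ) inferInstance (pCore_le_sylow S) (pgZ e S)
    (pgZ_le e _) (pgZ_isMulCommutative e _) (le_bot_iff.mp ((commutator_mono
      (le_normalizer_iff_commutator_le_right.mp ((pCore_le_sylow S).trans hSZ)) le_rfl).trans
      (commutator_self_eq_bot_iff.mpr (pgZ_isMulCommutative e _)).le))
  have hle : pgZ e (S : Subgroup Γ) ≤ pCore p Γ := (le_inf hZK ((pgZ_le e _).trans hS)).trans
    (le_pCore inferInstance (S.isPGroup'.to_le fun x hx => by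
      obtain ⟨c, hc', s, hs, rfl⟩ := mem_sup_of_normal_left.1 (hKS hx.1)
      exact mul_mem (hc ⟨(mul_mem_cancel_right (hS hs)).1 hx.2, hc'⟩) hs))
  have := pgZ_inf_normal (e := e) (by omega) S hst _ inferInstance (pCore_le_sylow S)
  rwa [inf_eq_left.mpr hle] at this

theorem isSubnormal_map {H : Type*} [Group H] (ι : H →* Γ) [hι : ι.range.Normal] (K : Subgroup H)
    [K.Normal] : (K.map ι).IsSubnormal :=
  .step _ _ (map_le_range ι K) hι.isSubnormal ((normal_subgroupOf_iff_le_normalizer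
    (map_le_range ι K)).2 (by
      rw [MonoidHom.range_eq_map]
      exact (map_mono le_normalizer_of_normal).trans (le_normalizer_map ι)))

theorem zj_of_hom {H : Type*} [Group H] [Finite H] {e : ℕ} (h5 : 5 ≤ p) (ι : H →* Γ)
    (hι : Function.Injective ι) [ι.range.Normal] (hA : CoprimeAct A ι.range)
    (hi : ¬ p ∣ ι.range.index) (hc : IsPConstrained p H) (P : Sylow p H)
    (hn : ¬ PgHasSection PSL(2, ZMod p) (ι.range ⊓ centralizer (A : Set Γ) : Subgroup Γ)) :
    pPrimeCore p H ⊔ normalizer (pgZ e (P : Subgroup H) : Set H) = ⊤ := by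
  let π := QuotientGroup.mk' (pPrimeCore p Γ)
  have hπ : Function.Surjective π := QuotientGroup.mk'_surjective _
  have hk : (π.comp ι).ker = pPrimeCore p H := by
    rw [← MonoidHom.comap_ker, QuotientGroup.ker_mk']
    refine le_antisymm (le_pPrimeCore inferInstance (coprime_card_pPrimeCore.coprime_dvd_left
      (card_comap_dvd_of_injective _ _ hι))) (map_le_iff_le_comap.1
      (le_pPrimeCore_of_isSubnormal (isSubnormal_map ι _)
        (coprime_card_pPrimeCore.coprime_dvd_left (card_map_dvd _ _))))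
  let f := QuotientGroup.lift (pPrimeCore p H) (π.comp ι) hk.ge
  have hf : Function.Injective f := (injective_iff_map_eq_one _).2 fun g hg => by
    obtain ⟨g, rfl⟩ := QuotientGroup.mk_surjective g
    exact (QuotientGroup.eq_one_iff g).2 (hk.le hg)
  have hr : f.range = ι.range.map π := by
    rw [← MonoidHom.range_comp]
    ext x
    exact ⟨fun ⟨g, hg⟩ => by
      obtain ⟨g, rfl⟩ := QuotientGroup.mk_surjective g
      exact ⟨g, hg⟩, fun ⟨g, hg⟩ => ⟨g, hg⟩⟩
  have : f.range.Normal := hr ▸ Normal.map inferInstance π hπ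
  have h1 := (IsSylowIn.of_sylow_top P).map (QuotientGroup.mk' (pPrimeCore p H))
  rw [map_top_of_surjective _ (QuotientGroup.mk'_surjective _)] at h1
  obtain ⟨S, hS⟩ := h1.exists_sylow_top
  have h2 := (IsSylowIn.of_sylow_top S).map f
  rw [← MonoidHom.range_eq_map] at h2
  obtain ⟨T, hT⟩ := (IsSylowIn.of_not_dvd_relIndex le_top h2.isPGroup (by
    rw [relIndex_top_right, ← relIndex_mul_index h2.le, hp.out.dvd_mul, not_or]
    exact ⟨h2.not_dvd_relIndex, fun h => hi (h.trans (hr ▸ index_map_dvd _ hπ))⟩)).exists_sylow_top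
  have h3 := pgZ_normal_equiv (e := e) h5 (G := f.range) (hr ▸ hA.map π) T (hT ▸ h2.le) (by
    rintro _ ⟨⟨x, rfl⟩, hx⟩
    rw [hT]
    refine mem_map_of_mem f (pCore_le_sylow S (isPConstrained_iff.1 hc fun y hy => hf ?_))
    rw [map_mul, map_mul]
    exact hx _ (le_pCore_of_isSubnormal (isSubnormal_map f _) (isPGroup_pCore.map f)
      (mem_map_of_mem f hy))) fun h => hn (section_of_map hA π (hr ▸ h))
  rw [hT, pgZ_map_of_injective f hf] at h3
  have h2 := h3.of_map_injective hf
  rw [hS, pgZ_map _ (by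
    rw [QuotientGroup.ker_mk']
    exact inf_eq_bot_of_isPGroup_of_coprime P.isPGroup' coprime_card_pPrimeCore)] at h2
  have h3 := pg_normalizer_map_mk' (P.isPGroup'.to_le (pgZ_le e _))
    (not_dvd_card_pPrimeCore (p := p) (G := H))
  rw [normalizer_eq_top] at h3
  have := congrArg (comap (QuotientGroup.mk' (pPrimeCore p H))) h3
  rw [comap_top, comap_map_eq, QuotientGroup.ker_mk', sup_comm] at this
  exact this.symm

theorem zj_equivariant {H : Type*} [Group H] [Finite H] {e : ℕ} (h5 : 5 ≤ p)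
    (hc : IsPConstrained p H) (P : Sylow p H) (A : Subgroup (MulAut H))
    (hA : (Nat.card A).Coprime (Nat.card H)) (C : Subgroup H)
    (hC : ∀ g, g ∈ C ↔ ∀ a ∈ A, a g = g) (hn : ¬ PgHasSection PSL(2, ZMod p) C) :
    pPrimeCore p H ⊔ normalizer (pgZ e (P : Subgroup H) : Set H) = ⊤ := by
  by_cases hd : p ∣ Nat.card H
  swap
  · rw [pPrimeCore_eq_top_iff.2 ((Nat.Prime.coprime_iff_not_dvd hp.out).2 hd).symm, top_sup_eq]
  have : Finite (H ⋊[A.subtype] A) := .of_equiv _ SemidirectProduct.equivProd.symm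
  have h0 := SemidirectProduct.range_inl_eq_ker_rightHom (φ := A.subtype)
  have : (SemidirectProduct.inl : H →* H ⋊[A.subtype] A).range.Normal := h0 ▸ inferInstance
  have c1 := Nat.card_congr (MonoidHom.ofInjective
    (SemidirectProduct.inl_injective (φ := A.subtype))).toEquiv
  have c2 := Nat.card_congr (MonoidHom.ofInjective
    (SemidirectProduct.inr_injective (φ := A.subtype))).toEquiv
  refine zj_of_hom (A := SemidirectProduct.inr.range) h5
    (SemidirectProduct.inl : H →* H ⋊[A.subtype] A) SemidirectProduct.inl_injective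
    ⟨le_normalizer_of_normal, c1 ▸ c2 ▸ hA, ?_⟩ ?_ hc P fun h => hn ?_
  · refine Or.imp FT.odd_order_solvable FT.odd_order_solvable ?_
    rw [← c1, ← c2, ← Nat.not_even_iff_odd, ← Nat.not_even_iff_odd, ← not_and_or]
    exact fun h => absurd (Nat.eq_one_of_dvd_coprimes hA h.1.two_dvd h.2.two_dvd) (by decide)
  · rw [h0, index_ker, MonoidHom.range_eq_top.2 SemidirectProduct.rightHom_surjective, card_top]
    exact fun h => hp.out.one_lt.ne' (Nat.eq_one_of_dvd_coprimes hA h hd)
  · refine PgHasSection.of_surjective (section_of_le (K := C.map SemidirectProduct.inl) ?_ h) _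
      (MonoidHom.subgroupMap_surjective _ _)
    rintro _ ⟨⟨x, rfl⟩, hx⟩
    refine mem_map_of_mem _ ((hC x).2 fun a ha => SemidirectProduct.inl_injective (φ := A.subtype) ?_)
    have := hx _ ⟨⟨a, ha⟩, rfl⟩
    rw [← mul_inv_eq_iff_eq_mul, ← map_inv, ← SemidirectProduct.inl_aut] at this
    exact this

end Cfsg.Lib.Flav
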